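import Cfsg.Agent.H32.MinDegSL2

/-!
Generation of `SL_n(q)` by three conjugate regular unipotent elements.
-/

set_option autoImplicit false
set_option linter.unusedSectionVars false

namespace Cfsg.Agent.H32

open Matrix Module

section ts

variable {ι : Type} [Fintype ι] [DecidableEq ι] {F : Type*} [Field F]
  {H : Subgroup (SpecialLinearGroup ι F)}

theorem ts_conj_mem {g : SpecialLinearGroup ι F} (hg : g ∈ H) {x φ : ι → F} (h : ts x φ ∈ H)
    {φ' : ι → F} (h' : φ' ᵥ* (g : Matrix ι ι F) = φ) : ts ((g : Matrix ι ι F) *ᵥ x) φ' ∈ H := by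
  have := H.mul_mem (H.mul_mem hg h) (H.inv_mem hg)
  rwa [conj_ts, ← h', vecMul_vecMul_inv] at this

theorem ts_conj_mem' {g : SpecialLinearGroup ι F} (hg : g ∈ H) {x φ : ι → F} (h : ts x φ ∈ H)
    {x' : ι → F} (h' : (g : Matrix ι ι F) *ᵥ x' = x) : ts x' (φ ᵥ* (g : Matrix ι ι F)) ∈ H := by
  have := H.mul_mem (H.mul_mem (H.inv_mem hg) h) (H.inv_mem (H.inv_mem hg))
  rwa [conj_ts, inv_inv, ← h', mulVec_mulVec, sl_inv_mul, one_mulVec] at this

theorem ts_cancel_left {x y φ : ι → F} (hx : φ ⬝ᵥ x = 0) (hy : φ ⬝ᵥ y = 0) (h : ts x φ ∈ H)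
    (h' : ts (x + y) φ ∈ H) : ts y φ ∈ H := by
  rwa [ts_add_left hx hy, H.mul_mem_cancel_left h] at h'

theorem ts_cancel_right {x φ χ : ι → F} (hx : φ ⬝ᵥ x = 0) (hy : χ ⬝ᵥ x = 0) (h : ts x φ ∈ H)
    (h' : ts x (φ + χ) ∈ H) : ts x χ ∈ H := by
  rwa [ts_add_right hx hy, H.mul_mem_cancel_left h] at h'

theorem ts_comm_mem {x φ x' φ' : ι → F} (h1 : φ ⬝ᵥ x = 0) (h2 : φ' ⬝ᵥ x' = 0) (h3 : φ' ⬝ᵥ x = 0)
    (h : ts x φ ∈ H) (h' : ts x' φ' ∈ H) : ts ((φ ⬝ᵥ x') • x) φ' ∈ H := by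
  have h8 := H.mul_mem h h'
  rw [ts_mul_ts h1, h3, zero_smul, sub_zero, H.mul_mem_cancel_right h] at h8
  exact ts_cancel_left h2 (by rw [dotProduct_smul, h3, smul_zero]) h' h8

end ts

variable {n : ℕ} {F : Type*} [Field F]

/-- The standard basis vectors, indexed by natural numbers. -/
def bv (n : ℕ) (F : Type*) [Field F] (k : ℕ) : Fin n → F := fun i => if (i : ℕ) = k then 1 else 0

theorem bv_eq_single (i : Fin n) : bv n F i = Pi.single i 1 := by
  ext j
  simp [bv, Pi.single_apply, Fin.ext_iff]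

theorem bv_dot {k : ℕ} (hk : k < n) (v : Fin n → F) : bv n F k ⬝ᵥ v = v ⟨k, hk⟩ := by
  rw [show bv n F k = Pi.single ⟨k, hk⟩ 1 from bv_eq_single ⟨k, hk⟩, single_dotProduct, one_mul]

theorem bv_dot_self {k : ℕ} (hk : k < n) : bv n F k ⬝ᵥ bv n F k = 1 := by
  rw [bv_dot hk]
  simp [bv]

theorem bv_dot_ne {k l : ℕ} (h : k ≠ l) : bv n F k ⬝ᵥ bv n F l = 0 := by
  refine Finset.sum_eq_zero fun i _ => ?_
  simp only [bv]
  split_ifs with h1 h2
  · exact absurd (h1.symm.trans h2) h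
  all_goals simp

theorem bv_dot_bv (k l : ℕ) : bv n F k ⬝ᵥ bv n F l = if k = l ∧ k < n then 1 else 0 := by
  split_ifs with h
  · rw [← h.1, bv_dot_self h.2]
  · by_cases h1 : k = l
    · refine Finset.sum_eq_zero fun i _ => ?_
      have : (i : ℕ) ≠ k := fun h2 => h ⟨h1, h2 ▸ i.2⟩
      simp [bv, this]
    · exact bv_dot_ne h1

theorem vec_ext_bv {φ χ : Fin n → F} (h : ∀ k < n, φ ⬝ᵥ bv n F k = χ ⬝ᵥ bv n F k) : φ = χ := by
  ext i
  have := h i i.2
  rwa [bv_eq_single, dotProduct_single, dotProduct_single, mul_one, mul_one] at this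

theorem eq_top_of_uw {m : ℕ} (H : Subgroup (SpecialLinearGroup (Fin (m + 3)) F))
    {u w : SpecialLinearGroup (Fin (m + 3)) F} (hu : u ∈ H) (hw : w ∈ H) {b : F} (hb : b ≠ 0)
    (hu0 : u.1 *ᵥ bv (m + 3) F 0 = bv _ F 0)
    (hu1 : ∀ k, k + 1 < m + 3 → u.1 *ᵥ bv (m + 3) F (k + 1) =
      bv _ F (k + 1) + bv _ F k)
    (hw0 : w.1 *ᵥ bv (m + 3) F 0 = bv _ F 0 + b • bv _ F (m + 2))
    (hw1 : w.1 *ᵥ bv (m + 3) F 1 = bv _ F 1)
    (hw2 : ∀ k, k + 2 < m + 3 → w.1 *ᵥ bv (m + 3) F (k + 2) =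
      bv _ F (k + 2) + bv _ F (k + 1)) :
    (∀ c d : F, ts (c • bv (m + 3) F 1) (bv _ F (m + 2)) ∈ H →
      ts (d • bv (m + 3) F 1) (bv _ F (m + 2)) ∈ H →
      ts ((b * c * d) • bv (m + 3) F 1) (bv _ F (m + 2)) ∈ H) ∧
    ((∀ c : F, ts (c • bv (m + 3) F 1) (bv _ F (m + 2)) ∈ H) → H = ⊤) := by
  have hu2 : ∀ k, bv (m + 3) F k ᵥ* u.1 = bv _ F k + bv _ F (k + 1) := by
    intro k
    apply vec_ext_bv
    intro l hl
    rw [← dotProduct_mulVec]
    rcases l with _ | l
    · simp [hu0, bv_dot_bv]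
    · rw [hu1 l hl, dotProduct_add, add_dotProduct, bv_dot_bv k l, bv_dot_bv (k + 1)]
      congr 2
      apply propext
      omega
  have hu3 : bv (m + 3) F (m + 2) ᵥ* u.1 = bv _ F (m + 2) := by
    rw [hu2]
    ext i
    have := i.2
    simp only [Pi.add_apply, bv, add_eq_left, ite_eq_right_iff]
    omega
  have hw3 : bv (m + 3) F 0 ᵥ* w.1 = bv _ F 0 := by
    apply vec_ext_bv
    intro l hl
    rw [← dotProduct_mulVec]
    rcases l with _ | _ | l
    · simp [hw0, bv_dot_bv]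
    · simp [hw1]
    · simp [hw2 l hl, bv_dot_bv]
  have hw4 : bv (m + 3) F (m + 2) ᵥ* w.1 = bv _ F (m + 2) + b • bv _ F 0 := by
    apply vec_ext_bv
    intro l hl
    rw [← dotProduct_mulVec]
    rcases l with _ | _ | l
    · simp [hw0, bv_dot_bv]
    · simp [hw1, bv_dot_bv]
    · rw [hw2 l hl]
      simp [bv_dot_bv]
      omega
  have h0L : ∀ c : F, ts (c • bv (m + 3) F 1) (bv _ F (m + 2)) ∈ H →
      ts (c • bv (m + 3) F 0) (bv _ F (m + 2)) ∈ H := by
    intro c hc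
    have := ts_conj_mem hu hc hu3
    rw [mulVec_smul, hu1 0 (by omega), smul_add] at this
    exact ts_cancel_left (by simp [bv_dot_bv]) (by simp [bv_dot_bv]) hc this
  have h10 : ∀ c : F, ts (c • bv (m + 3) F 1) (bv _ F (m + 2)) ∈ H →
      ts (c • bv (m + 3) F 1) (b • bv _ F 0) ∈ H := by
    intro c hc
    have := ts_conj_mem' hw hc (x' := c • bv _ F 1) (by rw [mulVec_smul, hw1])
    rw [hw4] at this
    exact ts_cancel_right (by simp [bv_dot_bv]) (by simp [bv_dot_bv]) hc this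
  constructor
  · intro c d hc hd
    have := ts_comm_mem (by simp [bv_dot_bv]) (by simp [bv_dot_bv]) (by simp [bv_dot_bv])
      (h10 c hc) (h0L d hd)
    convert this using 2
    simp [bv_dot_bv, smul_smul, mul_comm, mul_left_comm]
  intro hall
  have h10' : ∀ c : F, ts (c • bv (m + 3) F 1) (bv _ F 0) ∈ H := by
    intro c
    have := h10 (b⁻¹ * c) (hall _)
    rwa [← ts_smul (by simp [bv_dot_bv]), smul_smul, mul_inv_cancel_left₀ hb] at this
  have h01 : ∀ c : F, ts (c • bv (m + 3) F 0) (bv _ F 1) ∈ H := by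
    intro c
    have h1 := ts_conj_mem' hu (h10' (-c)) (x' := (-c) • (bv _ F 1 - bv _ F 0))
      (by rw [mulVec_smul, mulVec_sub, hu0, hu1 0 (by omega), add_sub_cancel_right])
    have h2 : bv (m + 3) F 0 ⬝ᵥ (1 : F) • bv (m + 3) F 1 = 0 := by simp [bv_dot_bv]
    have h4 := ts_conj_mem (h10' 1) h1 (φ' := bv _ F 1) (by
      rw [coe_ts h2, H26.vecMul_tv, hu2]
      simp [bv_dot_bv, add_comm])
    convert h4 using 2
    rw [ts_mulVec h2]
    simp only [dotProduct_smul, dotProduct_sub, bv_dot_bv]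
    simp
    module
  have h0k : ∀ k, k + 1 < m + 3 → ∀ c : F, ts (c • bv (m + 3) F 0) (bv _ F (k + 1)) ∈ H := by
    intro k
    induction k with
    | zero => exact fun _ => h01
    | succ k ih =>
      intro hk c
      have h1 := ih (by omega) c
      have := ts_conj_mem' hu h1 (x' := c • bv _ F 0) (by rw [mulVec_smul, hu0])
      rw [hu2] at this
      exact ts_cancel_right (by simp [bv_dot_bv]) (by simp [bv_dot_bv]) h1 this
  have hL0 : ∀ c : F, ts (c • bv (m + 3) F (m + 2)) (bv _ F 0) ∈ H := by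
    intro c
    have h1 := ts_conj_mem hw (h0L (-(b⁻¹ * b⁻¹ * c)) (hall _))
      (φ' := bv _ F (m + 2) - b • bv _ F 0) (by rw [sub_vecMul, smul_vecMul, hw3, hw4]; simp)
    have h2 : bv (m + 3) F (m + 2) ⬝ᵥ (-b⁻¹) • bv (m + 3) F 0 = 0 := by simp [bv_dot_bv]
    have h4 := ts_conj_mem (h0L (-b⁻¹) (hall _)) h1 (φ' := (-b) • bv _ F 0) (by
      rw [coe_ts h2, H26.vecMul_tv]
      simp [bv_dot_bv, inv_mul_cancel₀ hb]
      module)
    have h5 : (ts ((-b⁻¹) • bv (m + 3) F 0) (bv (m + 3) F (m + 2))).1 *ᵥ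
        (w.1 *ᵥ (-(b⁻¹ * b⁻¹ * c)) • bv (m + 3) F 0) =
        (-(b⁻¹ * c)) • bv (m + 3) F (m + 2) := by
      rw [ts_mulVec h2, mulVec_smul, hw0]
      simp only [dotProduct_smul, dotProduct_add, bv_dot_bv]
      simp only [smul_add, smul_smul]
      simp
      match_scalars <;> field_simp <;> ring
    rw [h5, ← ts_smul (by simp [bv_dot_bv]), smul_smul] at h4
    convert h4 using 3
    field_simp
  have hk0 : ∀ j k, k + 1 + j = m + 2 → ∀ c : F, ts (c • bv (m + 3) F (k + 1)) (bv _ F 0) ∈ H := by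
    intro j
    induction j with
    | zero =>
      intro k hk
      rw [add_zero] at hk
      rw [hk]
      exact hL0
    | succ j ih =>
      intro k hk c
      have h1 := ih (k + 1) (by omega) c
      have := ts_conj_mem hw h1 hw3
      rw [mulVec_smul, hw2 k (by omega), smul_add] at this
      exact ts_cancel_left (by simp [bv_dot_bv]) (by simp [bv_dot_bv]) h1 this
  refine H26.sl_eq_top_of_transvection_mem _ fun i j hij c => ?_
  rw [← ts_single, show (Pi.single i c : Fin (m + 3) → F) = c • bv _ F i by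
    rw [bv_eq_single, ← Pi.single_smul', smul_eq_mul, mul_one], ← bv_eq_single]
  obtain ⟨i, hi⟩ := i
  obtain ⟨j, hj⟩ := j
  have hij' : i ≠ j := fun h => hij (Fin.ext h)
  rcases i with _ | i
  · rcases j with _ | j
    · exact absurd rfl hij'
    · exact h0k j hj c
  rcases j with _ | j
  · exact hk0 (m + 1 - i) i (by omega) c
  have := ts_comm_mem (by simp [bv_dot_bv]) (by simp [bv_dot_bv]) (by simp [bv_dot_bv]; omega)
    (hk0 (m + 1 - i) i (by omega) c) (h0k j hj 1)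
  simpa [bv_dot_bv] using this

/-- The nilpotent shift. -/
def shiftN (n : ℕ) (F : Type*) [Field F] : Matrix (Fin n) (Fin n) F :=
  of fun i j => if (i : ℕ) + 1 = j then 1 else 0

theorem shiftN_pow (k : ℕ) :
    shiftN n F ^ k = of fun i j : Fin n => if (i : ℕ) + k = j then 1 else 0 := by
  induction k with
  | zero =>
    ext i j
    simp [one_apply, Fin.ext_iff]
  | succ k ih =>
    ext i j
    rw [pow_succ, ih, mul_apply, of_apply]
    simp only [shiftN, of_apply]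
    by_cases h : (i : ℕ) + k < n
    · rw [Finset.sum_eq_single ⟨i + k, h⟩ (fun l _ hl => by
        rw [if_neg fun h' => hl (Fin.ext h'.symm), zero_mul]) (by simp)]
      simp [add_assoc]
    · rw [if_neg (by have := j.2; omega)]
      exact Finset.sum_eq_zero fun l _ => by rw [if_neg (by have := l.2; omega), zero_mul]

/-- The Jordan block with eigenvalue one. -/
def jordanSL (n : ℕ) (F : Type*) [Field F] : SpecialLinearGroup (Fin n) F :=
  ⟨1 + shiftN n F, by
    rw [det_of_isUpperTriangular]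
    · simp [shiftN]
    · intro i j hij
      have h : (j : ℕ) < i := hij
      rw [Matrix.add_apply, one_apply_ne (show i ≠ j from ne_of_gt hij), shiftN, of_apply, if_neg (by omega),
        add_zero]⟩

theorem coe_jordanSL : (jordanSL n F : Matrix (Fin n) (Fin n) F) = 1 + shiftN n F := rfl

theorem jordanSL_regular (hn : 0 < n) :
    IsNilpotent ((jordanSL n F : Matrix (Fin n) (Fin n) F) - 1) ∧
      ((jordanSL n F : Matrix (Fin n) (Fin n) F) - 1) ^ (n - 1) ≠ 0 := by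
  rw [coe_jordanSL, add_sub_cancel_left]
  refine ⟨⟨n, ?_⟩, fun h => ?_⟩
  · rw [shiftN_pow]
    ext i j
    rw [of_apply, if_neg (by have := j.2; omega), Matrix.zero_apply]
  · rw [shiftN_pow] at h
    simpa using congrFun (congrFun h ⟨0, hn⟩) ⟨n - 1, by omega⟩

theorem jordanSL_bv_zero : (jordanSL n F : Matrix (Fin n) (Fin n) F) *ᵥ bv n F 0 = bv n F 0 := by
  rw [coe_jordanSL, add_mulVec, one_mulVec, add_eq_left]
  ext i
  change ∑ j, shiftN n F i j * bv n F 0 j = 0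
  refine Finset.sum_eq_zero fun j _ => ?_
  simp only [shiftN, bv, of_apply]
  split_ifs with h1 h2
  · omega
  all_goals simp

theorem jordanSL_bv_succ (k : ℕ) (hk : k + 1 < n) :
    (jordanSL n F : Matrix (Fin n) (Fin n) F) *ᵥ bv n F (k + 1) = bv n F (k + 1) + bv n F k := by
  rw [coe_jordanSL, add_mulVec, one_mulVec, add_right_inj,
    show bv n F (k + 1) = Pi.single ⟨k + 1, hk⟩ 1 from bv_eq_single ⟨k + 1, hk⟩, mulVec_single_one]
  ext i
  simp [shiftN, bv]

theorem jordanSL_conj {m : ℕ} {c : SpecialLinearGroup (Fin (m + 3)) F} {s : F} (hs : s ≠ 0)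
    (h1 : ∀ k, k + 1 < m + 3 → c.1 *ᵥ bv (m + 3) F k = bv _ F (k + 1))
    (h2 : c.1 *ᵥ bv (m + 3) F (m + 2) = s • bv _ F 0) :
    (c * jordanSL _ F * c⁻¹).1 *ᵥ bv (m + 3) F 0 =
      bv _ F 0 + s⁻¹ • bv _ F (m + 2) ∧
    (c * jordanSL _ F * c⁻¹).1 *ᵥ bv (m + 3) F 1 =
      bv _ F 1 ∧
    ∀ k, k + 2 < m + 3 →
      (c * jordanSL _ F * c⁻¹).1 *ᵥ bv (m + 3) F (k + 2) =
        bv _ F (k + 2) + bv _ F (k + 1) := by
  have key : ∀ v, (c * jordanSL _ F * c⁻¹).1 *ᵥ
      (c.1 *ᵥ v) = c.1 *ᵥ ((jordanSL _ F).1 *ᵥ v) := by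
    intro v
    rw [mulVec_mulVec, mulVec_mulVec]
    congr 1
    exact congrArg Subtype.val (inv_mul_cancel_right (c * jordanSL _ F) c)
  refine ⟨?_, ?_, fun k hk => ?_⟩
  · have := key (s⁻¹ • bv _ F (m + 2))
    rwa [mulVec_smul, mulVec_smul (jordanSL _ F).1, jordanSL_bv_succ _ (by omega),
      mulVec_smul c.1, mulVec_add, h1 (m + 1) (by omega), h2, smul_add, smul_smul,
      inv_mul_cancel₀ hs, one_smul] at this
  · have := key (bv _ F 0)
    rwa [jordanSL_bv_zero, h1 _ (by omega)] at this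
  · have := key (bv _ F (k + 1))
    rwa [jordanSL_bv_succ _ (by omega), mulVec_add, h1 _ (by omega), h1 _ (by omega)] at this

theorem exists_cyc (m : ℕ) : ∃ (c : SpecialLinearGroup (Fin (m + 3)) F) (s : F), s ≠ 0 ∧
    (∀ k, k + 1 < m + 3 → c.1 *ᵥ bv (m + 3) F k = bv _ F (k + 1)) ∧
    c.1 *ᵥ bv (m + 3) F (m + 2) = s • bv _ F 0 := by
  have h0 := (Pi.basisFun F (Fin (m + 3))).linearIndependent
  obtain ⟨g, hg⟩ := H26.exists_gl_map_linearIndependent h0
    (h0.comp (finRotate (m + 3)) (finRotate (m + 3)).injective)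
  simp only [Function.comp_apply, Pi.basisFun_apply, ← bv_eq_single] at hg
  have hd : (g : Matrix (Fin (m + 3)) (Fin (m + 3)) F).det ≠ 0 := GeneralLinearGroup.det_ne_zero g
  set d := (g : Matrix (Fin (m + 3)) (Fin (m + 3)) F).det with hd'
  refine ⟨⟨g.1 * (1 + vecMulVec (bv _ F (m + 2)) ((d⁻¹ - 1) • bv _ F (m + 2))),
    by rw [det_mul, det_one_add_vecMulVec, smul_dotProduct, bv_dot_self (by omega), ← hd']
       simp [hd]⟩, d⁻¹, inv_ne_zero hd, fun k hk => ?_, ?_⟩
  · change (_ * _) *ᵥ _ = _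
    rw [← mulVec_mulVec, H26.tv_mulVec, smul_dotProduct, bv_dot_ne (by omega), smul_zero,
      zero_smul, add_zero]
    have := hg ⟨k, by omega⟩
    rwa [coe_finRotate_of_ne_last (by simp [Fin.ext_iff]; omega)] at this
  · change (_ * _) *ᵥ _ = _
    have := hg (Fin.last _)
    rw [finRotate_last] at this
    rw [← mulVec_mulVec, H26.tv_mulVec, smul_dotProduct, bv_dot_self (by omega), mulVec_add,
      mulVec_smul]
    erw [this]
    simp [sub_smul]

theorem eq_top_of_mul_closed [Finite F] {P : F → Prop} (h0 : P 0)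
    (hmul : ∀ c d, P c → P d → P (c * d)) {γ : Fˣ} (hγ : ∀ x, x ∈ Submonoid.powers γ)
    (h : P γ) (c : F) : P c := by
  have key : ∀ k, P ((γ : F) ^ (k + 1)) := by
    intro k
    induction k with
    | zero => simpa using h
    | succ k ih => rw [pow_succ]; exact hmul _ _ ih h
  by_cases hc : c = 0
  · rwa [hc]
  obtain ⟨k, hk⟩ := hγ (Units.mk0 c hc * γ⁻¹)
  have := key k
  rwa [pow_succ, ← Units.val_pow_eq_pow_val, show γ ^ k = _ from hk, ← Units.val_mul,
    inv_mul_cancel_right] at this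

theorem eq_top_of_cubes [Finite F] (h2 : (2 : F) ≠ 0) (R : AddSubgroup F)
    (hmul : ∀ c d, c ∈ R → d ∈ R → c * d ∈ R) {γ : Fˣ} (hγ : ∀ x, x ∈ Submonoid.powers γ)
    (h : (γ : F) ^ 3 - 1 ∈ R) (c : F) : c ∈ R := by
  have := Fintype.ofFinite F
  have hpow : ∀ a ∈ R, ∀ k, a ^ (k + 1) ∈ R := by
    intro a ha k
    induction k with
    | zero => simpa using ha
    | succ k ih => rw [pow_succ]; exact hmul _ _ ih ha
  have hq : 1 < Fintype.card F := Fintype.one_lt_card
  have hone : ∀ a ∈ R, a ≠ 0 → (1 : F) ∈ R := by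
    intro a ha ha0
    have := hpow a ha (Fintype.card F - 2)
    rwa [show Fintype.card F - 2 + 1 = Fintype.card F - 1 by omega,
      FiniteField.pow_card_sub_one_eq_one a ha0] at this
  have h1 : (1 : F) ∈ R := by
    refine hone _ h fun h0 => h2 ?_
    obtain ⟨k, hk⟩ := hγ (-1)
    have h4 : ((γ ^ k : Fˣ) : F) ^ 3 = 1 := by
      rw [Units.val_pow_eq_pow_val, ← pow_mul, mul_comm, pow_mul, sub_eq_zero.1 h0, one_pow]
    rw [show γ ^ k = _ from hk] at h4
    simp only [Units.val_neg, Units.val_one] at h4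
    linear_combination -h4
  have h4 : ∀ x : F, x ^ 3 ∈ R := by
    intro x
    by_cases hx : x = 0
    · simp [hx]
    obtain ⟨k, hk⟩ := hγ (Units.mk0 x hx)
    have h5 : x = (γ : F) ^ k := by
      rw [← Units.val_pow_eq_pow_val, show γ ^ k = _ from hk]
      rfl
    rw [h5, ← pow_mul, mul_comm, pow_mul]
    rcases k with _ | k
    · simpa using h1
    · exact hpow _ (by simpa using R.add_mem h h1) k
  by_cases h3 : (3 : F) = 0
  · have : Fact (Nat.Prime 3) := ⟨Nat.prime_three⟩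
    have : CharP F 3 := (CharP.charP_iff_prime_eq_zero Nat.prime_three).2 (by exact_mod_cast h3)
    obtain ⟨y, rfl⟩ := surjective_frobenius F 3 c
    exact h4 y
  · have h6 : (6 : F) ≠ 0 := by
      rw [show (6 : F) = 2 * 3 by norm_num]
      exact mul_ne_zero h2 h3
    have h7 := R.sub_mem (R.add_mem (h4 (c / 6 + 1)) (h4 (c / 6 - 1)))
      (R.add_mem (h4 (c / 6)) (h4 (c / 6)))
    convert h7 using 1
    field_simp
    ring

theorem exists_three_conj_jordan [Finite F] (m : ℕ) :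
    ∃ g h : SpecialLinearGroup (Fin (m + 3)) F, Subgroup.closure
      ({jordanSL _ F, g * jordanSL _ F * g⁻¹, h * jordanSL _ F * h⁻¹} :
        Set (SpecialLinearGroup (Fin (m + 3)) F)) = ⊤ := by
  obtain ⟨γ, hγ⟩ := IsCyclic.exists_monoid_generator (α := Fˣ)
  have hu3 : bv (m + 3) F (m + 2) ᵥ* (jordanSL (m + 3) F).1 = bv _ F (m + 2) := by
    apply vec_ext_bv
    intro l hl
    rw [← dotProduct_mulVec]
    rcases l with _ | l
    · rw [jordanSL_bv_zero]
    · rw [jordanSL_bv_succ l hl, dotProduct_add, bv_dot_ne (k := m + 2) (l := l) (by omega),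
        add_zero]
  have hu4 := vecMul_vecMul_inv (jordanSL (m + 3) F) (bv _ F (m + 2))
  rw [hu3] at hu4
  have key : ∀ (g c : SpecialLinearGroup (Fin (m + 3)) F) (s : F), s ≠ 0 →
      (∀ k, k + 1 < m + 3 → c.1 *ᵥ bv (m + 3) F k = bv _ F (k + 1)) →
      c.1 *ᵥ bv (m + 3) F (m + 2) = s • bv _ F 0 →
      (∀ (H : Subgroup (SpecialLinearGroup (Fin (m + 3)) F)) (R : AddSubgroup F),
        jordanSL _ F ∈ H → g * jordanSL _ F * g⁻¹ ∈ H → c * jordanSL _ F * c⁻¹ ∈ H →
        (∀ x, x ∈ R ↔ ts ((s * x) • bv (m + 3) F 1) (bv _ F (m + 2)) ∈ H) →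
        (∀ x y, x ∈ R → y ∈ R → x * y ∈ R) → ∀ x, x ∈ R) →
      Subgroup.closure ({jordanSL _ F, g * jordanSL _ F * g⁻¹, c * jordanSL _ F * c⁻¹} :
        Set (SpecialLinearGroup (Fin (m + 3)) F)) = ⊤ := by
    intro g c s hs h1 h2 h4
    set H := Subgroup.closure ({jordanSL _ F, g * jordanSL _ F * g⁻¹, c * jordanSL _ F * c⁻¹} :
        Set (SpecialLinearGroup (Fin (m + 3)) F)) with hH
    have hu : jordanSL _ F ∈ H := Subgroup.subset_closure (by simp)
    have hv : g * jordanSL _ F * g⁻¹ ∈ H := Subgroup.subset_closure (by simp)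
    have hw : c * jordanSL _ F * c⁻¹ ∈ H := Subgroup.subset_closure (by simp)
    obtain ⟨h5, h6, h7⟩ := jordanSL_conj hs h1 h2
    obtain ⟨h8, h9⟩ := eq_top_of_uw H hu hw (inv_ne_zero hs) jordanSL_bv_zero jordanSL_bv_succ
      h5 h6 h7
    let R : AddSubgroup F :=
      { carrier := {x | ts ((s * x) • bv (m + 3) F 1) (bv _ F (m + 2)) ∈ H}
        add_mem' := fun {x y} hx hy => by
          change ts _ _ ∈ H
          rw [mul_add, add_smul, ts_add_left (by simp [bv_dot_bv]) (by simp [bv_dot_bv])]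
          exact H.mul_mem hx hy
        zero_mem' := by simp
        neg_mem' := fun {x} hx => by
          change ts _ _ ∈ H
          rw [mul_neg, ← neg_one_mul, mul_smul, ts_smul (by simp [bv_dot_bv]), neg_one_smul,
            ← ts_inv (by simp [bv_dot_bv])]
          exact H.inv_mem hx }
    have h10 := h4 H R hu hv hw (fun _ => Iff.rfl) fun x y hx hy => by
      have := h8 _ _ hx hy
      rwa [inv_mul_cancel_left₀ hs, mul_left_comm] at this
    refine h9 fun x => ?_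
    have := h10 (s⁻¹ * x)
    change ts _ _ ∈ H at this
    rwa [mul_inv_cancel_left₀ hs] at this
  rcases m with _ | m
  · let c : SpecialLinearGroup (Fin 3) F := ⟨!![0, 0, 1; 1, 0, 0; 0, 1, 0], by
      simp [det_fin_three]⟩
    have hb0 : bv 3 F 0 = ![1, 0, 0] := by ext i; fin_cases i <;> simp [bv]
    have hb1 : bv 3 F 1 = ![0, 1, 0] := by ext i; fin_cases i <;> simp [bv]
    have hb2 : bv 3 F 2 = ![0, 0, 1] := by ext i; fin_cases i <;> simp [bv]
    have hJ : (jordanSL 3 F : Matrix (Fin 3) (Fin 3) F) = !![1, 1, 0; 0, 1, 1; 0, 0, 1] := by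
      ext i j
      fin_cases i <;> fin_cases j <;> simp [coe_jordanSL, shiftN]
    have hc1 : ∀ k, k + 1 < 0 + 3 → c.1 *ᵥ bv (0 + 3) F k = bv _ F (k + 1) := by
      intro k hk
      obtain rfl | rfl : k = 0 ∨ k = 1 := by omega
      · change !![0, 0, 1; 1, 0, 0; 0, 1, 0] *ᵥ bv 3 F 0 = bv 3 F 1
        rw [hb0, hb1]
        ext i
        fin_cases i <;> simp [mulVec, dotProduct, Fin.sum_univ_three]
      · change !![0, 0, 1; 1, 0, 0; 0, 1, 0] *ᵥ bv 3 F 1 = bv 3 F 2
        rw [hb2, hb1]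
        ext i
        fin_cases i <;> simp [mulVec, dotProduct, Fin.sum_univ_three]
    have hc2 : c.1 *ᵥ bv (0 + 3) F (0 + 2) = (1 : F) • bv _ F 0 := by
      change !![0, 0, 1; 1, 0, 0; 0, 1, 0] *ᵥ bv 3 F 2 = (1 : F) • bv 3 F 0
      rw [hb0, hb2]
      ext i
      fin_cases i <;> simp [mulVec, dotProduct, Fin.sum_univ_three]
    by_cases h2 : (2 : F) = 0
    · refine ⟨ts ((γ : F) • bv 3 F 0) (bv 3 F 1), c, key _ c 1 one_ne_zero hc1 hc2
        fun H R hu hv hw hR hmul => eq_top_of_mul_closed R.zero_mem hmul hγ ?_⟩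
      have h4 : ts ((γ : F) • bv 3 F 0) (bv 3 F 2) ∈ H := by
        convert H.mul_mem hv (H.inv_mem hu) using 1
        rw [eq_mul_inv_iff_mul_eq, eq_mul_inv_iff_mul_eq]
        apply Subtype.ext
        change (ts _ _ : SpecialLinearGroup (Fin 3) F).1 * (jordanSL 3 F).1 *
          (ts _ _ : SpecialLinearGroup (Fin 3) F).1 =
            (ts _ _ : SpecialLinearGroup (Fin 3) F).1 * (jordanSL 3 F).1
        rw [coe_ts (by simp [bv_dot_bv]), coe_ts (by simp [bv_dot_bv]), hJ, hb0, hb1, hb2]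
        ext i j
        fin_cases i <;> fin_cases j <;> simp [mul_apply, Fin.sum_univ_three, vecMulVec_apply, add_comm]
      have h5 : ts (bv 3 F 1) (bv 3 F 0) ∈ H := by
        convert H.mul_mem hw hw using 1
        rw [conj_mul, eq_mul_inv_iff_mul_eq]
        apply Subtype.ext
        change (ts _ _ : SpecialLinearGroup (Fin 3) F).1 * !![0, 0, 1; 1, 0, 0; 0, 1, 0] =
          !![0, 0, 1; 1, 0, 0; 0, 1, 0] * ((jordanSL 3 F).1 * (jordanSL 3 F).1)
        rw [coe_ts (by simp [bv_dot_bv]), hJ, hb0, hb1]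
        ext i j
        fin_cases i <;> fin_cases j <;>
          simp [mul_apply, Fin.sum_univ_three, vecMulVec_apply, one_add_one_eq_two, h2]
      have h6 := ts_comm_mem (by simp [bv_dot_bv]) (by simp [bv_dot_bv]) (by simp [bv_dot_bv]) h5 h4
      rw [hR]
      simpa [bv_dot_bv] using h6
    · let g : SpecialLinearGroup (Fin 3) F := ⟨!![γ, 0, 0; 0, γ, 0; 0, 0, (γ : F)⁻¹ ^ 2], by
        simp [det_fin_three, sq, ← mul_assoc]⟩
      refine ⟨g, c, key _ c 1 one_ne_zero hc1 hc2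
        fun H R hu hv hw hR hmul => eq_top_of_cubes h2 R hmul hγ ?_⟩
      rw [hR]
      convert H.mul_mem hv (H.inv_mem hu) using 1
      rw [eq_mul_inv_iff_mul_eq, eq_mul_inv_iff_mul_eq]
      apply Subtype.ext
      change (ts _ _ : SpecialLinearGroup (Fin 3) F).1 * (jordanSL 3 F).1 *
        !![(γ : F), 0, 0; 0, γ, 0; 0, 0, (γ : F)⁻¹ ^ 2] =
          !![(γ : F), 0, 0; 0, γ, 0; 0, 0, (γ : F)⁻¹ ^ 2] * (jordanSL 3 F).1
      rw [coe_ts (by simp [bv_dot_bv]), hJ, hb1, hb2]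
      ext i j
      fin_cases i <;> fin_cases j <;> simp [mul_apply, Fin.sum_univ_three, vecMulVec_apply]
      field_simp
  · obtain ⟨c, s, hs, h1, h2⟩ := exists_cyc (F := F) (m + 1)
    refine ⟨ts ((-(s * γ)) • bv _ F 2) (bv _ F (m + 1 + 2)), c, key _ c s hs h1 h2
      fun H R hu hv hw hR hmul => eq_top_of_mul_closed R.zero_mem hmul hγ ?_⟩
    rw [hR]
    have h4 := H.mul_mem hv (H.inv_mem hu)
    have h5 : bv (m + 1 + 3) F (m + 1 + 2) ⬝ᵥ (-(s * γ)) • bv _ F 2 = 0 := by simp [bv_dot_bv]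
    rw [mul_assoc, mul_assoc, ← mul_assoc (jordanSL _ F), ts_inv h5, conj_ts, neg_vecMul, hu4,
      mulVec_smul, jordanSL_bv_succ 1 (by omega), ← neg_one_smul F (bv _ F (m + 1 + 2)),
      ← ts_smul (by simp [bv_dot_bv]), ← ts_add_left h5 (by simp [bv_dot_bv])] at h4
    convert h4 using 2
    module

end Cfsg.Agent.H32
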