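import Cfsg.Agent.H53.AhKit
import Cfsg.Agent.H28.MwS

/-!
# AH-O64: solvable `{2, 3}`-groups on 64 vectors
-/

set_option autoImplicit false

namespace Cfsg.Agent.H32.AhO

open MulAction Cfsg.Agent.H12.RO Cfsg.Agent.H53.MW Cfsg.Agent.H53.AH Cfsg.Agent.H28.MwS

universe u

section
variable {G V : Type*} [Group G] [AddCommGroup V] [DistribMulAction G V]

theorem card_two (h : Irr G V) {v : V} (h0 : v ≠ 0) (h2 : v + v = 0) (hf : ∀ g : G, g • v = v) :
    Nat.card V = 2 := by
  have : Fact (Nat.Prime 2) := ⟨Nat.prime_two⟩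
  rcases h (AddSubgroup.zmultiples v) (by
    rintro g _ ⟨n, rfl⟩
    exact ⟨n, by show n • v = g • n • v; rw [smul_comm, hf]⟩) with e | e
  · exact absurd (AddSubgroup.zmultiples_eq_bot.1 e) h0
  · rw [← AddSubgroup.card_top, ← e, Nat.card_zmultiples]
    exact addOrderOf_eq_prime (by rwa [two_nsmul]) h0

variable {Ω : Type*} [MulAction G Ω] [Fintype Ω] (S : Sys G V Ω)

theorem e_sum (y : ∀ ω, (S.e ω).range) (ω : Ω) : S.e ω (∑ a, (y a : V)) = y ω := by
  classical
  rw [map_sum, Finset.sum_eq_single ω]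
  · obtain ⟨x, hx⟩ := (y ω).2
    rw [← hx, S.idem]
  · intro b _ hb
    obtain ⟨x, hx⟩ := (y b).2
    rw [← hx, S.orth _ _ hb.symm]
  · simp

theorem blocks_two (h : Irr G V) (hc : ∀ ω, Nat.card (S.e ω).range = 2) [Nonempty Ω] :
    Nat.card V = 2 := by
  choose y hy using S.ne
  let v : V := ∑ a, ((⟨S.e a (y a), y a, rfl⟩ : (S.e a).range) : V)
  have hv : ∀ ω, S.e ω v ≠ 0 := fun ω => by rw [e_sum]; exact hy ω
  have un : ∀ w : V, (∀ ω, S.e ω w ≠ 0) → w = v := fun w hw => by
    rw [← S.sum w, ← S.sum v]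
    refine Finset.sum_congr rfl fun ω _ => ?_
    exact congrArg Subtype.val (((Nat.card_eq_two_iff' (0 : (S.e ω).range)).1 (hc ω)).unique
      (y₁ := ⟨_, w, rfl⟩) (y₂ := ⟨_, v, rfl⟩) (fun e => hw ω (congrArg Subtype.val e))
      fun e => hv ω (congrArg Subtype.val e))
  obtain ⟨ω⟩ : Nonempty Ω := inferInstance
  refine card_two h (v := v) (fun e => hv ω (by rw [e, map_zero])) ?_ fun g => un _ fun a e => ?_
  · have := un (-v) fun a e => hv a (by rwa [map_neg, neg_eq_zero] at e)
    exact neg_eq_iff_add_eq_zero.1 this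
  · have := S.equiv g (g⁻¹ • a) v
    rw [smul_inv_smul, e] at this
    exact hv _ ((smul_eq_zero_iff_eq g).1 this.symm)

theorem card_fix {g : G} (hg : ∀ ω : Ω, g • ω = ω) : Nat.card (fixedBy V g) =
    ∏ ω, Nat.card {a : (S.e ω).range // g • (a : V) = a} := by
  rw [← Nat.card_pi]
  refine Nat.card_congr
    { toFun := fun x ω => ⟨⟨S.e ω x, x, rfl⟩, by
        show g • S.e ω x = S.e ω x
        rw [← S.equiv, hg, x.2]⟩
      invFun := fun y => ⟨∑ ω, ((y ω).1 : V), by
        rw [mem_fixedBy, Finset.smul_sum]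
        exact Finset.sum_congr rfl fun ω _ => (y ω).2⟩
      left_inv := fun x => Subtype.ext (S.sum x)
      right_inv := fun y => funext fun ω => Subtype.ext (Subtype.ext (e_sum S (fun a => (y a).1) ω)) }

omit S in
theorem fix_four (hc : Nat.card V = 4) {g : G} (h2 : ∀ v : V, g • g • v = v)
    (h1 : ¬ ∀ v : V, g • v = v) : Nat.card {a : V // g • a = a} = 2 := by
  have : Fact (Nat.Prime 2) := ⟨Nat.prime_two⟩
  have : Finite V := Nat.finite_of_card_ne_zero (by omega)
  let F : AddSubgroup V :=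
    { carrier := {a | g • a = a}
      add_mem' := fun {a b} (ha : g • a = a) (hb : g • b = b) => by
        show g • (a + b) = _
        rw [smul_add, ha, hb]
      zero_mem' := smul_zero g
      neg_mem' := fun {a} (ha : g • a = a) => by
        show g • (-a) = _
        rw [smul_neg, ha] }
  change Nat.card F = 2
  have d : Nat.card F ∣ 2 ^ 2 := (show Nat.card V = 2 ^ 2 from hc) ▸ F.card_addSubgroup_dvd_card
  obtain ⟨i, hi, e⟩ := (Nat.dvd_prime_pow Nat.prime_two).1 d
  interval_cases i
  · exfalso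
    obtain ⟨a, ha⟩ := exists_prime_addOrderOf_dvd_card' (G := V) 2 (by rw [hc]; norm_num)
    have a0 : a ≠ 0 := by
      rintro rfl
      simp at ha
    have aa : a + a = 0 := by rw [← two_nsmul, ← ha, addOrderOf_nsmul_eq_zero]
    have b := AddSubgroup.card_eq_one.1 e
    have m : a + g • a ∈ F := by
      show g • (a + g • a) = _
      rw [smul_add, h2, add_comm]
    rw [b, AddSubgroup.mem_bot] at m
    have m' : a ∈ F := add_left_cancel (m.trans aa.symm)
    rw [b, AddSubgroup.mem_bot] at m'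
    exact a0 m'
  · exact e
  · exfalso
    have := F.eq_top_of_card_eq (e.trans hc.symm)
    exact h1 fun v => (this ▸ AddSubgroup.mem_top v : v ∈ F)

theorem eight [Finite G] (hf : ∀ g : G, (∀ x : V, g • x = x) → g = 1) (sm : Sm G V)
    (h3 : Fintype.card Ω = 3) (h4 : ∀ ω, Nat.card (S.e ω).range = 4)
    (h6 : ∀ ω, (letI := subAct (S.inv_range ω);
      Nat.card (img (stabilizer G ω) (S.e ω).range)) ≤ 6)
    (hG : 1000 < Nat.card G) : ∃ g : G, Nat.card (fixedBy V g) = 8 := by
  classical
  have : Fact (Nat.Prime 2) := ⟨Nat.prime_two⟩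
  letI : ∀ ω, DistribMulAction (stabilizer G ω) (S.e ω).range := fun ω => subAct (S.inv_range ω)
  let B := (toPermHom G Ω).ker
  have hB : ∀ ω : Ω, B ≤ stabilizer G ω := fun ω g hg => mem_ker.1 hg ω
  let φ : B →* ∀ ω, img (stabilizer G ω) (S.e ω).range := Pi.monoidHom fun ω =>
    (toPermHom (stabilizer G ω) (S.e ω).range).rangeRestrict.comp (Subgroup.inclusion (hB ω))
  have eφ : ∀ (g : B) ω (a : (S.e ω).range), ((φ g ω).1 a : V) = g.1 • (a : V) := fun _ _ _ => rfl
  have inj : Function.Injective φ := (injective_iff_map_eq_one φ).2 fun g hg =>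
    Subtype.ext (hf _ fun v => by
      conv_lhs => rw [← S.sum v]
      rw [Finset.smul_sum]
      conv_rhs => rw [← S.sum v]
      refine Finset.sum_congr rfl fun ω _ => ?_
      rw [← eφ g ω ⟨_, v, rfl⟩, hg]
      rfl)
  have i6 : B.index ≤ 6 := by
    rw [Subgroup.index_ker]
    refine (Subgroup.card_le_card_group _).trans ?_
    rw [Nat.card_eq_fintype_card, Fintype.card_perm, h3]
    decide
  have b1 : 167 ≤ Nat.card B := by
    have := B.card_mul_index
    nlinarith
  have fin : ∀ ω, Finite (img (stabilizer G ω) (S.e ω).range) := fun ω =>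
    Finite.of_surjective _ (toPermHom (stabilizer G ω) (S.e ω).range).rangeRestrict_surjective
  have p1 : ∀ ω, Nat.card (∀ ω, img (stabilizer G ω) (S.e ω).range) ≤
      Nat.card (img (stabilizer G ω) (S.e ω).range) * 36 := fun ω => by
    rw [Nat.card_pi, ← Finset.mul_prod_erase _ _ (Finset.mem_univ ω)]
    refine Nat.mul_le_mul_left _ ((Finset.prod_le_pow_card _ _ 6 fun a _ => h6 a).trans ?_)
    rw [Finset.card_erase_of_mem (Finset.mem_univ ω), Finset.card_univ, h3]
    norm_num
  obtain ⟨ω₀⟩ : Nonempty Ω := Fintype.card_pos_iff.1 (by omega)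
  have sur : Function.Surjective φ := by
    refine (inj.bijective_of_nat_card_le ?_).2
    obtain ⟨c, hc⟩ := Subgroup.card_dvd_of_injective φ inj
    have q1 := p1 ω₀
    have q2 := h6 ω₀
    have q3 : c ≤ 1 := by
      by_contra k
      nlinarith
    rw [hc]
    nlinarith
  have ex : ∀ ω, ∃ x : img (stabilizer G ω) (S.e ω).range, orderOf x = 2 := fun ω => by
    refine exists_prime_orderOf_dvd_card' 2 ?_
    have q1 := (Nat.card_le_card_of_injective φ inj).trans (p1 ω)
    have q2 := h6 ω
    have q3 : T23 (Nat.card (img (stabilizer G ω) (S.e ω).range)) := by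
      obtain ⟨a, ha⟩ := sm
      exact Sm.t23 ⟨a, fun g v => Subtype.ext (ha g v)⟩
    have q4 : Nat.card (img (stabilizer G ω) (S.e ω).range) ≠ 5 := fun e => by
      have := q3 5 (by norm_num) (by rw [e])
      omega
    omega
  choose x hx using ex
  obtain ⟨g, rfl⟩ := sur x
  have fx : ∀ ω, Nat.card {a : (S.e ω).range // (g : G) • (a : V) = a} = 2 := fun ω => by
    have k := fix_four (G := stabilizer G ω) (h4 ω) (g := ⟨g, hB ω g.2⟩) (fun v => by
      have := congrArg (fun s : img (stabilizer G ω) (S.e ω).range => s.1 v)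
        (hx ω ▸ pow_orderOf_eq_one (φ g ω))
      rw [pow_two] at this
      exact this) fun e => by
      have : φ g ω = 1 := Subtype.ext (Equiv.ext e)
      have k := hx ω
      rw [this, orderOf_one] at k
      omega
    rw [← k]
    exact Nat.card_congr (Equiv.subtypeEquivRight fun a =>
      ⟨fun e => Subtype.ext e, fun e => congrArg Subtype.val e⟩)
  refine ⟨g, ?_⟩
  rw [card_fix S (mem_ker.1 g.2), Finset.prod_congr rfl fun ω _ => fx ω,
    Finset.prod_const, Finset.card_univ, h3]
  rfl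

end

/-- the bound -/
def bd (k : ℕ) : ℕ := if k ≤ 1 then 1 else if k ≤ 3 then 6 else if k ≤ 5 then 72 else 1296

/-- AH-O64 -/
theorem o64 (ho : O64PStmt.{u}) : O64Stmt.{u} := by
  intro G W _ _ _ _ _ _ hcr hW sm
  have key := ind (fun G V _ _ _ => Sm G V → ∀ k ≤ 6, Nat.card V = 2 ^ k →
    Nat.card (img G V) ≤ bd k ∧ (Irr G V → Odd k → k = 1) ∧
      (k = 6 → 1000 < Nat.card (img G V) → ∃ g : G, Nat.card (fixedBy V g) = 8))
    ?_ ?_ ?_ ?_ ?_ G W hcr sm 6 le_rfl hW
  · exact ⟨key.1, key.2.2 rfl⟩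
  · intro G V _ _ _ _ _ k _ h
    have e : Nat.card (img G V) = 1 := Nat.card_unique
    have e' : Nat.card V = 1 := Nat.card_unique
    obtain rfl : k = 0 := (Nat.pow_eq_one.1 (h.symm.trans e')).resolve_left (by decide)
    exact ⟨e.le, fun _ o => absurd o (by decide), fun e => absurd e (by decide)⟩
  · intro G V _ _ _ _ _ _ U W hU hW ni k1 k2 k3 k4 iU iW ⟨s, hs⟩ k hk h
    have a1 := img_sum hU hW k4
    have a2 : Nat.card U * Nat.card W = 2 ^ k := by
      rw [← h, ← Nat.card_prod]
      refine Nat.card_eq_of_bijective (fun x : U × W => (x.1 : V) + x.2) ⟨fun x y e => ?_, fun v => ?_⟩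
      · have e1 : (x.1 : V) - y.1 = y.2 - x.2 := by
          rw [sub_eq_sub_iff_add_eq_add, add_comm (y.2 : V)]; exact e
        have e2 : (x.1 : V) - y.1 ∈ U ⊓ W :=
          AddSubgroup.mem_inf.2 ⟨U.sub_mem x.1.2 y.1.2, e1 ▸ W.sub_mem y.2.2 x.2.2⟩
        rw [k3, AddSubgroup.mem_bot] at e2
        exact Prod.ext (Subtype.ext (sub_eq_zero.1 e2))
          (Subtype.ext (sub_eq_zero.1 (e1 ▸ e2)).symm)
      · obtain ⟨a, ha, c, hc, rfl⟩ :=
          AddSubgroup.mem_sup.1 (k4 ▸ AddSubgroup.mem_top v : v ∈ U ⊔ W)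
        exact ⟨(⟨a, ha⟩, ⟨c, hc⟩), rfl⟩
    obtain ⟨i, hi, e1⟩ := (Nat.dvd_prime_pow Nat.prime_two).1 (Dvd.intro _ a2)
    obtain ⟨j, hj, e2⟩ := (Nat.dvd_prime_pow Nat.prime_two).1 (Dvd.intro_left _ a2)
    have a3 := Nat.mul_le_mul
      (iU ⟨s, fun g v => Subtype.ext (hs g v)⟩ i (hi.trans hk) e1).1
      (iW ⟨s, fun g v => Subtype.ext (hs g v)⟩ j (hj.trans hk) e2).1
    rw [e1, e2, ← pow_add] at a2
    have a4 := Nat.pow_right_injective le_rfl a2
    have a5 : i ≠ 0 := by
      rintro rfl
      exact k1 (AddSubgroup.card_eq_one.1 e1)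
    have a6 : j ≠ 0 := by
      rintro rfl
      exact k2 (AddSubgroup.card_eq_one.1 e2)
    have a7 : bd i * bd j ≤ min (bd k) 1000 := by
      subst a4
      have : i ≤ 5 := by omega
      have : j ≤ 5 := by omega
      interval_cases i <;> interval_cases j <;> first | omega | decide
    have a8 := (a1.trans a3).trans a7
    exact ⟨a8.trans (min_le_left _ _), fun e => absurd e ni,
      fun _ e => absurd (a8.trans (min_le_right _ _)) (not_le.2 e)⟩
  · intro G G' V _ _ _ _ _ _ _ f hf e i ⟨s, hs⟩ k hk h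
    obtain ⟨i1, i2, i3⟩ := i ⟨s, fun g v => by
      obtain ⟨g, rfl⟩ := hf g
      rw [← map_pow, e, hs]⟩ k hk h
    rw [(H29.CpK.quot f hf e).1]
    refine ⟨i1, fun hi => i2 fun U hU => hi U fun g v hv => e g v ▸ hU (f g) v hv, fun a b => ?_⟩
    obtain ⟨g, hg⟩ := i3 a b
    obtain ⟨g, rfl⟩ := hf g
    refine ⟨g, ?_⟩
    rw [← hg]
    congr 2
    ext v
    rw [mem_fixedBy, mem_fixedBy, e]
  · intro G V _ _ _ _ _ _ _ hf hpr _ sm k hk h
    rcases hk.eq_or_lt with rfl | hk
    · obtain ⟨o1, o2⟩ := ho G V hf hpr h sm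
      exact ⟨o1, fun _ o => absurd o (by decide), fun _ => o2⟩
    obtain ⟨K, _, _, _, W, _, _, _, σ, U, To, E, M, π, b, e, P⟩ := pk G V hf hpr
    obtain ⟨c1, -, c3, c4, c5, -⟩ := ordKit.pk G V K W σ U To E M π b e P
    have n0 : Module.finrank K V ≠ 0 := by
      intro e0
      rw [e0, pow_zero] at c1
      exact (Finite.one_lt_card (α := V)).ne' c1
    obtain ⟨p, hp⟩ := CharP.exists K
    have pp : p.Prime := CharP.char_is_prime K p
    have pV : ∀ v : V, p • v = 0 := fun v => by
      rw [← Nat.cast_smul_eq_nsmul K, CharP.cast_eq_zero, zero_smul]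
    obtain ⟨f, f1, f2, f3⟩ := c4 p pp pV
    rw [f1, ← pow_mul, h] at c1
    have p2 : p = 2 := (Nat.prime_dvd_prime_iff_eq pp Nat.prime_two).1 (pp.dvd_of_dvd_pow
      (c1 ▸ dvd_pow_self p (Nat.mul_ne_zero f3.ne' n0)))
    subst p2
    have a1 : k = f * Module.finrank K V := Nat.pow_right_injective le_rfl c1
    have a2 : f ≤ k := a1 ▸ Nat.le_mul_of_pos_right f (Nat.pos_of_ne_zero n0)
    have a3 : e = 1 := by
      by_contra h1
      obtain ⟨r, r1, r2⟩ := Nat.exists_prime_and_dvd h1
      have r3 := c5 r r1 r2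
      have r4 := (Nat.le_of_dvd P.pos r2).trans P.le
      have r5 := r1.two_le
      rw [f1] at r3
      have r6 : f ≤ 2 := by nlinarith
      interval_cases f
      · exact r1.one_lt.ne' (Nat.dvd_one.1 r3)
      · have := (Nat.prime_dvd_prime_iff_eq r1 Nat.prime_three).1 r3
        omega
    subst a3
    have : Subsingleton W := (Nat.card_eq_one_iff_unique.1 P.card).1
    have a4 : Nat.card (img σ.ker W) = 1 := Nat.card_unique
    have a5 : Nat.card U ≤ 2 ^ f - 1 := Nat.le_of_dvd (by
      have := Nat.one_lt_two_pow f3.ne'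
      omega) (f1 ▸ P.U_dvd)
    have cG : Nat.card G = Nat.card U * σ.ker.index := by
      rw [← Subgroup.card_mul_index σ.ker, c3, a4, one_pow, mul_one, mul_one]
    have a6 : Nat.card (img G V) ≤ (2 ^ f - 1) * f := by
      refine (Nat.card_le_card_of_surjective _ (toPermHom G V).rangeRestrict_surjective).trans ?_
      rw [cG]
      exact Nat.mul_le_mul a5 (Nat.le_of_dvd f3 f2)
    have a7 : Odd k → k = 1 := fun o => by
      have t := sm.t23_of_faith hf
      have of : Odd f := o.of_dvd_nat (Dvd.intro _ a1.symm)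
      have u1 : Nat.card U = 1 := by
        by_contra h1
        obtain ⟨r, r1, r2⟩ := Nat.exists_prime_and_dvd h1
        have r3 := r2.trans (f1 ▸ P.U_dvd)
        have r4 : f ≤ 5 := by omega
        rcases t r r1 (r2.trans U.card_subgroup_dvd_card) with rfl | rfl <;> interval_cases f <;>
          first | exact absurd of (by decide) | exact absurd r3 (by decide)
      obtain ⟨a, c, hc⟩ := t.eq Nat.card_pos.ne'
      have oG : Odd (Nat.card G) := by rw [cG, u1, one_mul]; exact of.of_dvd_nat f2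
      obtain rfl : a = 0 := by
        by_contra a0
        rw [hc] at oG
        exact (Nat.not_even_iff_odd.2 oG) (((Nat.even_pow' a0).2 even_two).mul_right _)
      have : Fact (Nat.Prime 3) := ⟨Nat.prime_three⟩
      have m := (IsPGroup.of_card (p := 3) (by rw [hc, pow_zero, one_mul])).card_modEq_card_fixedPoints
        (G := G) V
      obtain ⟨v, hv, v0⟩ : ∃ v ∈ fixedPoints G V, v ≠ 0 := by
        by_contra! hn
        have : Nat.card (fixedPoints G V) = 1 := Nat.card_eq_one_iff_unique.2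
          ⟨⟨fun x y => Subtype.ext ((hn _ x.2).trans (hn _ y.2).symm)⟩, ⟨⟨0, fun g => smul_zero g⟩⟩⟩
        rw [h, this] at m
        clear a1 c1 a2 h
        interval_cases k <;> first | exact absurd o (by decide) | exact absurd m (by decide)
      have := card_two hpr.1 v0 (two_nsmul v ▸ pV v) hv
      exact Nat.pow_right_injective le_rfl (h.symm.trans this)
    refine ⟨a6.trans ?_, fun _ => a7, fun e => absurd e hk.ne⟩
    clear a1 c1 f1 f2 a5 a6 h cG
    interval_cases k <;> first
      | exact absurd (a7 (by decide)) (by decide)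
      | (interval_cases f <;> decide)
  · intro G V Ω N _ _ _ _ _ _ _ _ _ _ _ _ hf hirr S A IH sm k hk h
    obtain ⟨c1, c2⟩ := ordKit.sysCard G V Ω S
    obtain ⟨ω₀⟩ : Nonempty Ω := inferInstance
    rw [Finset.prod_congr rfl fun ω _ => c2 hirr ω ω₀, Finset.prod_const, Finset.card_univ, h] at c1
    have m2 : 2 ≤ Fintype.card Ω := Fintype.one_lt_card
    obtain ⟨j, hj, e1⟩ := (Nat.dvd_prime_pow Nat.prime_two).1
      (c1 ▸ dvd_pow_self (Nat.card (S.e ω₀).range) (by omega : Fintype.card Ω ≠ 0))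
    rw [e1, ← pow_mul] at c1
    have a1 : k = j * Fintype.card Ω := Nat.pow_right_injective le_rfl c1
    have a2 : j ≠ 0 := by
      rintro rfl
      rw [a1, zero_mul, pow_zero] at h
      exact (Finite.one_lt_card (α := V)).ne' h
    have a3 : Nat.card (img G Ω) ≤ (Fintype.card Ω).factorial := by
      classical
      rw [← Fintype.card_perm, ← Nat.card_eq_fintype_card]
      exact Subgroup.card_le_card_group _
    have ih := fun ω => (letI := subAct (S.inv_range ω)
      IH (stabilizer G ω) (S.e ω).range (S.card_range_lt ω) (S.irr_range hirr ω).cr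
        (by
          obtain ⟨s, hs⟩ := sm
          exact ⟨s, fun g v => Subtype.ext (hs g v)⟩) j
        (hj.trans hk) ((c2 hirr ω ω₀).trans e1))
    have a4 := Finset.prod_le_pow_card Finset.univ (fun ω => (letI := subAct (S.inv_range ω);
      Nat.card (img (stabilizer G ω) (S.e ω).range))) (bd j) fun ω _ => (ih ω).1
    have j1 : j ≠ 1 := by
      rintro rfl
      have := blocks_two S hirr fun ω => (c2 hirr ω ω₀).trans e1
      have : k = 1 := Nat.pow_right_injective le_rfl (h.symm.trans this)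
      omega
    have j2 : j = 2 := by
      have q := (ih ω₀).2.1 (S.irr_range hirr ω₀)
      have : j ≤ 3 := by nlinarith
      interval_cases j
      · exact absurd rfl a2
      · exact absurd rfl j1
      · rfl
      · exact absurd (q (by decide)) (by decide)
    subst j2
    refine ⟨(img_sys S).trans ((Nat.mul_le_mul a4 a3).trans ?_), fun _ o => ?_, fun e l => ?_⟩
    · rw [Finset.card_univ]
      generalize Fintype.card Ω = m at *
      subst a1
      have : m ≤ 3 := by omega
      interval_cases m <;> decide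
    · exact absurd (a1 ▸ o) (Nat.not_odd_iff_even.2 (even_two_mul _))
    · exact eight S hf sm (by omega) (fun ω => (c2 hirr ω ω₀).trans e1) (fun ω => (ih ω).1)
        ((H29.CpK.faith hf).1 ▸ l)

end Cfsg.Agent.H32.AhO
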