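import Mathlib
import Cfsg.Agent.H11.CyDefs

/-! Project CY, piece TR: transport of the row statement from the lowest universe. -/

set_option autoImplicit false

namespace Cfsg.Agent.H32.CyTr

open Subgroup MulAction Cfsg.Agent.H11.Cy

section Transport
variable {G G' Ω Ω' : Type*} [Group G] [Group G'] [MulAction G Ω] [MulAction G' Ω']

/-- the normal closures correspond -/
noncomputable def ncEquiv (e : G ≃* G') (Q : Subgroup G) :
    ↥(normalClosure (Q : Set G)) ≃*
      ↥(normalClosure ((Q.map (e : G →* G') : Subgroup G') : Set G')) :=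
  (e.subgroupMap (normalClosure (Q : Set G))).trans (MulEquiv.subgroupCongr (by
    rw [map_normalClosure _ _ (by exact e.surjective), coe_map]))

theorem row_back [Fintype Ω] [Fintype Ω'] (e : G ≃* G') (f : Ω ≃ Ω')
    (hef : ∀ g x, f (g • x) = e g • f x) (Q : Subgroup G)
    (h : Row G' Ω' (Q.map (e : G →* G'))) : Row G Ω Q := by
  have hc : Fintype.card Ω = Fintype.card Ω' := Fintype.card_congr f
  rcases h with ⟨N, hN, hT, hS⟩ | ⟨F, i1, i2, h1, ⟨φ⟩⟩ | ⟨F, i1, i2, q, h1, h2, ⟨φ⟩⟩ |
    ⟨h1, ⟨F, i1, i2, h2, ⟨φ⟩⟩, K, j1, j2, h3, ⟨ψ⟩⟩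
  · left
    refine ⟨N.comap (e : G →* G'), hN.comap _, ⟨fun x y => ?_⟩, fun x => ?_⟩
    · obtain ⟨n, hn⟩ := hT.exists_smul_eq (f x) (f y)
      refine ⟨⟨e.symm n, by simp [mem_comap]⟩, ?_⟩
      apply f.injective
      change f (e.symm (n : G') • x) = f y
      rw [hef, e.apply_symm_apply]
      exact hn
    · rw [eq_bot_iff]
      intro n hn
      have h1 : (n : G) • x = x := hn
      have h2 : (⟨e n, n.2⟩ : N) ∈ stabilizer N (f x) := by
        change e n • f x = f x
        rw [← hef, h1]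
      rw [hS, mem_bot] at h2
      have h3 : e n = 1 := congrArg Subtype.val h2
      rw [mem_bot]
      apply Subtype.ext
      apply e.injective
      rw [h3]
      simp
  · right; left
    exact ⟨F, i1, i2, hc.trans h1, ⟨(ncEquiv e Q).trans φ⟩⟩
  · right; right; left
    exact ⟨F, i1, i2, q, h1, hc.trans h2, ⟨(ncEquiv e Q).trans φ⟩⟩
  · right; right; right
    exact ⟨hc.trans h1, ⟨F, i1, i2, h2, ⟨(ncEquiv e Q).trans φ⟩⟩, K, j1, j2, h3, ⟨e.trans ψ⟩⟩

theorem faith_fwd (e : G ≃* G') (f : Ω ≃ Ω') (hef : ∀ g x, f (g • x) = e g • f x)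
    [FaithfulSMul G Ω] : FaithfulSMul G' Ω' := ⟨fun {a b} h => by
  have : e.symm a = e.symm b := by
    apply FaithfulSMul.eq_of_smul_eq_smul (α := Ω)
    intro x
    apply f.injective
    rw [hef, hef, e.apply_symm_apply, e.apply_symm_apply, h]
  exact e.symm.injective this⟩

theorem two_fwd (e : G ≃* G') (f : Ω ≃ Ω') (hef : ∀ g x, f (g • x) = e g • f x)
    (h : IsMultiplyPretransitive G Ω 2) : IsMultiplyPretransitive G' Ω' 2 := by
  rw [is_two_pretransitive_iff] at h ⊢
  intro a b c d hab hcd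
  obtain ⟨g, h1, h2⟩ := h (f.symm.injective.ne hab) (f.symm.injective.ne hcd)
  refine ⟨e g, ?_, ?_⟩
  · have := hef g (f.symm a)
    rw [h1, f.apply_symm_apply, f.apply_symm_apply] at this
    exact this.symm
  · have := hef g (f.symm b)
    rw [h2, f.apply_symm_apply, f.apply_symm_apply] at this
    exact this.symm

theorem le_fwd (e : G ≃* G') (f : Ω ≃ Ω') (hef : ∀ g x, f (g • x) = e g • f x)
    (α : Ω) (Q : Subgroup G) (h : Q ≤ stabilizer G α) :
    Q.map (e : G →* G') ≤ stabilizer G' (f α) := by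
  rintro _ ⟨g, hg, rfl⟩
  have h1 : g • α = α := h hg
  change e g • f α = f α
  rw [← hef, h1]

theorem normal_fwd (e : G ≃* G') (f : Ω ≃ Ω') (hef : ∀ g x, f (g • x) = e g • f x)
    (α : Ω) (Q : Subgroup G) (h : Q ≤ stabilizer G α)
    (hn : (Q.subgroupOf (stabilizer G α)).Normal) :
    ((Q.map (e : G →* G')).subgroupOf (stabilizer G' (f α))).Normal := by
  rw [normal_subgroupOf_iff (le_fwd e f hef α Q h)]
  rw [normal_subgroupOf_iff h] at hn
  rintro _ k ⟨g, hg, rfl⟩ hk
  have hk1 : k • f α = f α := hk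
  have hk' : e.symm k ∈ stabilizer G α := by
    change e.symm k • α = α
    apply f.injective
    rw [hef, e.apply_symm_apply, hk1]
  refine ⟨_, hn g _ hg hk', ?_⟩
  simp

end Transport

theorem tr.{u, v} : TrStmt.{u, v} := by
  intro h G _ _ Ω _ _ _ h2 α Q hQ hn h0 hc
  classical
  let e : G ≃* Shrink.{0} G := (Shrink.mulEquiv : Shrink.{0} G ≃* G).symm
  let f : Ω ≃ Fin (Fintype.card Ω) := Fintype.equivFin Ω
  letI : MulAction (Shrink.{0} G) (Fin (Fintype.card Ω)) :=
    { smul := fun g x => f (e.symm g • f.symm x)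
      one_smul := fun x => by
        change f (e.symm 1 • f.symm x) = x
        rw [map_one, one_smul, f.apply_symm_apply]
      mul_smul := fun a b x => by
        change f (e.symm (a * b) • f.symm x) = f (e.symm a • f.symm (f (e.symm b • f.symm x)))
        rw [map_mul, mul_smul, f.symm_apply_apply] }
  have hef : ∀ (g : G) (x : Ω), f (g • x) = e g • f x := by
    intro g x
    change _ = f (e.symm (e g) • f.symm (f x))
    rw [e.symm_apply_apply, f.symm_apply_apply]
  haveI : Finite (Shrink.{0} G) := Finite.of_equiv G e.toEquiv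
  haveI := faith_fwd e f hef
  refine row_back e f hef Q (h _ _ (two_fwd e f hef h2) (f α) _ (le_fwd e f hef α Q hQ)
    (normal_fwd e f hef α Q hQ hn) ?_ ?_)
  · intro hb
    exact h0 ((map_eq_bot_iff_of_injective Q (by exact e.injective)).mp hb)
  · exact (e.subgroupMap Q).isCyclic.mp hc

end Cfsg.Agent.H32.CyTr
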