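import Cfsg.Agent.H53.DgDefs

/-! Project DG, piece SING: Witt's theorem for totally singular subspaces and the number of
singular vectors. -/

set_option autoImplicit false

namespace Cfsg.Agent.H32.DgSing

open Module Cfsg.Agent.H26 Cfsg.Agent.H26.PForm Cfsg.Agent.H78 Cfsg.Agent.H53.Dg

variable {F V : Type} [Field F] [AddCommGroup V] [Module F V] {P : PForm F V}

section Witt

variable [FiniteDimensional F V]

/-- Quasi-reflections. -/
theorem exists_qrefl {v : V} {l : F} (hl : l ≠ 0) (hv : l - P.h v ∈ P.Λ) :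
    ∃ g ∈ P.isom, ∀ u, g u = u - (P.f u v / l) • v := by
  let T : V →ₗ[F] V := LinearMap.id - (l⁻¹ • P.fL v).smulRight v
  have hT : ∀ u, T u = u - (P.f u v / l) • v := fun u => by
    simp [T, fL_apply, div_eq_inv_mul]
  have hvv : P.f v v = l + P.ε * P.σ l := by
    have := P.Λ_le _ hv
    rw [map_sub] at this
    rw [P.f_self]
    linear_combination -this
  have hl' : P.σ l ≠ 0 := P.σ_ne_zero hl
  have hf : ∀ u w, P.f (T u) (T w) = P.f u w := fun u w => by
    rw [hT, hT, f_sub_left, f_sub_right, f_sub_right, P.f_smul_left, P.f_smul_left, f_smul_right,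
      f_smul_right, hvv, map_div₀, P.herm w v]
    field_simp
    ring
  have hi : Function.Injective T := by
    rw [injective_iff_map_eq_zero]
    intro u hu
    exact P.nondeg u fun x => by rw [← hf, hu, f_zero_right]
  refine ⟨LinearEquiv.ofInjectiveEndo T hi, ⟨hf, fun u => ?_⟩, hT⟩
  change P.h (T u) - P.h u ∈ P.Λ
  rw [hT, sub_eq_add_neg u, ← neg_smul]
  have h1 := P.h_add u (-(P.f u v / l) • v)
  have h2 := P.h_smul (-(P.f u v / l)) v
  have h3 := P.Λ_smul (-(P.f u v / l)) _ hv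
  rw [f_smul_right] at h1
  convert P.Λ.sub_mem (P.Λ.add_mem h1 h2) h3 using 1
  field_simp
  ring

theorem map_ne {S : Submodule F V} {x x' : V} (hxT : x ∈ P.perp S) (hxT' : x' ∈ P.perp S)
    (hx : P.Sing x) (hx' : P.Sing x') (h : P.f x x' ≠ 0) :
    ∃ g ∈ P.isom, (∀ s ∈ S, g s = s) ∧ g x = x' := by
  obtain ⟨g, hg, e⟩ := exists_qrefl (P := P) (v := x - x') (neg_ne_zero.2 h) (by
    have := P.Λ.add_mem (P.Λ.add_mem (P.h_add x (-x')) hx) hx'.neg
    rw [f_neg_right, ← sub_eq_add_neg x] at this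
    convert P.Λ.neg_mem this using 1
    ring)
  refine ⟨g, hg, fun s hs => ?_, ?_⟩
  · rw [e, f_of_mem_perp' (sub_mem hxT hxT') hs, zero_div, zero_smul, sub_zero]
  · rw [e, f_sub_right, hx.f_self, zero_sub, div_self (neg_ne_zero.2 h), one_smul, sub_sub_cancel]

theorem map_sing {S : Submodule F V} {x x' : V} (hxT : x ∈ P.perp S) (hxT' : x' ∈ P.perp S)
    (hxS : x ∉ S) (hxS' : x' ∉ S) (hx : P.Sing x) (hx' : P.Sing x') :
    ∃ g ∈ P.isom, (∀ s ∈ S, g s = s) ∧ g x = x' := by
  by_cases h : P.f x x' = 0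
  swap
  · exact map_ne hxT hxT' hx hx' h
  obtain ⟨z, hz, hz', h1, h2⟩ := exists_sing_ne_ne hxT hxS hxS' hx (f_symm_zero h)
  obtain ⟨g, hg, e, e'⟩ := map_ne hxT hz hx hz' h1
  obtain ⟨k, hk, d, d'⟩ := map_ne hz hxT' hz' hx' (f_symm_ne h2)
  exact ⟨k * g, mul_mem hk hg, fun s hs => by rw [mul_apply', e s hs, d s hs],
    by rw [mul_apply', e', d']⟩

theorem witt_ext [Finite V] {X X' : Submodule F V} (hX : TS P X) (hX' : TS P X')
    (A : X ≃ₗ[F] X') : ∃ g ∈ P.isom, ∀ x : X, g x = A x := by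
  have key : ∀ s : Set X, s.Finite → ∃ g ∈ P.isom, ∀ x ∈ Submodule.span F s, g x = A x := by
    intro s hs
    induction s, hs using Set.Finite.induction_on with
    | empty => exact ⟨1, one_mem _, fun x hx => by
        rw [Submodule.span_empty, Submodule.mem_bot] at hx
        simp [hx]⟩
    | @insert a s _ _ ih =>
      obtain ⟨g, hg, e⟩ := ih
      by_cases ha : a ∈ Submodule.span F s
      · rw [Submodule.span_insert_eq_span ha]
        exact ⟨g, hg, e⟩
      obtain ⟨k, hk, d, d'⟩ := map_sing (P := P)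
        (S := (Submodule.span F s).map (X'.subtype ∘ₗ A.toLinearMap)) (x := g a) (x' := A a)
        (by
          rintro _ ⟨y, hy, rfl⟩
          change P.f (g a) (A y) = 0
          rw [← e y hy, isom_f hg]
          exact hX.2 a.2 _ y.2)
        (by
          rintro _ ⟨y, -, rfl⟩
          exact hX'.2 (A a).2 _ (A y).2)
        (by
          rintro ⟨y, hy, h⟩
          change (A y : V) = g a at h
          rw [← e y hy] at h
          exact ha (Subtype.ext (g.injective h) ▸ hy))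
        (by
          rintro ⟨y, hy, h⟩
          exact ha (A.injective (Subtype.ext h) ▸ hy))
        ((hX.1 a a.2).map hg) (hX'.1 _ (A a).2)
      refine ⟨k * g, mul_mem hk hg, fun x hx => ?_⟩
      obtain ⟨c, y, hy, rfl⟩ := Submodule.mem_span_insert.1 hx
      rw [mul_apply', Submodule.coe_add, Submodule.coe_smul, map_add, map_smul, map_add, map_smul,
        d', e y hy, d (A y) ⟨y, hy, rfl⟩, map_add, map_smul, Submodule.coe_add, Submodule.coe_smul]
  obtain ⟨g, hg, e⟩ := key Set.univ (Set.toFinite _)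
  exact ⟨g, hg, fun x => e x (Submodule.subset_span trivial)⟩

end Witt

section Fr

variable {w : ℕ} (Fr : Frame P w)

/-- The standard maximal totally singular subspace. -/
def YY : Submodule F V := Submodule.span F (Set.range fun i => Fr.e (i, false))

theorem YY_perp : YY Fr ≤ P.perp (YY Fr) := by
  rw [YY, Submodule.span_le]
  rintro _ ⟨i, rfl⟩
  refine mem_perp_span.2 ?_
  rintro _ ⟨j, rfl⟩
  exact Fr.orth _ _ (by simp [ng])

theorem YY_sing : ∀ y ∈ YY Fr, P.Sing y := by
  intro y hy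
  induction hy using Submodule.span_induction with
  | mem x hx =>
    obtain ⟨i, rfl⟩ := hx
    exact Fr.sing _
  | zero => exact P.sing_zero
  | add x y hx hy ihx ihy => exact ihx.add ihy (YY_perp Fr hx y hy)
  | smul c x _ ih => exact ih.smul c

theorem mem_YY (hA : Fr.Aniso) {t : V} (ht : P.Sing t) (h : t ∈ P.perp (YY Fr)) : t ∈ YY Fr := by
  have h1 := Fr.sub_sum_mem t
  have h2 : ∑ a, (P.f t (Fr.e (ng a)) / P.f (Fr.e a) (Fr.e (ng a))) • Fr.e a ∈ YY Fr := by
    refine Submodule.sum_mem _ ?_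
    rintro ⟨i, b⟩ -
    cases b
    · exact Submodule.smul_mem _ _ (Submodule.subset_span ⟨i, rfl⟩)
    · rw [h (Fr.e (ng (i, true))) (Submodule.subset_span ⟨i, rfl⟩), zero_div, zero_smul]
      exact zero_mem _
  rw [sub_eq_zero.1 (hA _ h1 (ht.sub (YY_sing Fr _ h2) (h _ h2)))]
  exact h2

theorem finrank_YY : finrank F (YY Fr) = w := by
  rw [YY, finrank_span_eq_card, Fintype.card_fin]
  rw [Fintype.linearIndependent_iff]
  intro c hc j
  have := congrArg (P.fL (Fr.e (j, true))) hc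
  rw [map_sum, map_zero, Finset.sum_eq_single j] at this
  · rw [map_smul, smul_eq_mul, fL_apply] at this
    exact (mul_eq_zero.1 this).resolve_right (Fr.pair (j, false))
  · intro i _ hi
    rw [map_smul, fL_apply, Fr.orth _ _ (by simpa [ng] using hi.symm), smul_zero]
  · simp

theorem finrank_le [FiniteDimensional F V] (hA : Fr.Aniso) {T : Submodule F V} (hT : TS P T) :
    finrank F T ≤ w := by
  have h1 := Submodule.finrank_sup_add_finrank_inf_eq T (P.perp (YY Fr))
  have h2 : finrank F ↥(T ⊔ P.perp (YY Fr)) ≤ finrank F (P.perp (T ⊓ YY Fr)) :=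
    Submodule.finrank_mono (sup_le (hT.2.trans (perp_anti inf_le_left)) (perp_anti inf_le_right))
  have h3 : finrank F ↥(T ⊓ P.perp (YY Fr)) ≤ finrank F ↥(T ⊓ YY Fr) :=
    Submodule.finrank_mono fun t ht => ⟨ht.1, mem_YY Fr hA (hT.1 t ht.1) ht.2⟩
  have h4 := P.finrank_perp (T ⊓ YY Fr)
  have h5 := P.finrank_perp (YY Fr)
  have h6 := finrank_YY Fr
  omega

end Fr

theorem witt : WittStmt := by
  intro F V _ _ _ _ _ P sp w e hP
  obtain ⟨Fr, -, hA⟩ := hP.frame
  exact ⟨fun T hT => finrank_le Fr hA hT, fun X X' hX hX' A => witt_ext hX hX' A⟩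

/-- The singular vectors outside the complement of a totally singular subspace. -/
theorem card_out (hσ : ∀ a, P.σ a = a) (hΛ : P.Λ = ⊥) {Y : Submodule F V}
    (hY : ∀ y ∈ Y, P.Sing y) (hY' : Y ≤ P.perp Y) :
    Nat.card {v : V // v ∉ P.perp Y} =
      Nat.card {v : V // v ∉ P.perp Y ∧ P.Sing v} * Nat.card F := by
  classical
  let y : V → V := fun v => Classical.epsilon fun u => u ∈ Y ∧ P.f v u = 1
  have y1 : ∀ v, v ∉ P.perp Y → y v ∈ Y ∧ P.f v (y v) = 1 := fun v hv => by
    apply Classical.epsilon_spec (p := fun u => u ∈ Y ∧ P.f v u = 1)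
    rw [mem_perp] at hv
    push Not at hv
    obtain ⟨u, hu, h⟩ := hv
    exact ⟨(P.f v u)⁻¹ • u, Y.smul_mem _ hu, by rw [f_smul_right, hσ, inv_mul_cancel₀ h]⟩
  have y2 : ∀ v, ∀ u ∈ Y, y (v + u) = y v := fun v u hu => by
    simp only [y]
    congr 1
    funext t
    refine propext (and_congr_right fun ht => ?_)
    rw [P.f_add_left, hY' hu t ht, add_zero]
  have y3 : ∀ v, v ∉ P.perp Y → ∀ c : F, v + c • y v ∉ P.perp Y := fun v hv c h => hv (by
    simpa using sub_mem h (hY' (Y.smul_mem c (y1 v hv).1)))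
  have y4 : ∀ v, v ∉ P.perp Y → ∀ c : F, P.h (v + c • y v) = P.h v + c := fun v hv c => by
    have := h_add_smul_sing (hY _ (y1 v hv).1) v c
    rw [hΛ, AddSubgroup.mem_bot, hσ, (y1 v hv).2] at this
    linear_combination this
  have sg : ∀ v, P.Sing v ↔ P.h v = 0 := fun v => by rw [Sing, hΛ, AddSubgroup.mem_bot]
  rw [← Nat.card_prod]
  refine Nat.card_congr
    { toFun := fun v => (⟨v.1 + (-P.h v.1) • y v.1, y3 _ v.2 _,
        by rw [sg, y4 _ v.2, add_neg_cancel]⟩, P.h v.1)
      invFun := fun p => ⟨p.1.1 + p.2 • y p.1.1, y3 _ p.1.2.1 _⟩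
      left_inv := fun v => Subtype.ext ?_
      right_inv := fun p => ?_ }
  · simp only
    rw [y2 _ _ (Y.smul_mem _ (y1 _ v.2).1)]
    module
  · obtain ⟨⟨v, hv, hv'⟩, c⟩ := p
    have e : P.h (v + c • y v) = c := by rw [y4 _ hv, (sg v).1 hv', zero_add]
    refine Prod.ext (Subtype.ext ?_) e
    simp only
    rw [e, y2 _ _ (Y.smul_mem _ (y1 _ hv).1)]
    module

theorem sing : SingStmt := by
  intro F V _ _ _ _ _ P sp w e hP
  have hq : 1 < Nat.card F := Finite.one_lt_card
  have hV := Module.natCard_eq_pow_finrank (K := F) (V := V)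
  have hw : 1 ≤ Nat.card F ^ w := Nat.one_le_pow _ _ (by omega)
  cases sp
  swap
  · obtain ⟨-, hΛ, rfl, hn⟩ := hP.symp rfl
    have h1 : {v : V | v ≠ 0 ∧ P.Sing v} = {0}ᶜ := by
      ext v
      simp [Sing, hΛ]
    change Nat.card {v : V | v ≠ 0 ∧ P.Sing v} = _
    rw [h1, Nat.card_coe_set_eq, Set.ncard_compl, Set.ncard_singleton, hV, hn, ns,
      Nat.add_sub_cancel, mul_comm 2, pow_mul]
    zify [hw, Nat.one_le_pow 2 _ hw]
    ring
  obtain ⟨-, hΛ, -, hn⟩ := hP.orth rfl
  obtain ⟨Fr, -, hA⟩ := hP.frame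
  have h1 := card_out hP.sig hΛ (YY_sing Fr) (YY_perp Fr)
  have h2 := Module.natCard_eq_pow_finrank (K := F) (V := YY Fr)
  have h3 := Module.natCard_eq_pow_finrank (K := F) (V := P.perp (YY Fr))
  have h4 := P.finrank_perp (YY Fr)
  rw [finrank_YY] at h2 h4
  rw [show finrank F (P.perp (YY Fr)) = w + e by omega] at h3
  have h5 : Nat.card {v : V // v ∉ P.perp (YY Fr)} + Nat.card (P.perp (YY Fr)) = Nat.card V := by
    rw [add_comm]
    exact Set.ncard_add_ncard_compl (P.perp (YY Fr) : Set V)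
  have h6 : {v : V | v ≠ 0 ∧ P.Sing v} =
      ((YY Fr : Set V) \ {0}) ∪ {v : V | v ∉ P.perp (YY Fr) ∧ P.Sing v} := by
    ext v
    simp only [Set.mem_setOf_eq, Set.mem_union, Set.mem_diff, SetLike.mem_coe,
      Set.mem_singleton_iff]
    constructor
    · rintro ⟨h, h'⟩
      by_cases hv : v ∈ P.perp (YY Fr)
      · exact Or.inl ⟨mem_YY Fr hA h' hv, h⟩
      · exact Or.inr ⟨hv, h'⟩
    · rintro (⟨h, h'⟩ | ⟨h, h'⟩)
      · exact ⟨h', YY_sing Fr v h⟩
      · exact ⟨fun e => h (e ▸ zero_mem _), h'⟩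
  change Nat.card {v : V | v ≠ 0 ∧ P.Sing v} = _
  rw [h6, Nat.card_coe_set_eq, Set.ncard_union_eq (Set.disjoint_left.2 fun v h h' =>
    h'.1 (YY_perp Fr h.1)), Set.ncard_diff_singleton_of_mem (YY Fr).zero_mem]
  change Nat.card (YY Fr) - 1 + Nat.card {v : V // v ∉ P.perp (YY Fr) ∧ P.Sing v} = _
  rw [h1, h3, hV, hn] at h5
  rw [h2, ns]
  generalize Nat.card {v : V // v ∉ P.perp (YY Fr) ∧ P.Sing v} = N at h5 ⊢
  generalize Nat.card F = q at *
  rcases w with _ | w
  · have : N * q = 0 := by simpa using h5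
    simp [(Nat.mul_eq_zero.1 this).resolve_right (by omega)]
  · rw [show w + 1 + e - 1 = w + e by omega]
    apply Nat.eq_of_mul_eq_mul_right (show 0 < q by omega)
    zify [hw] at h5 ⊢
    linear_combination h5

end Cfsg.Agent.H32.DgSing
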