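import Cfsg.Agent.H99.E72Defs

/-!
# Project E72, piece AUT5: `5 × 5:4` and `5² : S₃` together force an automorphism of order five
-/

set_option autoImplicit false
set_option maxRecDepth 100000

namespace Cfsg.Agent.H32.E72Aut5

open Cfsg.Agent.H99.E72 Subgroup

abbrev Z := ZMod 5
abbrev V2 := Z × Z
abbrev M2 := V2 × V2

/-- the matrix with columns `M.1`, `M.2` applied to a vector -/
abbrev ap (M : M2) (p : V2) : V2 := (p.1 * M.1.1 + p.2 * M.2.1, p.1 * M.1.2 + p.2 * M.2.2)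

abbrev mm (M N : M2) : M2 := (ap M N.1, ap M N.2)

abbrev one : M2 := ((1, 0), (0, 1))

abbrev sq (M : M2) : M2 := mm M M

abbrev p5 (M : M2) : M2 := mm M (sq (sq M))

abbrev p24 (M : M2) : M2 := sq (sq (sq (mm M (sq M))))

abbrev U : M2 := ((0, 1), (4, 4))

abbrev T : M2 := ((0, 4), (4, 0))

abbrev bad (M : M2) : Prop := p5 (p24 M) = one ∧ p24 M ≠ one

theorem ap_mm (M N : M2) (p : V2) : ap (mm M N) p = ap M (ap N p) :=
  Prod.ext (by simp only; ring) (by simp only; ring)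

theorem fin1 : ∀ a b c d : Z, a + d = 3 → a * d = b * c + 2 →
    bad (mm ((a, b), (c, d)) (mm ((a, b), (c, d)) (mm ((a, b), (c, d)) (mm T (mm ((a, b), (c, d)) T))))) ∨
    bad (mm ((a, b), (c, d)) (mm ((a, b), (c, d)) U)) ∨
    bad (mm ((a, b), (c, d)) (mm U (mm ((a, b), (c, d)) (mm U T)))) := by decide +kernel

theorem fin2 : ∀ a b c d x y : Z, (x, y) ≠ 0 → (ap ((a, b), (c, d)) (x, y) = (x, y) →
    a * d + 1 = b * c + a + d) ∧ (ap ((a, b), (c, d)) (x, y) = (x, y) + (x, y) →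
    a * d + 4 = b * c + 2 * (a + d)) := by decide +kernel

theorem fin3 : ∀ s m n : Z, m + 1 = n + s → m + 4 = n + 2 * s → s = 3 ∧ m = n + 2 := by decide

theorem fin4 : ((1, 0) : V2) ≠ 0 ∧ ((0, 1) : V2) ≠ 0 := by decide

variable {Γ : Type} [Group Γ] {a b : Γ}

/-- the elements of the group of order 25 -/
abbrev E (a b : Γ) (p : V2) : Γ := a ^ p.1.val * b ^ p.2.val

theorem E_add (h : P25 a b) (p q : V2) : E a b (p + q) = E a b p * E a b q := by
  have c : Commute a b := h.ab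
  rw [E, Prod.fst_add, Prod.snd_add, ZMod.val_add, ZMod.val_add, ← pow_eq_pow_mod _ h.a5,
    ← pow_eq_pow_mod _ h.b5, pow_add, pow_add]
  exact ((c.pow_pow _ _).mul_mul_mul_comm _ _)

/-- the homomorphism -/
abbrev φ (h : P25 a b) : Multiplicative V2 →* Γ :=
  MonoidHom.mk' (fun p => E a b p.toAdd) fun p q => E_add h p.toAdd q.toAdd

theorem φ_inj (h : P25 a b) : Function.Injective (φ h) :=
  (injective_iff_map_eq_one _).2 fun p e => by
    obtain ⟨h1, h2⟩ := h.ind _ (ZMod.val_lt p.toAdd.1) _ (ZMod.val_lt p.toAdd.2) e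
    exact Prod.ext ((ZMod.val_eq_zero _).1 h1) ((ZMod.val_eq_zero _).1 h2)

theorem E_inj (h : P25 a b) {p q : V2} (e : E a b p = E a b q) : p = q :=
  φ_inj h (a₁ := Multiplicative.ofAdd p) (a₂ := Multiplicative.ofAdd q) e

theorem E_pow (h : P25 a b) (p : V2) (k : ℕ) : E a b p ^ k = E a b (k • p) :=
  (map_pow (φ h) (Multiplicative.ofAdd p) k).symm

theorem E_a : E a b (1, 0) = a := by
  change a ^ 1 * b ^ 0 = a
  simp

theorem E_b : E a b (0, 1) = b := by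
  change a ^ 0 * b ^ 1 = b
  simp

theorem card_φ (h : P25 a b) : Nat.card (φ h).range = 5 ^ 2 := by
  rw [← Nat.card_congr (MonoidHom.ofInjective (φ_inj h)).toEquiv]
  simp

theorem maxi [Finite Γ] (hn : ¬ 125 ∣ Nat.card Γ) (h : P25 a b) {H : Subgroup Γ}
    (hH : IsPGroup 5 H) (le : (φ h).range ≤ H) : H = (φ h).range := by
  haveI : Fact (Nat.Prime 5) := ⟨by norm_num⟩
  obtain ⟨k, hk⟩ := IsPGroup.iff_card.1 hH
  have : k ≤ 2 := by
    by_contra c
    exact hn ((pow_dvd_pow 5 (show 3 ≤ k by omega)).trans (hk ▸ card_subgroup_dvd_card H))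
  refine (eq_of_le_of_card_ge le ?_).symm
  rw [hk, card_φ]
  exact Nat.pow_le_pow_right (by norm_num) this

/-- `n` acts as the matrix `M` -/
structure Act (a b n : Γ) (M : M2) : Prop where
  out : ∀ p, n * E a b p * n⁻¹ = E a b (ap M p)

theorem Act.mul {n n' : Γ} {M M' : M2} (k : Act a b n M) (k' : Act a b n' M') :
    Act a b (n * n') (mm M M') := ⟨fun p => by rw [ap_mm, ← k.out, ← k'.out]; group⟩

theorem act_of (h : P25 a b) {n : Γ} {M : M2} (h1 : n * a * n⁻¹ = E a b M.1)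
    (h2 : n * b * n⁻¹ = E a b M.2) : Act a b n M := ⟨fun p => by
  have e : ap M p = p.1.val • M.1 + p.2.val • M.2 := Prod.ext (by simp) (by simp)
  rw [e, E_add h, ← E_pow h, ← E_pow h, ← h1, ← h2, conj_pow, conj_pow, E]
  group⟩

theorem key [Finite Γ] (hn : ¬ 125 ∣ Nat.card Γ) (h : P25 a b) {n : Γ} {M : M2}
    (k : Act a b n M) (h5 : p5 M = one) : M = one := by
  haveI : Fact (Nat.Prime 5) := ⟨by norm_num⟩
  have k5 := k.mul ((k.mul k).mul (k.mul k))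
  let C : Subgroup Γ := centralizer ((φ h).range : Set Γ)
  have c5 : n ^ 5 ∈ C := by
    rintro _ ⟨p, rfl⟩
    have := k5.out p.toAdd
    rw [show mm M (mm (mm M M) (mm M M)) = one from h5,
      show ap one p.toAdd = p.toAdd from Prod.ext (by simp) (by simp), mul_inv_eq_iff_eq_mul,
      show n * (n * n * (n * n)) = n ^ 5 by simp only [pow_succ, pow_zero, one_mul, mul_assoc]] at this
    exact this.symm
  have nN : n ∈ normalizer ((φ h).range : Set Γ) := mem_normalizer_fintype (by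
    rintro _ ⟨p, rfl⟩
    exact ⟨Multiplicative.ofAdd (ap M p.toAdd), (k.out _).symm⟩)
  obtain ⟨e, m, hm, ho⟩ := Nat.exists_eq_pow_mul_and_not_dvd (orderOf_pos n).ne' 5 (by norm_num)
  have p1 : IsPGroup 5 (zpowers (n ^ m)) := IsPGroup.of_card_dvd_pow (n := e) (by
    rw [Nat.card_zpowers]
    exact orderOf_dvd_of_pow_eq_one (by rw [← pow_mul, mul_comm, ← ho, pow_orderOf_eq_one]))
  have e1 := maxi hn h (IsPGroup.to_sup_of_normal_right' p1 (IsPGroup.of_card (card_φ h))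
    (zpowers_le.2 (pow_mem nN m))) le_sup_right
  have cm : n ^ m ∈ C := by
    obtain ⟨q, hq⟩ : n ^ m ∈ (φ h).range := e1 ▸ mem_sup_left (mem_zpowers _)
    rintro _ ⟨p, rfl⟩
    rw [← hq, ← map_mul, ← map_mul, mul_comm]
  obtain ⟨t, ht⟩ : ∃ t, m ^ 4 = 5 * t + 1 := by
    refine ⟨m ^ 4 / 5, ?_⟩
    have : m ^ 4 % 5 = 1 := by
      rw [Nat.pow_mod]
      have : m % 5 < 5 := Nat.mod_lt _ (by norm_num)
      have : m % 5 ≠ 0 := fun c => hm (Nat.dvd_of_mod_eq_zero c)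
      generalize m % 5 = r at *
      interval_cases r <;> simp_all
    omega
  have c1 : n ∈ C := by
    have := mul_mem (inv_mem (pow_mem c5 t)) (pow_mem cm (m ^ 3))
    rwa [← pow_mul, ← pow_mul, ← pow_succ', ht, pow_succ, inv_mul_cancel_left] at this
  have fx : ∀ p, ap M p = p := fun p => E_inj h (by
    rw [← k.out, mul_inv_eq_iff_eq_mul]
    exact (c1 _ ⟨Multiplicative.ofAdd p, rfl⟩).symm)
  have f1 := fx (1, 0)
  have f2 := fx (0, 1)
  simp only [ap, one_mul, zero_mul, add_zero, zero_add] at f1 f2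
  exact Prod.ext f1 f2

theorem nbad [Finite Γ] (hn : ¬ 125 ∣ Nat.card Γ) (h : P25 a b) {n : Γ} {M : M2}
    (k : Act a b n M) : ¬ bad M := fun c =>
  have k1 := k.mul (k.mul k)
  have k2 := k1.mul k1
  have k3 := k2.mul k2
  c.2 (key hn h (k3.mul k3) c.1)

open scoped Pointwise in
theorem aut5 : Aut5Stmt := by
  rintro Γ _ _ hn ⟨x, y, r, hxy, rx, ry⟩ ⟨a, b, u, t, h, ua, ub, ta, tb⟩
  haveI : Fact (Nat.Prime 5) := ⟨by norm_num⟩
  let P : Sylow 5 Γ := ⟨(φ h).range, IsPGroup.of_card (card_φ h), fun k le => maxi hn h k le⟩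
  let Q : Sylow 5 Γ := ⟨(φ hxy).range, IsPGroup.of_card (card_φ hxy), fun k le => maxi hn hxy k le⟩
  obtain ⟨g, hg⟩ := MulAction.exists_smul_eq Γ Q P
  have hg' : MulAut.conj g • (φ hxy).range = (φ h).range := congrArg Sylow.toSubgroup hg
  have tw : ∀ p, ∃ q, g * E x y p * g⁻¹ = E a b q := fun p => by
    obtain ⟨q, e⟩ : MulAut.conj g • E x y p ∈ (φ h).range :=
      hg' ▸ smul_mem_pointwise_smul _ _ _ ⟨Multiplicative.ofAdd p, rfl⟩
    exact ⟨q.toAdd, e.symm⟩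
  have kr : Act x y r ((1, 0), (0, 2)) := act_of hxy (rx.trans E_a.symm) (ry.trans (by
    change y ^ 2 = x ^ 0 * y ^ 2
    simp))
  have fr : ∀ q, ∃ q', g * r * g⁻¹ * E a b q * (g * r * g⁻¹)⁻¹ = E a b q' := fun q => by
    have : E a b q ∈ MulAut.conj g • (φ hxy).range := hg' ▸ ⟨Multiplicative.ofAdd q, rfl⟩
    obtain ⟨_, ⟨p, rfl⟩, e⟩ := (mem_smul_pointwise_iff_exists _ _ _).1 this
    obtain ⟨q', e'⟩ := tw (ap ((1, 0), (0, 2)) p.toAdd)
    refine ⟨q', ?_⟩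
    rw [← e', ← kr.out, ← e]
    change g * r * g⁻¹ * (g * E x y p.toAdd * g⁻¹) * (g * r * g⁻¹)⁻¹ = _
    group
  obtain ⟨⟨m1, m2⟩, e1⟩ := fr (1, 0)
  obtain ⟨⟨m3, m4⟩, e2⟩ := fr (0, 1)
  rw [E_a] at e1
  rw [E_b] at e2
  have kR : Act a b (g * r * g⁻¹) ((m1, m2), (m3, m4)) := act_of h e1 e2
  have i5 : ∀ c : Γ, c ^ 5 = 1 → c⁻¹ = c ^ 4 := fun c e =>
    inv_eq_of_mul_eq_one_right (by rw [← pow_succ', e])
  have kU : Act a b u U := act_of h (ua.trans E_b.symm) (ub.trans (by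
    rw [mul_inv_rev, i5 a h.a5, i5 b h.b5]
    exact ((show Commute a b from h.ab).pow_pow 4 4).eq.symm))
  have kT : Act a b t T := act_of h (ta.trans (by
    rw [i5 b h.b5]
    change b ^ 4 = a ^ 0 * b ^ 4
    simp)) (tb.trans (by
    rw [i5 a h.a5]
    change a ^ 4 = a ^ 4 * b ^ 0
    simp))
  have nz : ∀ p q, p ≠ 0 → g * E x y p * g⁻¹ = E a b q → q ≠ 0 := by
    rintro p q hp e rfl
    refine hp (E_inj hxy ?_)
    have z : ∀ c d : Γ, E c d 0 = 1 := fun c d => by simp [E]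
    rw [z] at e ⊢
    simpa using e
  obtain ⟨⟨x1, x2⟩, ex⟩ := tw (1, 0)
  obtain ⟨⟨y1, y2⟩, ey⟩ := tw (0, 1)
  have f1 := (fin2 m1 m2 m3 m4 x1 x2 (nz _ _ fin4.1 ex)).1 (E_inj h (by
    rw [← kR.out, ← ex, E_a]
    conv_rhs => rw [← rx]
    group))
  have f2 := (fin2 m1 m2 m3 m4 y1 y2 (nz _ _ fin4.2 ey)).2 (E_inj h (by
    rw [← kR.out, E_add h, ← ey, E_b, ← pow_two, conj_pow, ← ry]
    group))
  obtain ⟨f3, f4⟩ := fin3 (m1 + m4) (m1 * m4) (m2 * m3) (by rw [f1, add_assoc]) f2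
  rcases fin1 m1 m2 m3 m4 f3 f4 with c | c | c
  · exact nbad hn h (kR.mul (kR.mul (kR.mul (kT.mul (kR.mul kT))))) c
  · exact nbad hn h (kR.mul (kR.mul kU)) c
  · exact nbad hn h (kR.mul (kU.mul (kR.mul (kU.mul kT)))) c

end Cfsg.Agent.H32.E72Aut5
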