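import Cfsg.Agent.H6.E82Defs

/-!
# Project E82, piece BRB: basic properties of the bracket
-/

set_option autoImplicit false

namespace Cfsg.Agent.H32.E82Brb

open Equiv Cfsg.Lie H37 H40 H34 H29 Module H82 H50.SL2S Finset H6.E82

theorem ee_inr (r s : Rt) : ee r (Sum.inr s) = if s = r then 1 else 0 := by
  simp only [eV, Sum.elim_inr, Fin.ext_iff]

theorem ee_inl (r : Rt) (i : Ix) : ee r (Sum.inl i) = 0 := rfl

theorem ev_ee (r s : Rt) : ev r (ee s) = 0 := by simp only [H6.E82.ev, ee_inl, zero_mul, sum_const_zero]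

theorem ee_inl_br (r s : Rt) (i : Ix) :
    br (ee r) (ee s) (Sum.inl i) = if ng r = s then (C8.R.co r i : K) else 0 := by
  rw [br_inl, sum_eq_single r (fun t _ h => by rw [ee_inr, if_neg h, zero_mul, zero_mul])
    (fun h => absurd (mem_univ r) h), ee_inr, ee_inr, if_pos rfl, one_mul, ite_mul, one_mul, zero_mul]

theorem ee_inr_br (r s u : Rt) :
    br (ee r) (ee s) (Sum.inr u) = if pr r u = 1 ∧ C8.R.τ r u = s then 1 else 0 := by
  rw [br_inr, ev_ee, ev_ee, zero_mul, mul_zero, zero_add, zero_add,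
    sum_eq_single r (fun t _ h => by rw [ee_inr, if_neg h, zero_mul, ite_self])
    (fun h => absurd (mem_univ r) h), ee_inr, ee_inr, if_pos rfl, one_mul, ite_and]

theorem ne_neg {r s : Rt} (h : -1 ≤ pr r s) : ng r ≠ s := by
  rintro rfl
  rw [pr, C8.R.pair_neg_right, C8.R.pair_self] at h
  omega

theorem tau_facts (hs : ∀ r s : Rt, pr r s = pr s r) {r u : Rt} (h : pr r u = 1) :
    pr (C8.R.τ r u) u = 1 ∧ C8.R.τ (C8.R.τ r u) u = r ∧ C8.R.τ r u ≠ r := by
  have h1 : C8.R.rc (C8.R.τ r u) = C8.R.rc u - C8.R.rc r := by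
    rw [C8.R.rc_τ, show C8.R.pair r u = 1 from h, one_smul]
  have h2 : pr (C8.R.τ r u) u = 1 := by
    have e : ∀ a b : Rt, pr a b = C8.R.cp a (C8.R.rc b) := fun a b =>
      (C8.R.pair_def a b).trans (C8.R.cp_apply a _).symm
    rw [hs, e, h1, map_sub, ← e, ← e, hs u r, h, pr, C8.R.pair_self]
    rfl
  refine ⟨h2, C8.R.rc_inj ?_, fun e => ?_⟩
  · rw [C8.R.rc_τ, show C8.R.pair _ u = 1 from h2, one_smul, h1, sub_sub_cancel]
  · have := C8.R.pair_τ_right r u
    rw [e, C8.R.pair_self, show C8.R.pair r u = 1 from h] at this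
    omega

theorem br_self (hs : ∀ r s : Rt, pr r s = pr s r) (a : V) : br a a = 0 := by
  funext j
  rcases j with i | u
  · rw [br_inl]
    refine sum_ninvolution ng (fun r => ?_) (fun r _ => C8.R.neg_ne r) (fun _ => mem_univ _)
      C8.R.neg_neg
    rw [ng, ng, C8.R.neg_neg, C8.R.co_neg, Pi.neg_apply, Int.cast_neg]
    ring
  · rw [br_inr, mul_comm, CharTwo.add_self_eq_zero, zero_add]
    refine sum_ninvolution (fun r => if pr r u = 1 then C8.R.τ r u else r) (fun r => ?_)
      (fun r h => ?_) (fun _ => mem_univ _) fun r => ?_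
    · by_cases h : pr r u = 1
      · obtain ⟨h1, h2, -⟩ := tau_facts hs h
        rw [if_pos h, if_pos h, if_pos h1, h2, mul_comm, CharTwo.add_self_eq_zero]
      · rw [if_neg h, if_neg h, if_neg h, add_zero]
    · by_cases h' : pr r u = 1
      · rw [if_pos h']
        exact (tau_facts hs h').2.2
      · exact absurd (if_neg h') h
    · by_cases h : pr r u = 1
      · obtain ⟨h1, h2, -⟩ := tau_facts hs h
        rw [if_pos h, if_pos h1, h2]
      · rw [if_neg h, if_neg h]

theorem cast_sq (n : ℤ) : (n : K) ^ 2 = n := by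
  rw [← frobenius_def, map_intCast]

theorem ev_Fr (r : Rt) (v : V) : ev r (Fr v) = ev r v ^ 2 := by
  rw [H6.E82.ev, H6.E82.ev, sum_pow_char]
  exact sum_congr rfl fun i _ => by rw [mul_pow, cast_sq]; rfl

theorem brb (rf : RfStmt) : BrbStmt := by
  have hs := rf.2.2.1
  have h1 := br_self hs
  refine ⟨h1, fun a b => ?_, fun h hh h' hh' => ?_, fun h hh r => ?_, fun r => ?_,
    fun r s h => ?_, fun r s h => ?_, fun a b => ?_⟩
  · have := h1 (a + b)
    rw [map_add, map_add, LinearMap.add_apply, LinearMap.add_apply, h1, h1, zero_add,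
      add_zero] at this
    funext j
    have h2 : br b a j + br a b j = 0 := congrFun this j
    rw [← CharTwo.neg_eq (br b a j)]
    exact eq_neg_of_add_eq_zero_right h2
  · funext j
    rcases j with i | u
    · rw [br_inl]
      exact sum_eq_zero fun r _ => by rw [hh r, zero_mul, zero_mul]
    · rw [br_inr, hh u, hh' u, mul_zero, zero_mul, zero_add, zero_add]
      exact sum_eq_zero fun r _ => by rw [hh r, zero_mul, ite_self]
  · funext j
    rcases j with i | u
    · rw [br_inl, Pi.smul_apply, ee_inl, smul_zero]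
      exact sum_eq_zero fun r _ => by rw [hh r, zero_mul, zero_mul]
    · rw [br_inr, hh u, zero_mul, add_zero, sum_eq_zero fun r _ => by
        rw [hh r, zero_mul, ite_self], add_zero, Pi.smul_apply, smul_eq_mul, ee_inr]
      by_cases e : u = r
      · rw [e]
      · rw [if_neg e, mul_zero, mul_zero]
  · funext j
    rcases j with i | u
    · rw [ee_inl_br, if_pos rfl, C8.co_eq]
      rfl
    · rw [ee_inr_br, if_neg]
      · rfl
      rintro ⟨h2, h3⟩
      have h4 : u = r := (C8.R.τ r).injective (h3.trans (C8.R.τ_self r).symm)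
      rw [h4, pr, C8.R.pair_self] at h2
      omega
  · funext j
    rcases j with i | u
    · rw [ee_inl_br, if_neg (ne_neg h.ge), ee_inl]
    · rw [ee_inr_br, ee_inr]
      refine if_congr ⟨fun h2 => by rw [← h2.2, C8.R.τ_τ], fun h2 => ?_⟩ rfl rfl
      rw [h2, pr, C8.R.pair_τ_right, C8.R.τ_τ, show C8.R.pair r s = -1 from h]
      exact ⟨rfl, rfl⟩
  · funext j
    rcases j with i | u
    · rw [ee_inl_br, if_neg (ne_neg (by omega))]
      rfl
    · rw [ee_inr_br, if_neg]
      · rfl
      rintro ⟨h2, rfl⟩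
      rw [pr, C8.R.pair_τ_right, show C8.R.pair r u = 1 from h2] at h
      omega
  · funext j
    rcases j with i | u
    · rw [Fr, br_inl, br_inl, sum_pow_char]
      exact sum_congr rfl fun r _ => by rw [mul_pow, mul_pow, cast_sq]; rfl
    · rw [Fr, br_inr, br_inr, add_pow_char, add_pow_char, sum_pow_char, mul_pow, mul_pow, ev_Fr,
        ev_Fr]
      refine congrArg₂ _ rfl (sum_congr rfl fun r _ => ?_)
      by_cases h : pr r u = 1
      · rw [if_pos h, if_pos h, mul_pow]
        rfl
      · rw [if_neg h, if_neg h, zero_pow two_ne_zero]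

end Cfsg.Agent.H32.E82Brb
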