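import Cfsg.Agent.H6.E82Defs

/-! The piece **T63**: multiplicities of an element of order `63` in a torus of `E₈`. -/

set_option autoImplicit false

namespace Cfsg.Agent.H32.E82T63

open Equiv Cfsg.Lie H37 H40 H34 H29 Module H82 H50.SL2S Finset H6.E82

theorem pt7 (x : ℤ) : (∑ k ∈ range 9, if ((x - ((7 * k : ℕ) : ℤ) : ℤ) : ZMod 63) = 0 then 1 else 0)
    = if (x : ZMod 7) = 0 then 1 else 0 := by
  simp only [ZMod.intCast_zmod_eq_zero_iff_dvd, sum_range_succ, sum_range_zero]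
  push_cast
  split_ifs <;> omega

theorem pt9 (x : ℤ) : (∑ k ∈ range 7, if ((x - ((9 * k : ℕ) : ℤ) : ℤ) : ZMod 63) = 0 then 1 else 0)
    = if (x : ZMod 9) = 0 then 1 else 0 := by
  simp only [ZMod.intCast_zmod_eq_zero_iff_dvd, sum_range_succ, sum_range_zero]
  push_cast
  split_ifs <;> omega

theorem pt21 (x : ℤ) (e : ℕ) :
    (if ((x - (e : ℤ) : ℤ) : ZMod 21) = 0 then 1 else 0) =
      (if ((x - (e : ℤ) : ℤ) : ZMod 63) = 0 then 1 else 0) +
      (if ((x - ((e + 21 : ℕ) : ℤ) : ℤ) : ZMod 63) = 0 then 1 else 0) +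
      (if ((x - ((e + 42 : ℕ) : ℤ) : ℤ) : ZMod 63) = 0 then 1 else 0) := by
  simp only [ZMod.intCast_zmod_eq_zero_iff_dvd]
  push_cast
  split_ifs <;> omega

theorem zs7 {Φ : Type} [Fintype Φ] (f : Φ → ℤ) :
    ∑ k ∈ range 9, z0 63 (fun r => f r - ((7 * k : ℕ) : ℤ)) = z0 7 f := by
  unfold z0
  rw [sum_comm]
  exact sum_congr rfl fun r _ => pt7 (f r)

theorem zs9 {Φ : Type} [Fintype Φ] (f : Φ → ℤ) :
    ∑ k ∈ range 7, z0 63 (fun r => f r - ((9 * k : ℕ) : ℤ)) = z0 9 f := by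
  unfold z0
  rw [sum_comm]
  exact sum_congr rfl fun r _ => pt9 (f r)

theorem sum7 (f : Rt → ℤ) : ∑ k ∈ range 9, cnt 63 f (7 * k) = 8 + z0 7 f := by
  have h : ∑ k ∈ range 9, (if 7 * k = 0 then 8 else 0) = 8 := by decide
  simp only [cnt, sum_add_distrib]
  rw [h, zs7]

theorem sum9 (f : Rt → ℤ) : ∑ k ∈ range 7, cnt 63 f (9 * k) = 8 + z0 9 f := by
  have h : ∑ k ∈ range 7, (if 9 * k = 0 then 8 else 0) = 8 := by decide
  simp only [cnt, sum_add_distrib]
  rw [h, zs9]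

theorem sum21 (f : Rt → ℤ) (e : ℕ) :
    cnt 21 f e = cnt 63 f e + cnt 63 f (e + 21) + cnt 63 f (e + 42) := by
  have h : z0 21 (fun r => f r - e) = z0 63 (fun r => f r - e) +
      z0 63 (fun r => f r - (e + 21 : ℕ)) + z0 63 (fun r => f r - (e + 42 : ℕ)) := by
    unfold z0
    rw [← sum_add_distrib, ← sum_add_distrib]
    exact sum_congr rfl fun r _ => pt21 (f r) e
  simp only [cnt]
  rw [h, if_neg (show e + 21 ≠ 0 by omega), if_neg (show e + 42 ≠ 0 by omega)]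
  omega

theorem red (s : ℕ) (hs : s ∣ 63) {x y : ℤ} (h : (x : ZMod 63) = 2 * y) : (x : ZMod s) = 2 * y := by
  have := congrArg (ZMod.castHom hs (ZMod s)) h
  rwa [map_mul, map_intCast, map_intCast, map_ofNat] at this

theorem c21_eq : ∀ e < 21, c21 e = pat3 e + pat3 (e + 21) + pat3 (e + 42) := by decide

theorem cnt_comp (s : ℕ) (f : Rt → ℤ) (u : Perm Rt) (e : ℕ) :
    cnt s (fun r => f (u r)) e = cnt s f e := by
  have h : z0 s (fun r => f r - e) = z0 s (fun r => f (u r) - e) := z0_congr u fun _ => Iff.rfl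
  simp only [cnt]
  rw [h]

theorem t63 (z7 : Z7Stmt) (z9 : Z9Stmt) (ra : R3aStmt) (rb : R3bStmt) : T63Stmt := by
  intro f hf w hw h
  refine ⟨?_, fun hp => ?_⟩
  · have h7 := z7 f hf w hw fun r => red 7 (by decide) (h r)
    have h9 := z9 f hf w hw fun r => red 9 (by decide) (h r)
    unfold Ok63
    rw [sum7, sum9]
    omega
  · obtain ⟨u, hu, hr⟩ := ra f hf fun e he => by
      rw [sum21, c21_eq e he, hp e (by omega), hp _ (by omega), hp _ (by omega)]
    exact rb _ (hf.comp hu) hr fun e he => by rw [cnt_comp, hp e he]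

end Cfsg.Agent.H32.E82T63
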