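import Cfsg.Agent.H11.ElDefs
import Cfsg.Agent.S0205
import Cfsg.Agent.H3.Fitting

/-!
# Project EL, piece W: an elementary abelian section of `C(A)/A`
-/

set_option autoImplicit false

namespace Cfsg.Agent.H32.ElW

open Subgroup Cfsg.Agent.H11.EL

universe u

theorem exists_ws {G : Type u} [Group G] [Finite G] {A : Subgroup G} (hA : Nat.card A = 11)
    (ho : Odd (Nat.card (Ct A))) (hn : Nat.card (Ct A) ≠ 11) : ∃ W l, WS A W l := by
  have : Fact (Nat.Prime 11) := ⟨by norm_num⟩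
  have hc : IsCyclic A := isCyclic_of_prime_card hA
  have hAC : A ≤ Ct A := fun a ha b hb =>
    congrArg Subtype.val (hc.isMulCommutative.is_comm.comm (⟨b, hb⟩ : A) ⟨a, ha⟩)
  have hCN : Ct A ≤ Nm A := centralizer_le_normalizer _
  let π := QuotientGroup.mk' (A.subgroupOf (Nm A))
  have hπ : ∀ h : Nm A, π h = 1 ↔ (h : G) ∈ A := fun h => QuotientGroup.eq_one_iff h
  have h1 : Group.IsSolvable ((Ct A).subgroupOf (Nm A)) :=
    S0205.result (by rwa [Nat.card_congr (subgroupOfEquivOfLe hCN).toEquiv])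
  have h2 : Group.IsSolvable (((Ct A).subgroupOf (Nm A)).map π) :=
    Group.isSolvable_of_surjective (π.subgroupMap_surjective _)
  have h3 : (((Ct A).subgroupOf (Nm A)).map π).Normal :=
    Normal.map inferInstance _ (QuotientGroup.mk'_surjective _)
  obtain ⟨M, l, hl, hM, h4, h5, ⟨h6, h7⟩, -⟩ :=
    H3.exists_minimal_normal_elementary_le _ h2 fun h => hn (by
      rw [← hA, show Ct A = A from le_antisymm (fun c hc => (hπ ⟨c, hCN hc⟩).1
        ((eq_bot_iff_forall _).1 h _ ⟨⟨c, hCN hc⟩, hc, rfl⟩)) hAC])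
  refine ⟨(M.comap π).map (Nm A).subtype, l, hl, fun a ha => ⟨⟨a, le_normalizer ha⟩, ?_, rfl⟩,
    fun h => h4 ((eq_bot_iff_forall _).2 fun m hm => ?_), ?_, fun g hg => ?_, ?_, ?_⟩
  · change π _ ∈ M
    rw [(hπ _).2 ha]
    exact one_mem M
  · obtain ⟨x, rfl⟩ := QuotientGroup.mk'_surjective _ m
    exact (hπ x).2 (h.ge ⟨x, hm, rfl⟩)
  · rintro _ ⟨x, hx, rfl⟩
    obtain ⟨c, hc, h⟩ := h5 hx
    have h8 : ((c⁻¹ * x : Nm A) : G) ∈ A := (hπ _).1 (by rw [map_mul, map_inv, h, inv_mul_cancel])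
    have h9 := mul_mem (show (c : G) ∈ Ct A from hc) (hAC h8)
    simpa using h9
  · refine mem_normalizer_fintype ?_
    rintro _ ⟨x, hx, rfl⟩
    exact ⟨_, (hM.comap π).conj_mem x hx ⟨g, hg⟩, rfl⟩
  · rintro _ ⟨x, hx, rfl⟩ _ ⟨y, hy, rfl⟩
    have h8 : π x * π y = π y * π x :=
      congrArg Subtype.val (h6.is_comm.comm (⟨π x, hx⟩ : M) ⟨π y, hy⟩)
    exact (hπ (x * y * x⁻¹ * y⁻¹)).1 (by simp only [map_mul, map_inv, h8]; group)
  · rintro _ ⟨x, hx, rfl⟩
    exact (hπ (x ^ l)).1 (by rw [map_pow]; exact h7 _ hx)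

theorem w : WStmt.{u} := by
  intro G _ _ D A B h
  have h1 := h.ne.cC A h.hA B h.hB h.AB
  have h2 := h.ne.v12
  have h3 := h.ne.v5
  have h4 := h.ne.even
  have h5 : Odd (D.ncard - 1) := Nat.Even.sub_odd (by omega) h4 odd_one
  refine exists_ws (h.ne.card A h.hA) (h1 ▸ h5.mul h.odd) fun h6 => ?_
  have h7 : D.ncard - 1 ≤ Nat.card (Ct A) := h1 ▸ Nat.le_mul_of_pos_right _ Nat.card_pos
  omega

end Cfsg.Agent.H32.ElW
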