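import Cfsg.Agent.H42.FvDefs
import Cfsg.Agent.H80.KLang

/-!
# Project FV, piece LANG: Lang's theorem in root subgroups products
-/

set_option autoImplicit false

namespace Cfsg.Agent.H32.FvLang

open Equiv Cfsg.Lie H37 H40 H34 H29 Module H50.E83 H42.Fv H73 H75.EX

theorem bdd_of_filt {k : Type*} [Field k] {n : Type*} [Fintype n] [DecidableEq n] {G : Type*}
    [Group G] {ρ : G →* GL n k} {ι Φ : Type*} [Finite Φ] {S : SignedSys ι Φ} {P : Split S G}
    (hX : ∀ r, IsLine ρ (P.X r)) {A : Set Φ} {f : Φ → ℤ} (hA : Filt P.X A f) :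
    Bdd (ρ.comp (P.U A).subtype) Set.univ := by
  obtain ⟨L, hL, hLA⟩ := Filt.exists_list (Set.toFinite A)
  refine (Bdd.list (T := fun r => {m : P.U A | m.1 ∈ P.X r ∧ (r ∉ A → m = 1)}) (fun r => ?_) L).mono
    fun g _ => ?_
  · by_cases hr : r ∈ A
    · exact ((hX r).sub fun _ h => Split.mem_U hr h).bdd.mono fun _ h => h.1
    · exact Bdd.one.mono fun _ h => h.2 hr
  · obtain ⟨y, h1, h2, h3⟩ := hA.exists_prod hL hLA ((Split.U_eq_gen A).le g.2)
    have h4 : ∀ r, y r ∈ P.U A := fun r => by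
      by_cases hr : r ∈ A
      exacts [Split.mem_U hr (h1 r), h2 r hr ▸ one_mem _]
    exact ⟨fun r => ⟨y r, h4 r⟩, fun r => ⟨h1 r, fun hr => Subtype.ext (h2 r hr)⟩, Subtype.ext (by
      rw [h3, SubmonoidClass.coe_list_prod, List.map_map]; rfl)⟩

theorem fr_Ph : Fr Ph := by
  refine ⟨1, ?_⟩
  rw [show (MulAut.conj (1 : GK)).toMonoidHom = MonoidHom.id _ from
    MonoidHom.ext fun g => by simp, MonoidHom.comp_id]
  exact isFrob_Phi (C := C8) (r := 3) (reg_Phi 1) (m := 1) one_pos fun _ => rfl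

theorem lang_of {A : Set Rt} (hb : ∀ ρ : GK →* GL Ix K, (∀ r, IsLine ρ (P8.X r)) →
    Bdd (ρ.comp (P8.U A).subtype) Set.univ) {n : GK} (hn : n ∈ P8.N)
    (hA : ∀ r ∈ A, P8.ν n r ∈ A) {a : GK} (ha : a ∈ P8.U A) : ∃ b ∈ P8.U A, b⁻¹ * sg n b = a := by
  obtain ⟨h, hθ⟩ := (H80.KL.langStmt C8 K).conj Ph n fr_Ph
  have hU : ∀ u ∈ P8.U A, cj n Ph u ∈ P8.U A :=
    Split.U_le (K := (P8.U A).comap (cj n Ph)) fun r hr x hx =>
      Split.mem_U (hA r hr) (P8.conj n hn r _ (Phi_mem_X 1 r x hx))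
  obtain ⟨b, e⟩ := (hθ.restr _ hU).lang
    ((Subtype.val_injective.comp (MulAut.conj h).injective).comp Subtype.val_injective)
    (hb _ fun r => H80.KL.isLine_cj (isLine_X r) h) ⟨a, ha⟩
  exact ⟨b, b.2, congrArg Subtype.val e⟩

theorem lang0 (bdd : Bdd0Stmt) : Lang0Stmt := fun h _ hn hA _ ha => lang_of (bdd h) hn hA ha

theorem langU (filt : FiltStmt) : LangUStmt := fun A h1 h2 _ hn hA _ ha =>
  lang_of (fun _ hX => bdd_of_filt hX (filt A h1 h2)) hn hA ha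

end Cfsg.Agent.H32.FvLang
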