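import Cfsg.Agent.H98.GbG
import Cfsg.Agent.H21.Tilde
import Cfsg.Agent.H16.NilCyc
import Cfsg.Agent.H16.Green

/-!
# Project GB, piece CL3: regular parts of twisted class functions stay in a union of blocks
-/

set_option autoImplicit false

namespace Cfsg.Agent.H32.GbCl3

open Cfsg Cfsg.Agent.H98.GB Cfsg.Agent.H17 MonoidAlgebra
open scoped Classical

attribute [local instance] H11.fintypeIrr

universe u

variable {G : Type u} [Group G] [Fintype G]

theorem charLift_shift (χ : G → ℂ) (a : MonoidAlgebra ℂ G) (x : G) :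
    charLift χ (a * single x 1) = charLift (fun g => χ (g * x)) a := by
  rw [charLift_mul_single, charLift_apply]

theorem inner_shift {ψ : G → ℂ} (hψ : IsClassFunction G ψ) (θ : IrrCharacter G) (y : G) :
    θ.1 1 * classInner (fun x => ψ (x * y)) θ.1 = classInner ψ θ.1 * θ.1 y := by
  rw [← H16.charLift_fC_singleton, ← charLift_shift]
  conv_lhs => rw [H11.classFun_eq_sum hψ, charLift_sum_fun]
  rw [Finset.sum_eq_single θ (fun ξ _ h => by
    rw [charLift_smul_fun, charLift_fC_mul_of_notMem (by simpa using h), mul_zero]) (by simp),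
    charLift_smul_fun, charLift_fC_mul_of_mem (Set.mem_singleton θ), charLift_single, one_mul]

theorem inner_shift_eq_zero (K : Subgroup G) [Fintype K] {χ : IrrCharacter G} {θ : IrrCharacter K}
    (h : ¬ H22.Over K χ.1 θ.1) (x : G) : classInner (fun k : K => χ.1 (k * x)) θ.1 = 0 := by
  have h1 := H16.charLift_idem_mul_eq_zero (H11.irr_isCharacter χ)
    (a := incl K (fC {θ}).1) ((show IsIdempotentElem (fC {θ}).1 from
      congrArg Subtype.val (fC_mul_self _)).map (incl K)) (by
      rw [charLift_incl, H16.charLift_fC_singleton, not_not.1 ((H22.over_iff K _ _).not.1 h),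
        mul_zero]) (single x 1)
  rw [charLift_shift, charLift_incl, H16.charLift_fC_singleton] at h1
  exact (mul_eq_zero.1 h1).resolve_left (irr_one_ne_zero θ)

theorem sum_eq (K : Subgroup G) [Fintype K] {f : G → ℂ} (hs : ∀ g, g ∉ K → f g = 0)
    (hc : IsClassFunction K fun k => f k) (χ : IrrCharacter G) (x : G) :
    ∑ h, χ.1 h * f (h⁻¹ * x) = ∑ ξ : IrrCharacter K, classInner (fun k : K => f k) ξ.1 *
      (Nat.card K * classInner (fun k : K => χ.1 (k * x)) ξ.1) := by
  have h1 : ∑ h, χ.1 h * f (h⁻¹ * x) = ∑ k : K, χ.1 (k * x) * f (k⁻¹ : K) := by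
    refine (Fintype.sum_of_injective (fun k : K => x * k)
      (fun a b h => Subtype.ext (mul_left_cancel h)) _ _ (fun g hg => ?_) fun k => ?_).symm
    · rw [hs _ fun h => hg ⟨⟨_, h⟩⁻¹, by simp⟩, mul_zero]
    · rw [← irr_isClassFunction χ (k * x) x]
      simp [mul_assoc]
  rw [h1, Finset.sum_congr rfl fun k _ => by
    rw [show f (k⁻¹ : K) = _ from H11.classFun_apply_eq_sum hc k⁻¹, Finset.mul_sum], Finset.sum_comm]
  refine Finset.sum_congr rfl fun ξ _ => ?_
  rw [H11.classInner_eq_sum_inv (H11.irr_isCharacter ξ) (φ := fun k : K => χ.1 (k * x)),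
    mul_inv_cancel_left₀ (H11.card_ne_zero K), Finset.mul_sum]
  exact Finset.sum_congr rfl fun k _ => mul_left_comm _ _ _

theorem inE_iff (K : Subgroup G) [Fintype K] {f : G → ℂ} (hs : ∀ g, g ∉ K → f g = 0)
    (hc : IsClassFunction K fun k => f k) (S : Set (IrrCharacter G)) :
    InE S f ↔ ∀ θ : IrrCharacter K, ∀ χ ∉ S, H22.Over K χ.1 θ.1 →
      classInner (fun k : K => f k) θ.1 = 0 := by
  refine ⟨fun h θ χ hχ ho => ?_, fun h χ hχ x => ?_⟩
  · have hr : IsClassFunction K fun k => χ.1 k := fun a b => irr_isClassFunction χ _ _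
    have h1 := Fintype.linearIndependent_iff.1 (irr_linearIndependent (G := K))
      (fun ξ => classInner (fun k : K => f k) ξ.1 *
        (Nat.card K * (classInner (fun k : K => χ.1 k) ξ.1 / ξ.1 1))) (funext fun x => by
        rw [Finset.sum_apply, Pi.zero_apply, ← h χ hχ x, sum_eq K hs hc]
        refine Finset.sum_congr rfl fun ξ _ => ?_
        have h2 := inner_shift hr ξ x
        rw [Pi.smul_apply, smul_eq_mul, mul_assoc, mul_assoc, div_mul_eq_mul_div, ← h2,
          mul_div_cancel_left₀ _ (irr_one_ne_zero ξ)]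
        rfl) θ
    exact (mul_eq_zero.1 h1).resolve_right (mul_ne_zero (H11.card_ne_zero K)
      (div_ne_zero ((H22.over_iff K _ _).1 ho) (irr_one_ne_zero θ)))
  · rw [sum_eq K hs hc]
    refine Finset.sum_eq_zero fun ξ _ => ?_
    by_cases ho : H22.Over K χ.1 ξ.1
    · rw [h ξ χ hχ ho, zero_mul]
    · rw [inner_shift_eq_zero K ho, mul_zero, mul_zero]

theorem tw_supp {l : G →* ℂˣ} {f : G → ℂ} (h : Tw l f) (g : G) (hg : g ∉ l.ker) : f g = 0 := by
  have h1 := h g g
  rw [mul_inv_cancel_right] at h1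
  by_contra h0
  exact hg (Units.ext (mul_right_cancel₀ h0 (h1.symm.trans (one_mul _).symm)))

theorem tw_class {l : G →* ℂˣ} {f : G → ℂ} (h : Tw l f) :
    IsClassFunction l.ker fun k => f k := fun a b => by
  have := h b a
  rw [show l b = 1 from b.2, Units.val_one, one_mul] at this
  exact this

theorem cl3 : CL3Stmt.{u} := by
  intro G _ _ p _ M hM l S hS f ⟨h1, h2⟩
  have h3 : Tw l (pRegularPart p f) := fun x g => by
    have : orderOf (x * g * x⁻¹) = orderOf g := (MulAut.conj x).orderOf_eq g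
    have h : IsPRegular p (x * g * x⁻¹) ↔ IsPRegular p g := by rw [IsPRegular, this, IsPRegular]
    by_cases h' : IsPRegular p g <;> simp [pRegularPart, h, h', h1 x g]
  refine ⟨h3, (inE_iff _ (tw_supp h3) (tw_class h3) S).2 fun θ' χ' hχ' ho => ?_⟩
  have h4 : (fun k : l.ker => pRegularPart p f k) = pRegularPart p fun k : l.ker => f k :=
    funext fun k => by
      have h : IsPRegular p (k : G) ↔ IsPRegular p k := by
        rw [IsPRegular, Subgroup.orderOf_coe, IsPRegular]
      by_cases h' : IsPRegular p k <;> simp [pRegularPart, h, h']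
  rw [h4, H21.classInner_preg_comm, H11.classInner_eq_sum (tw_class h1)]
  refine Finset.sum_eq_zero fun θ _ => ?_
  by_cases h5 : classInner (pRegularPart p θ'.1) θ.1 = 0
  · rw [h5, map_zero, mul_zero]
  obtain ⟨χ, hχ, h6⟩ := H22.Covers.exists_over hM.2.1 ⟨χ', rfl⟩ ⟨θ', rfl⟩
    (H22.covers_blockOf hM.2.1 ho) (θ := θ) (H21.sameBlock_of_inner_preg_ne_zero hM h5)
  rw [(inE_iff _ (tw_supp h1) (tw_class h1) S).1 h2 θ χ (fun h => hχ' (hS χ h χ'
    ((sameBlock_iff_lam_eq hM.2.1 χ' χ).1 hχ).symm)) h6, zero_mul]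

end Cfsg.Agent.H32.GbCl3
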