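import Cfsg.Agent.H98.GbL

/-! Project GB, piece **IDX**. -/

set_option autoImplicit false

namespace Cfsg.Agent.H32.GbIdx

open Cfsg Cfsg.Agent.H98.GB

universe u

variable {F : Type u} [Field F] [Fintype F] [DecidableEq F] {C : Ctx F}

theorem fixp {c : C.L} (h : C.qL * c = c) (j : ℕ) : C.qL ^ j * c = c := by
  induction j with
  | zero => rw [pow_zero, one_mul]
  | succ j ih => rw [pow_succ, mul_assoc, h, ih]

theorem pw_iff (L : C.Lab) (γ : C.L) (m n : ℕ) :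
    C.qL ^ m * γ = C.qL ^ n * γ ↔ m ≡ n [MOD C.dg (C.mkΦ γ)] := by
  wlog h : m ≤ n generalizing m n
  · rw [eq_comm, this n m (by omega)]
    exact ⟨Nat.ModEq.symm, Nat.ModEq.symm⟩
  obtain ⟨k, rfl⟩ := Nat.exists_eq_add_of_le h
  rw [Nat.modEq_iff_dvd' h, Nat.add_sub_cancel_left, (L.mk_eq γ (C.qL ^ m * γ)).2 ⟨m, rfl⟩,
    ← L.dg_iff, ← mul_assoc, ← pow_add, add_comm k m, eq_comm]

theorem iter {γ c : C.L} (h : C.qL * c = c) {j : ℕ} (e : γ + c = C.qL ^ j * γ) (n : ℕ) :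
    C.qL ^ (j * n) * γ = γ + n • c := by
  induction n with
  | zero => simp
  | succ n ih =>
    rw [Nat.mul_succ, pow_add, mul_assoc, ← e, mul_add, ih, fixp h, succ_nsmul, add_assoc]

theorem fixβ {β : C.L} {r : ℕ} (h : addOrderOf β = C.p ^ r) {i : ℕ}
    (hi : orderOf (Fintype.card F : ZMod C.p) * C.p ^ r ∣ i) : C.qL ^ i * β = β := by
  obtain ⟨k, rfl⟩ := hi
  have h1 : (C.p : ℤ) ∣ (Fintype.card F : ℤ) ^ (orderOf (Fintype.card F : ZMod C.p) * k) - 1 := by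
    rw [← ZMod.intCast_zmod_eq_zero_iff_dvd]
    push_cast
    rw [pow_mul, pow_orderOf_eq_one, one_pow, sub_self]
  obtain ⟨s, hs⟩ := dvd_sub_pow_of_dvd_sub h1 r
  have h2 := congrArg (Int.cast : ℤ → C.L) hs
  push_cast at h2
  have h3 : (C.p : C.L) ^ r * β = 0 := by
    have := addOrderOf_nsmul_eq_zero β
    rwa [h, nsmul_eq_mul, Nat.cast_pow] at this
  rw [← sub_eq_zero, ← sub_one_mul, mul_right_comm _ (C.p ^ r) k, pow_mul]
  change (((Fintype.card F : C.L) ^ _) ^ _ - 1) * β = 0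
  rw [one_pow] at h2
  rw [h2]
  linear_combination ((C.p : C.L) * s) * h3

theorem ker (L : C.Lab) {γ c : C.L} (h : C.qL * c = c) (hu : C.uu * c = c) {j : ℕ}
    (e : γ + c = C.qL ^ j * γ)
    (ha : (orderOf (Fintype.card F : ZMod C.p)).gcd (C.dg (C.mkΦ γ)) ∣ j) (φ : C.Φ)
    (hφ : C.lp φ = C.mkΦ γ) : C.tw c φ = φ := by
  obtain ⟨i, hi⟩ := (L.mk_eq _ _).1 hφ
  have hx : C.mkΦ (C.qL ^ i * C.out φ) = φ := by
    rw [← (L.mk_eq _ _).2 ⟨i, rfl⟩, L.mk_out]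
  set x := C.qL ^ i * C.out φ with hxd
  have ux : C.uu * x = γ := by rw [hi, hxd, mul_left_comm]
  obtain ⟨r, hr⟩ := L.uu_p x
  rw [ux] at hr
  have d1 : C.dg (C.mkΦ γ) ∣ j * addOrderOf c := by
    rw [← L.dg_iff, iter h e, addOrderOf_nsmul_eq_zero, add_zero]
  have q0 : (Fintype.card F : ZMod C.p) ≠ 0 := fun e0 => by
    have := (orderOf_pos_iff.1 (L.eG_pos (C.mkΦ γ))).isUnit
    rw [e0, zero_pow (L.dg_pos _).ne'] at this
    exact not_isUnit_zero this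
  have c1 : (orderOf (Fintype.card F : ZMod C.p)).Coprime C.p := by
    refine Nat.Coprime.coprime_dvd_left (ZMod.orderOf_dvd_card_sub_one q0) ?_
    have := C.hp.two_le
    exact (Nat.coprime_of_lt_prime (by omega) (by omega) C.hp).symm
  have c2 : (C.p ^ r).Coprime (addOrderOf c) :=
    Nat.Coprime.pow_left r ((Nat.Prime.coprime_iff_not_dvd C.hp).2 ((L.uu_iff c).1 hu))
  have g : (C.dg (C.mkΦ γ)).gcd (orderOf (Fintype.card F : ZMod C.p) * C.p ^ r) ∣ j := by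
    refine (Nat.gcd_mul_right_dvd_mul_gcd _ _ _).trans (Nat.Coprime.mul_dvd_of_dvd_of_dvd ?_ ?_ ?_)
    · exact ((c1.pow_right r).coprime_dvd_left (Nat.gcd_dvd_right _ _)).coprime_dvd_right
        (Nat.gcd_dvd_right _ _)
    · rwa [Nat.gcd_comm]
    · exact (c2.coprime_dvd_left (Nat.gcd_dvd_right _ _)).dvd_of_dvd_mul_right
        ((Nat.gcd_dvd_left _ _).trans d1)
  obtain ⟨k, k1, k2⟩ := Nat.chineseRemainder' ((Nat.modEq_zero_iff_dvd).2 g)
  have e1 := (pw_iff L γ k j).2 k1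
  have e2 := fixβ hr (Nat.modEq_zero_iff_dvd.1 k2)
  rw [← hx, L.tw_mk c x h, eq_comm, L.mk_eq]
  exact ⟨k, by linear_combination e - e1 - e2⟩

theorem idx (hL : LABStmt.{u}) : IDXStmt.{u} := by
  intro F _ _ _ C Γ hΓ
  have L := hL F C
  refine ⟨(orderOf (Fintype.card F : ZMod C.p)).gcd (C.dg Γ), ?_, fun B hB => ?_⟩
  · rw [Ctx.eG, orderOf_pow' _ (L.dg_pos Γ).ne', Nat.mul_div_cancel' (Nat.gcd_dvd_left _ _)]
  set a := (orderOf (Fintype.card F : ZMod C.p)).gcd (C.dg Γ) with ha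
  have a0 : NeZero a := ⟨(Nat.gcd_pos_of_pos_right _ (L.dg_pos Γ)).ne'⟩
  have mo := L.mk_out Γ
  have ex : ∀ c : B, ∃ j : ℕ, C.out Γ + c = C.qL ^ j * C.out Γ := fun c =>
    (L.mk_eq _ _).1 (mo.trans (hB c c.2).2.2.symm)
  choose j hj using ex
  let f : B →+ ZMod a := AddMonoidHom.mk' (fun c => (j c : ZMod a)) fun c c' => by
    rw [← Nat.cast_add, ZMod.natCast_eq_natCast_iff]
    refine Nat.ModEq.of_dvd (Nat.gcd_dvd_right _ _) ?_
    rw [← mo, ← pw_iff L, ← hj, pow_add, mul_assoc, ← hj c', mul_add, ← hj c,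
      fixp (hB c' c'.2).1, AddSubgroup.coe_add, add_assoc]
  have h1 : Nat.card f.ker * Nat.card f.range = Nat.card B := by
    rw [← AddSubgroup.index_ker, AddSubgroup.card_mul_index]
  have h2 : Nat.card f.range ≤ a :=
    (AddSubgroup.card_le_card_addGroup _).trans (Nat.card_zmod a).le
  have h3 : Nat.card f.ker ≤ {c | c ∈ B ∧ ∀ φ, C.lp φ = Γ → C.tw c φ = φ}.ncard := by
    rw [← Nat.card_coe_set_eq]
    refine Nat.card_le_card_of_injective (fun c => ⟨c.1.1, c.1.2, fun φ hφ => ?_⟩)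
      fun c c' e => Subtype.ext (Subtype.ext (Subtype.mk.inj e))
    refine ker L (hB _ c.1.2).1 (hB _ c.1.2).2.1 (hj c.1) ?_ φ (hφ.trans mo.symm)
    rw [mo, ← ha, ← ZMod.natCast_eq_zero_iff]
    exact c.2
  rw [← h1, mul_comm]
  exact Nat.mul_le_mul h2 h3

end Cfsg.Agent.H32.GbIdx
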