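import Cfsg.Agent.H73.GagDefs
import Cfsg.Agent.H83.Syl
import Cfsg.Agent.H11.GroupUtil

/-! GAG-LOCB: local consequences of `¬ HypA`. -/

set_option autoImplicit false

namespace Cfsg.Agent.H32.GgL

open Subgroup Cfsg Cfsg.Agent.H73.Gag Cfsg.Agent.H83
open scoped MatrixGroups

universe u

variable {G : Type u} [Group G] {N : Subgroup G} {x : G}

theorem ncl_le (hx : x ∈ N) : ncl N x ≤ N := (closure_le _).2 (by
  rintro _ ⟨n, hn, rfl⟩; exact mul_mem (mul_mem hn hx) (inv_mem hn))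

theorem conj_mem_ncl {n : G} (hn : n ∈ N) : n * x * n⁻¹ ∈ ncl N x := subset_closure ⟨n, hn, rfl⟩

theorem self_mem_ncl : x ∈ ncl N x := subset_closure ⟨1, one_mem _, by simp⟩

theorem le_norm_ncl : N ≤ normalizer (ncl N x : Set G) := le_normalizer_iff.2 fun g hg y hy => by
  have : ncl N x ≤ cj g⁻¹ (ncl N x) := (closure_le _).2 (by
    rintro _ ⟨n, hn, rfl⟩
    refine mem_cj.2 (subset_closure ⟨g * n, mul_mem hg hn, ?_⟩)
    group)
  have := mem_cj.1 (this hy)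
  rwa [inv_inv] at this

theorem eq_one {o : G} (ho : o ∈ pCoreOf 2 N) (h3 : o ^ 3 = 1) : o = 1 :=
  eq_one_of_mem_pgroup (pCoreOf_isPGroup N) ho
    ((show Nat.Coprime 3 2 by decide).coprime_dvd_left (orderOf_dvd_of_pow_eq_one h3))

theorem three_cases {y : G} [Finite G] (h3 : orderOf x = 3) (hy : y ∈ zpowers x) (y1 : y ≠ 1) :
    y = x ∨ y = x⁻¹ := by
  obtain ⟨k, rfl⟩ : ∃ k : ℕ, x ^ k = y := mem_powers_iff_mem_zpowers.2 hy
  rw [← pow_mod_orderOf, h3] at y1 ⊢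
  have := Nat.mod_lt k three_pos
  interval_cases k % 3
  · exact absurd (pow_zero x) y1
  · exact .inl (pow_one x)
  · exact .inr (eq_inv_of_mul_eq_one_left (by rw [← pow_succ]; exact orderOf_dvd_iff_pow_eq_one.1 h3.dvd))

theorem norm_zp [Finite G] {g : G} (h : g * x * g⁻¹ ∈ zpowers x) :
    g ∈ normalizer (zpowers x : Set G) := mem_normalizer_fintype (by
  rintro _ ⟨k, rfl⟩
  show g * x ^ k * g⁻¹ ∈ zpowers x
  rw [← conj_zpow]
  exact zpow_mem h k)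

theorem cent (hA : ¬ HypA G) (hx : x ∈ N) (h3 : orderOf x = 3) {y o : G} (hy : y ∈ ncl N x)
    (ho : o ∈ pCoreOf 2 N) : Commute o y := by
  have : ncl N x ≤ centralizer {o} := (closure_le _).2 (by
    rintro _ ⟨n, hn, rfl⟩
    refine mem_centralizer_singleton_iff.2 (Commute.eq (Commute.symm ?_))
    by_contra k
    exact hA ⟨_, (orderOf_conj' n x).trans h3, _, pCoreOf_isPGroup N,
      le_norm_pCoreOf N (mul_mem (mul_mem hn hx) (inv_mem hn)), o, ho, k⟩)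
  exact (mem_centralizer_singleton_iff.1 (this hy)).symm

theorem type1 [Finite G] (hA : ¬ HypA G) (hx : x ∈ N) (h3 : orderOf x = 3)
    (h : ncl N x ≤ zpowers x ⊔ pCoreOf 2 N) : N ≤ normalizer (zpowers x : Set G) := fun n hn => by
  obtain ⟨a, ha, o, ho, e⟩ := (mem_sup_right_norm ((zpowers_le.2 hx).trans (le_norm_pCoreOf N))).1
    (h (conj_mem_ncl hn))
  have a3 : a ^ 3 = 1 := orderOf_dvd_iff_pow_eq_one.1 (h3 ▸ orderOf_dvd_of_mem_zpowers ha)
  have o3 : o ^ 3 = 1 := by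
    have := (cent hA hx h3 (zpowers_le.2 self_mem_ncl ha) ho).symm.mul_pow 3
    rw [e, conj_pow', ← h3, pow_orderOf_eq_one, h3, a3] at this
    simpa using this.symm
  rw [eq_one ho o3, mul_one] at e
  exact norm_zp (e ▸ ha)

theorem ord3 {K : Type*} [Group K] {θ : ncl N x →* K}
    (hk : θ.ker = (pCoreOf 2 N).subgroupOf (ncl N x)) {y : ncl N x} (h3 : orderOf (y : G) = 3) :
    orderOf (θ y) = 3 := by
  have : Fact (Nat.Prime 3) := ⟨Nat.prime_three⟩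
  have y3 : (y : G) ^ 3 = 1 := h3 ▸ pow_orderOf_eq_one _
  refine orderOf_eq_prime (by rw [← map_pow, show y ^ 3 = 1 from Subtype.ext y3, map_one]) fun e => ?_
  have : y ∈ θ.ker := e
  rw [hk] at this
  rw [eq_one (o := (y : G)) this y3, orderOf_one] at h3
  omega

theorem mem_zp_conj [Finite G] (k0 : K0 2 G) {y : G} (hx : x ∈ N) (hy : y ∈ N) (h3 : orderOf x = 3)
    (y3 : orderOf y = 3) : ∃ n ∈ N, y ∈ zpowers (n * x * n⁻¹) := by
  have : Fact (Nat.Prime 3) := ⟨Nat.prime_three⟩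
  have pz : ∀ z : G, orderOf z = 3 → IsPGroup 3 (zpowers z) := fun z hz =>
    isPGroup_zpowers (k := 1) (by rw [pow_one, ← hz, pow_orderOf_eq_one])
  obtain ⟨P, hP, le⟩ := exists_isSylowIn_ge (zpowers_le.2 hy) (pz y y3)
  obtain ⟨n, hn, le'⟩ := hP.exists_conj_le (zpowers_le.2 hx) (pz x h3)
  have := k0.cyc 3 Nat.prime_three (by decide) (by decide) P hP.isPGroup
  exact ⟨n, hn, H11.mem_zpowers_of_orderOf_dvd P (le (mem_zpowers y))
    (le' (conj_mem_cj (mem_zpowers x))) (by rw [orderOf_conj', h3, y3])⟩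

section two
variable [Finite G] (fsl : FslStmt) (hA : ¬ HypA G) (hx : x ∈ N) (h3 : orderOf x = 3)
  {F : Type} [Field F] [Fintype F] {a : ℕ} (hF : Fintype.card F = 2 ^ a) (ha : 2 ≤ a)
  {ρ : ncl N x →* SL(2, F)} (hs : Function.Surjective ρ)
  (hk : ρ.ker = (pCoreOf 2 N).subgroupOf (ncl N x))
include fsl hA hx h3 hF ha hs hk

omit hx [Finite G] in
theorem odd_a : Odd a := by
  by_contra e
  obtain ⟨Q, hQ, n, q, hq, c⟩ := (fsl F a hF ha).2.2.2.2.2 (Nat.not_odd_iff_even.1 e) _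
    (ord3 hk (y := ⟨x, self_mem_ncl⟩) h3)
  obtain ⟨q, rfl⟩ := hs q
  refine hA ⟨x, h3, (Q.comap ρ).map (ncl N x).subtype,
    (hQ.comap_of_ker_isPGroup ρ (hk ▸ (pCoreOf_isPGroup N).comap_subtype)).map _, ?_, q,
    ⟨q, hq, rfl⟩, fun k => c (Commute.map (f := ρ) (x := q) (y := ⟨x, self_mem_ncl⟩) (Subtype.ext k))⟩
  exact le_normalizer_map _ ⟨⟨x, self_mem_ncl⟩, le_normalizer_comap _ n, rfl⟩

omit [Finite G] in
theorem inverted : ∃ g ∈ ncl N x, g * x * g⁻¹ = x⁻¹ := by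
  obtain ⟨g, hg⟩ := isConj_iff.1 ((fsl F a hF ha).2.2.2.2.1 _ (ord3 hk (y := ⟨x, self_mem_ncl⟩) h3))
  obtain ⟨g, rfl⟩ := hs g
  have m : ⟨x, self_mem_ncl⟩ * (g * ⟨x, self_mem_ncl⟩ * g⁻¹) ∈ ρ.ker := by
    rw [MonoidHom.mem_ker, map_mul, map_mul, map_mul, map_inv, hg, mul_inv_cancel]
  rw [hk] at m
  have m' : x * (g * x * (g : G)⁻¹) ∈ pCoreOf 2 N := m
  have x3 : x ^ 3 = 1 := h3 ▸ pow_orderOf_eq_one x
  refine ⟨g, g.2, eq_inv_of_mul_eq_one_right (eq_one m' ?_)⟩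
  have := (cent hA hx h3 self_mem_ncl m').symm.inv_left.mul_pow 3
  rw [inv_mul_cancel_left, conj_pow', inv_pow, x3] at this
  simpa using this.symm

theorem mem_a (k0 : K0 2 G) {w : G} (hw : w ∈ N) {k : ℕ} (wk : w ^ 3 ^ k = 1) (xw : x ∈ zpowers w) :
    w ∈ ncl N x := by
  have : Fact (Nat.Prime 3) := ⟨Nat.prime_three⟩
  obtain ⟨g, hg, e⟩ := inverted fsl hA hx h3 hF ha hs hk
  have wH : zpowers w ≤ (ncl N x ⊔ zpowers w) ⊓ centralizer (zpowers x : Set G) :=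
    le_inf le_sup_right (zpowers_le.2 fun y hy => by
      obtain ⟨i, rfl⟩ := zpowers_le.2 xw hy
      exact (Commute.zpow_self w i).eq)
  obtain ⟨P, hP, le⟩ := exists_isSylowIn_ge wH (isPGroup_zpowers wk)
  obtain ⟨c, hc, s, hs', rfl⟩ := hP.frattini (g := g) (le_norm_inf (H := zpowers g)
    (le_norm_of_le (zpowers_le.2 (mem_sup_left hg)))
    (le_norm_cent (zpowers_le.2 (norm_zp (e ▸ inv_mem (mem_zpowers x))))) (mem_zpowers g))
  have := k0.cyc 3 Nat.prime_three (by decide) (by decide) P hP.isPGroup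
  have wP := le (mem_zpowers w)
  obtain ⟨j, hj⟩ : ∃ j : ℕ, w ^ j = s * w * s⁻¹ := mem_powers_iff_mem_zpowers.2
    (H11.mem_zpowers_of_orderOf_dvd P ((mem_normalizer_iff.1 hs' w).1 wP) wP (by rw [orderOf_conj']))
  have e1 : s * x * s⁻¹ = x⁻¹ := by
    have k := hc.2 x⁻¹ (inv_mem (mem_zpowers x))
    calc s * x * s⁻¹ = c⁻¹ * (c * s * x * (c * s)⁻¹ * c) := by group
      _ = x⁻¹ := by rw [e, k]; group
  have e2 : 3 ∣ j + 1 := by
    obtain ⟨i, rfl⟩ := xw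
    change orderOf (w ^ i) = 3 at h3
    change s * w ^ i * s⁻¹ = (w ^ i)⁻¹ at e1
    rw [← conj_zpow, ← hj, ← zpow_natCast, ← zpow_mul, mul_comm, zpow_mul, zpow_natCast] at e1
    rw [← h3, orderOf_dvd_iff_pow_eq_one, pow_succ, e1, inv_mul_cancel]
  obtain ⟨l, hl, v, ⟨i, rfl⟩, e3⟩ := (mem_sup_left_norm ((zpowers_le.2 hw).trans le_norm_ncl)).1
    ((Subgroup.mul_mem_cancel_left _ hc.1).1 (mem_sup_left hg))
  obtain ⟨m, rfl⟩ : ∃ m, j = 3 * m + 1 + 1 := ⟨j / 3, by omega⟩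
  refine mem_of_pelt_of_pow_mem wk (n := 3 * m + 1) ?_ (by simp)
  have : w ^ (3 * m + 1) = l * (w * l⁻¹ * w⁻¹) := by
    rw [← mul_left_inj w, ← pow_succ, hj, ← e3]
    show l * w ^ i * w * (l * w ^ i)⁻¹ = _
    group
  rw [this]
  exact mul_mem hl (conj_mem le_norm_ncl hw (inv_mem hl))

theorem not_inv (out : OutStmt.{u}) {s y : G} (hs' : s ∈ N) (hy : y ∈ ncl N x) {k : ℕ}
    (sk : s ^ 2 ^ k = 1) (y3 : orderOf y = 3) (c : Commute s x) : s * y * s⁻¹ ≠ y⁻¹ := by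
  intro inv
  obtain ⟨sim, nc, -, f4, -⟩ := fsl F a hF ha
  have : (pCore 2 N).Normal := normal_iff_le_norm_map.2 (le_norm_pCoreOf N)
  let π := QuotientGroup.mk' (pCore 2 N)
  let ψ : ncl N x →* N ⧸ pCore 2 N := π.comp (inclusion (ncl_le hx))
  have hψ : ψ.ker = (pCoreOf 2 N).subgroupOf (ncl N x) := by
    ext z
    rw [MonoidHom.mem_ker, mem_subgroupOf]
    exact (QuotientGroup.eq_one_iff _).trans
      (coe_mem_map_subtype (x := inclusion (ncl_le hx) z)).symm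
  have hL : ψ.range.Normal := ⟨by
    rintro _ ⟨z, rfl⟩ g
    obtain ⟨n, rfl⟩ := QuotientGroup.mk'_surjective _ g
    exact ⟨⟨_, conj_mem le_norm_ncl n.2 z.2⟩, rfl⟩⟩
  let e : ψ.range ≃* SL(2, F) := (QuotientGroup.quotientKerEquivRange ψ).symm.trans
    ((QuotientGroup.quotientMulEquivOfEq (hψ.trans hk.symm)).trans
      (QuotientGroup.quotientKerEquivOfSurjective ρ hs))
  obtain ⟨φ, -, h2⟩ := out _ ψ.range hL F 2 a Nat.prime_two hF
    (Nat.pow_le_pow_right two_pos ha) ⟨e⟩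
  have g1 : Nat.gcd 2 (2 ^ a - 1) = 1 := Nat.coprime_two_left.2
    (Nat.Even.sub_odd Nat.one_le_two_pow ((Nat.even_pow' (by omega)).2 even_two) odd_one)
  rw [g1, Nat.dvd_one, relIndex_eq_one] at h2
  have sk' : π ⟨s, hs'⟩ ^ 2 ^ k = 1 := by
    rw [← map_pow, show (⟨s, hs'⟩ : N) ^ 2 ^ k = 1 from Subtype.ext sk, map_one]
  have oa := odd_a fsl hA h3 hF ha hs hk
  have : NeZero a := ⟨by omega⟩
  have m : π ⟨s, hs'⟩ ∈ φ.ker := eq_one_of_ppow (p := 2) (k := k) (by rw [← map_pow, sk', map_one])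
    (Nat.coprime_two_right.2 (oa.of_dvd_nat (by
      simpa using orderOf_dvd_natCard (φ (π ⟨s, hs'⟩)))))
  obtain ⟨l, hl, d, hd, e1⟩ := (mem_sup_left_norm (centralizer_le_normalizer _)).1 (h2 m)
  have ld : Commute l d := hd l hl
  have z : e ⟨l, hl⟩ ^ 2 ^ k = 1 := by
    have cz : e ⟨l, hl⟩ ^ 2 ^ k ∈ center SL(2, F) := mem_center_iff.2 fun g => by
      obtain ⟨g, rfl⟩ := e.surjective g
      rw [← map_pow, ← map_mul, ← map_mul]
      refine congrArg e (Subtype.ext ?_)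
      show g.1 * l ^ 2 ^ k = l ^ 2 ^ k * g.1
      rw [← e1, ld.mul_pow] at sk'
      rw [eq_inv_of_mul_eq_one_left sk']
      exact inv_mem (pow_mem hd _) g.1 g.2
    rcases (inferInstance : (center SL(2, F)).Normal).eq_bot_or_eq_top with b | b
    · rwa [b, mem_bot] at cz
    · exact absurd ⟨⟨fun p q => mem_center_iff.1 (b ▸ mem_top q) p⟩⟩ nc
  have l1 := f4 (e ⟨ψ ⟨x, self_mem_ncl⟩, _, rfl⟩) _
    (by rw [MulEquiv.orderOf_eq, ← orderOf_coe]; exact ord3 hψ h3) (Commute.map (f := e) (Subtype.ext (by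
      show ψ ⟨x, self_mem_ncl⟩ * l = l * ψ ⟨x, self_mem_ncl⟩
      have c1 : Commute (ψ ⟨x, self_mem_ncl⟩) (l * d) :=
        e1 ▸ Commute.map (f := π) (x := ⟨x, hx⟩) (y := ⟨s, hs'⟩) (Subtype.ext c.symm.eq)
      have c2 : Commute (ψ ⟨x, self_mem_ncl⟩) d := hd _ ⟨_, rfl⟩
      simpa using (c1.mul_right c2.inv_right).eq))) ⟨k, z⟩
  obtain rfl : l = 1 := congrArg Subtype.val ((map_eq_one_iff e e.injective).1 l1)
  rw [one_mul] at e1
  have c3 : ψ ⟨y, hy⟩ * d = d * ψ ⟨y, hy⟩ := hd _ ⟨_, rfl⟩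
  have c4 : d * ψ ⟨y, hy⟩ * d⁻¹ = (ψ ⟨y, hy⟩)⁻¹ := by
    rw [e1]
    exact congrArg π (Subtype.ext inv : ⟨s, hs'⟩ * ⟨y, ncl_le hx hy⟩ * (⟨s, hs'⟩ : N)⁻¹ =
      (⟨y, ncl_le hx hy⟩ : N)⁻¹)
  rw [← c3, mul_inv_cancel_right, eq_inv_iff_mul_eq_one, ← pow_two, ← orderOf_dvd_iff_pow_eq_one,
    ord3 hψ y3] at c4
  omega

omit hA in
theorem not_syl (S : Sylow 2 G) (hS : (S : Subgroup G) ≤ N) :
    ¬ (S : Subgroup G) ≤ normalizer (zpowers x : Set G) := by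
  intro hn
  have : Fact (Nat.Prime 2) := ⟨Nat.prime_two⟩
  obtain ⟨-, -, cd, f4, -⟩ := fsl F a hF ha
  have hT := (isSylowIn_of_sylow S hS).inf_normal (ncl_le hx) le_norm_ncl
  let R := (((S : Subgroup G) ⊓ ncl N x).subgroupOf (ncl N x)).map ρ
  have i : ¬ 2 ∣ R.index := fun d => hT.not_dvd_relIndex (d.trans (index_map_dvd _ hs))
  have d4 : 2 ^ 2 ∣ Nat.card R := by
    refine Nat.Coprime.dvd_of_dvd_mul_right
      (((Nat.Prime.coprime_iff_not_dvd Nat.prime_two).2 i).pow_left 2) ?_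
    rw [card_mul_index, cd]
    exact (pow_dvd_pow 2 ha).mul_right _
  have hR : IsPGroup 2 R := (hT.isPGroup.comap_subtype).map ρ
  have y3 := ord3 hk (y := ⟨x, self_mem_ncl⟩) h3
  have one : ∀ r ∈ R, Commute (ρ ⟨x, self_mem_ncl⟩) r → r = 1 := fun r hr c =>
    f4 _ r y3 c (isPGroup_iff.1 hR r hr)
  have iv : ∀ r ∈ R, r ≠ 1 → r * ρ ⟨x, self_mem_ncl⟩ * r⁻¹ = (ρ ⟨x, self_mem_ncl⟩)⁻¹ := by
    rintro _ ⟨v, hv, rfl⟩ r1
    rcases three_cases h3 (conj_mem hn (g := (v : G)) hv.1 (mem_zpowers x)) (fun e => by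
      have := orderOf_conj' (v : G) x
      rw [e, orderOf_one] at this
      omega) with e | e
    · exact absurd (one _ ⟨v, hv, rfl⟩ (Commute.map (f := ρ) (x := ⟨x, self_mem_ncl⟩) (y := v)
        (Subtype.ext (mul_inv_eq_iff_eq_mul.1 e).symm))) r1
    · rw [← map_inv, ← map_inv, ← map_mul, ← map_mul]
      exact congrArg ρ (Subtype.ext e)
  have := Nat.card_le_card_of_injective (fun r : R => (r.1 = 1)) fun r t e => by
    by_cases r1 : r.1 = 1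
    · exact Subtype.ext (r1.trans (e.mp r1).symm)
    · have t1 : t.1 ≠ 1 := fun k => r1 (e.mpr k)
      refine Subtype.ext (inv_mul_eq_one.1 (one _ (mul_mem (inv_mem r.2) t.2) ?_))
      have := (iv _ r.2 r1).trans (iv _ t.2 t1).symm
      show _ * _ = _ * _
      calc _ = r.1⁻¹ * (r.1 * ρ ⟨x, self_mem_ncl⟩ * r.1⁻¹) * t.1 := by group
        _ = _ := by rw [this]; group
  have := (Nat.le_of_dvd Nat.card_pos d4).trans this
  simp at this

end two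

/-- GAG-LOCB -/
theorem locB (out : OutStmt.{u}) (fsl : FslStmt) : LocBStmt.{u} := by
  intro G _ _ hs nc k0 loc hA
  have : Fact (Nat.Prime 2) := ⟨Nat.prime_two⟩
  have nt : ∀ T : Subgroup G, IsPGroup 2 T → T ≠ ⊥ → normalizer (T : Set G) ≠ ⊤ := fun T hT h0 e => by
    obtain rfl := (normalizer_eq_top_iff.1 e).eq_bot_or_eq_top.resolve_left h0
    have hG : IsPGroup 2 G := hT.of_equiv topEquiv
    have := hG.center_nontrivial
    rcases (inferInstance : (center G).Normal).eq_bot_or_eq_top with b | b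
    · exact (nontrivial_iff_ne_bot _).1 this b
    · exact nc ⟨⟨fun p q => mem_center_iff.1 (b ▸ mem_top q) p⟩⟩
  refine ⟨fun T hT w hw ⟨k, wk⟩ ⟨q, hq, c⟩ x xw h3 => ?_,
    fun T hT h0 s hs x hx x' hx' ⟨k, sk⟩ h3 h3' c => ?_, fun T hT h0 x hx h3 S h1 h2 => ?_⟩
  · have hx := zpowers_le.2 hw xw
    rcases loc _ (nt T hT fun e => c (by
      rw [e, mem_bot] at hq; rw [hq]; exact Commute.one_left w)) x hx h3 with
      h | ⟨F, _, _, a, hF, ha, ρ, sj, hk⟩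
    · exact type1 hA hx h3 h
    · exact absurd (cent hA hx h3 (mem_a fsl hA hx h3 hF ha sj hk k0 hw wk xw)
        (le_pCoreOf le_normalizer le_rfl hT hq)) c
  · obtain ⟨n, hn, m⟩ := mem_zp_conj k0 hx' hx h3' h3
    rcases loc _ (nt T hT h0) x' hx' h3' with h | ⟨F, _, _, a, hF, ha, ρ, sj, hk⟩
    · obtain ⟨i, rfl⟩ := zpowers_le.2 (conj_mem (type1 hA hx' h3' h) hn (mem_zpowers x')) m
      intro e
      rw [(c.zpow_right i).eq, mul_inv_cancel_right, eq_inv_iff_mul_eq_one, ← pow_two,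
        ← orderOf_dvd_iff_pow_eq_one, h3] at e
      omega
    · exact not_inv fsl hA hx' h3' hF ha sj hk out hs (zpowers_le.2 (conj_mem_ncl hn) m) sk h3 c
  · rcases loc _ (nt T hT h0) x hx h3 with h | ⟨F, _, _, a, hF, ha, ρ, sj, hk⟩
    · exact type1 hA hx h3 h
    · exact absurd h2 (not_syl fsl hx h3 hF ha sj hk S h1)

end Cfsg.Agent.H32.GgL
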