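import Cfsg.Agent.H32.LowSpecial

/-!
The maximal subgroups of `SL_n(q)`, `n ≥ 3`, by geometric type.
-/

set_option autoImplicit false
set_option linter.unusedSectionVars false

namespace Cfsg.Agent.H32

open Matrix Cfsg.Geo Module

variable {ι : Type} [Fintype ι] [DecidableEq ι] {F : Type*} [Field F] [Fintype F]

theorem sl_max_cases (hn : 3 ≤ Fintype.card ι) {H : Subgroup (GL ι F)}
    (hH : IsMaximalIn (specialLinear ι F) H) :
    (∃ W : Submodule F (ι → F), W ≠ ⊥ ∧ W ≠ ⊤ ∧ H = subspaceStabilizer W ⊓ specialLinear ι F) ∨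
    (∃ (t m : ℕ) (D : Fin t → Submodule F (ι → F)), IsMDecomposition m D ∧
      t * m = Fintype.card ι ∧ 2 ≤ t ∧ (m = 1 → 5 ≤ Fintype.card F) ∧
      (m = 2 → 3 ≤ Fintype.card F) ∧ (m = 2 → t = 2 → 4 ≤ Fintype.card F) ∧
      (m = 1 → t = 4 → 7 ≤ Fintype.card F) ∧
      H = decompositionStabilizer D ⊓ specialLinear ι F) ∨
    (∃ (r : ℕ) (K : Subalgebra F (Matrix ι ι F)), r.Prime ∧ r ∣ Fintype.card ι ∧
      IsFieldSubalgebra r K ∧ H = subalgebraNormalizer K ⊓ specialLinear ι F) ∨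
    (∃ (n₁ n₂ : ℕ) (e : ι ≃ Fin n₁ × Fin n₂) (P : GL ι F), 2 ≤ n₁ ∧ n₁ < n₂ ∧
      n₁ * n₂ = Fintype.card ι ∧ (n₁ = 2 → 3 ≤ Fintype.card F) ∧
      H = tensorProductSubgroup n₁ n₂ e P ⊓ specialLinear ι F) ∨
    (∃ (F₀ : Subfield F) (r : ℕ) (P : GL ι F), r.Prime ∧ Fintype.card F = Nat.card F₀ ^ r ∧
      H = subfieldSubgroup F₀ P ⊓ specialLinear ι F) ∨
    (∃ (r m : ℕ) (R : Subgroup (GL ι F)), r.Prime ∧ r ∣ Fintype.card ι ∧
      r ^ m = Fintype.card ι ∧ IsLinearSymplecticTypeData r R ∧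
      H = subgroupNormalizer R ⊓ specialLinear ι F) ∨
    (∃ (m t : ℕ) (e : ι ≃ (Fin t → Fin m)) (P : GL ι F), 3 ≤ m ∧ 2 ≤ t ∧
      m ^ t = Fintype.card ι ∧ H = tensorWreathSubgroup m t e P ⊓ specialLinear ι F) ∨
    (Odd (Fintype.card F) ∧ ∃ Q : (ι → F) → F, IsNondegenerateQuadraticForm Q ∧
      H = quadSimilarityGroup Q ⊓ specialLinear ι F) ∨
    (Even (Fintype.card ι) ∧ ∃ f : (ι → F) → (ι → F) → F, IsSymplecticForm f ∧
      H = similarityGroup f ⊓ specialLinear ι F) ∨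
    (∃ (σ : F ≃+* F) (f : (ι → F) → (ι → F) → F), IsUnitaryForm σ f ∧
      H = similarityGroup f ⊓ specialLinear ι F) ∨
    InLinearResidualClass H := by
  have : Nonempty ι := Fintype.card_pos_iff.1 (by omega)
  have hq : 1 < Fintype.card F := Fintype.one_lt_card
  have hq6 : Fintype.card F ≠ 6 := by
    intro h
    have := FiniteField.isPrimePow_card F
    rw [h] at this
    exact absurd this (by decide)
  have e1 : ∀ {W : Submodule F (ι → F)}, W ≠ ⊥ → W ≠ ⊤ → H ≤ subspaceStabilizer W →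
      H = subspaceStabilizer W ⊓ specialLinear ι F := fun h1 h2 h3 =>
    eq_inf_of_isMaximalIn hH h3 (not_specialLinear_le_subspaceStabilizer h1 h2)
  have e3 : ∀ {r : ℕ} {K : Subalgebra F (Matrix ι ι F)}, r.Prime → IsFieldSubalgebra r K →
      H ≤ subalgebraNormalizer K → H = subalgebraNormalizer K ⊓ specialLinear ι F :=
    fun h1 h2 h3 =>
      eq_inf_of_isMaximalIn hH h3 (not_specialLinear_le_subalgebraNormalizer hn h1.one_lt h2)
  have eo : ∀ {Q : (ι → F) → F}, IsNondegenerateQuadraticForm Q → H ≤ quadSimilarityGroup Q →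
      H = quadSimilarityGroup Q ⊓ specialLinear ι F := fun h1 h2 =>
    eq_inf_of_isMaximalIn hH h2 (not_specialLinear_le_quad hn h1)
  have es : ∀ {f : (ι → F) → (ι → F) → F}, IsSymplecticForm f → H ≤ similarityGroup f →
      H = similarityGroup f ⊓ specialLinear ι F := fun h1 h2 =>
    eq_inf_of_isMaximalIn hH h2 (not_specialLinear_le_sp hn h1)
  have eu : ∀ {σ : F ≃+* F} {f : (ι → F) → (ι → F) → F}, IsUnitaryForm σ f →
      H ≤ similarityGroup f → H = similarityGroup f ⊓ specialLinear ι F := fun h1 h2 =>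
    eq_inf_of_isMaximalIn hH h2 (not_specialLinear_le_su hn h1)
  rcases H25.linear_structure hn H with ⟨W, h1, h2, h3⟩ | ⟨t, m, D, h1, h2⟩ | ⟨r, K, h1, h2, h3⟩ |
    ⟨n₁, n₂, e, P, h1, h2, h3⟩ | ⟨F₀, r, P, h1, h2, h3⟩ | ⟨r, R, h1, h2, h3⟩ |
    ⟨m, t, e, P, h1, h2, h3⟩ | ⟨f, h1, h2⟩ | ⟨σ, f, h1, h2⟩ | ⟨Q, h1, h2, h3⟩ | h
  · exact Or.inl ⟨W, h1, h2, e1 h1 h2 h3⟩
  · have hD := eq_inf_of_isMaximalIn hH h2 (not_specialLinear_le_decompositionStabilizer h1)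
    by_cases c1 : m = 1 ∧ Fintype.card F = 2
    · obtain ⟨rfl, c1⟩ := c1
      obtain ⟨W, h3, h4, h5⟩ := dec_le_subspaceStabilizer h1 c1
      exact Or.inl ⟨W, h3, h4, e1 h3 h4 (h2.trans h5)⟩
    by_cases c2 : m = 1 ∧ Fintype.card F = 3
    · obtain ⟨rfl, c2⟩ := c2
      obtain ⟨Q, h3, h4⟩ := dec_le_quad h1 c2
      iterate 7 right
      exact Or.inl ⟨by rw [c2]; decide, Q, h3, eo h3 (h2.trans h4)⟩
    by_cases c3 : m = 1 ∧ Fintype.card F = 4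
    · obtain ⟨rfl, c3⟩ := c3
      obtain ⟨σ, f, h3, h4⟩ := dec_le_su h1 c3
      iterate 9 right
      exact Or.inl ⟨σ, f, h3, eu h3 (h2.trans h4)⟩
    by_cases c4 : m = 2 ∧ (Fintype.card F = 2 ∨ (t = 2 ∧ Fintype.card F = 3))
    · obtain ⟨rfl, c4⟩ := c4
      obtain ⟨f, h3, h4⟩ := dec_le_sp h1 c4
      iterate 8 right
      exact Or.inl ⟨H25.IsSymplecticForm.even_card h3, f, h3, es h3 (hD.le.trans h4)⟩
    by_cases c5 : m = 1 ∧ t = 4 ∧ Fintype.card F = 5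
    · obtain ⟨rfl, rfl, c5⟩ := c5
      obtain ⟨M, h3, h4⟩ := exists_lt_lt_dec_four c5 h1
      exact absurd hH (not_isMaximalIn_of_lt_lt (hD ▸ h3) h4)
    exact Or.inr (Or.inl ⟨t, m, D, h1, (card_eq_of_isMDecomposition h1).symm, h1.two_le,
      by omega, by omega, by omega, by omega, hD⟩)
  · exact Or.inr (Or.inr (Or.inl ⟨r, K, h1, H25.IsFieldSubalgebra.dvd_card h2, h2, e3 h1 h2 h3⟩))
  · by_cases c1 : n₁ = 2 ∧ Fintype.card F = 2
    · obtain ⟨rfl, c1⟩ := c1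
      obtain ⟨K, h4, h5⟩ := tensor_le_normalizer c1 h2.le e P
      exact Or.inr (Or.inr (Or.inl ⟨2, K, Nat.prime_two, H25.IsFieldSubalgebra.dvd_card h4, h4,
        e3 Nat.prime_two h4 (h3.trans h5.le)⟩))
    iterate 3 right
    exact Or.inl ⟨n₁, n₂, e, P, h1, h2, by simpa using (Fintype.card_congr e).symm, by omega,
      eq_inf_of_isMaximalIn hH h3 (not_specialLinear_le_tensorProductSubgroup h1 (by omega) e P)⟩
  · iterate 4 right
    exact Or.inl ⟨F₀, r, P, h1, h2, eq_inf_of_isMaximalIn hH h3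
      (not_specialLinear_le_subfieldSubgroup (by omega) (H26.exists_notMem_subfield h1 h2) P)⟩
  · iterate 5 right
    obtain ⟨m, hm, hm'⟩ := h2.exists_dim (by omega)
    exact Or.inl ⟨r, m, R, h2.prime, hm' ▸ dvd_pow_self r (by omega), hm'.symm, h1,
      eq_inf_of_isMaximalIn hH h3 (not_specialLinear_le_subgroupNormalizer hn h2)⟩
  · iterate 6 right
    exact Or.inl ⟨m, t, e, P, h1, h2, by simpa using (Fintype.card_congr e).symm,
      eq_inf_of_isMaximalIn hH h3 (not_specialLinear_le_tensorWreathSubgroup (by omega) h2 e P)⟩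
  · iterate 8 right
    exact Or.inl ⟨H25.IsSymplecticForm.even_card h1, f, h1, es h1 h2⟩
  · iterate 9 right
    exact Or.inl ⟨σ, f, h1, eu h1 h2⟩
  · iterate 7 right
    exact Or.inl ⟨h2, Q, h1, eo h1 h3⟩
  · iterate 10 right
    exact h

theorem dvd_pow_sub_one_iff {r p : ℕ} (hr : 1 < r) (hp : 0 < p) (d : ℕ) :
    r ∣ p ^ d - 1 ↔ (p % r) ^ d % r = 1 := by
  rw [← Nat.modEq_iff_dvd' (Nat.one_le_pow _ _ hp), Nat.ModEq, Nat.pow_mod, Nat.mod_eq_of_lt hr,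
    eq_comm]

theorem c6_odd {r : ℕ} {R : Subgroup (GL ι F)} (h : IsLinearSymplecticTypeData r R) (hr : r ≠ 2) :
    ∃ p e : ℕ, p.Prime ∧ CharP F p ∧ Fintype.card F = p ^ e ∧ p % r < r ∧ e < r ∧ Odd e ∧
      (p % r) ^ e % r = 1 ∧ ∀ d < e, 0 < d → (p % r) ^ d % r ≠ 1 := by
  have hr' := h.symplecticType.prime
  obtain ⟨p, e, hrp, ⟨h1, h2, h3, h4, h5⟩, ⟨-, h6, h7, -⟩ | ⟨h6, -⟩ | ⟨h6, -⟩⟩ := h.field
  · rw [h7] at h4 h5
    refine ⟨p, e, h1, h2, h3, Nat.mod_lt _ hr'.pos, ?_, h6,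
      (dvd_pow_sub_one_iff hr'.one_lt h1.pos e).1 h4,
      fun d hd hd' h => h5 d hd' hd ((dvd_pow_sub_one_iff hr'.one_lt h1.pos d).2 h)⟩
    by_contra hc
    have := hr'.one_lt
    refine h5 (r - 1) (by omega) (by omega) ?_
    rw [← Nat.modEq_iff_dvd' (Nat.one_le_pow _ _ h1.pos), ← Nat.totient_prime hr']
    exact (Nat.ModEq.pow_totient ((Nat.coprime_primes h1 hr').2 hrp.symm)).symm
  · exact absurd h6 hr
  · exact absurd h6 hr

theorem c6_two (hn : 3 ≤ Fintype.card ι) {R : Subgroup (GL ι F)}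
    (h : IsLinearSymplecticTypeData 2 R) : ∃ p : ℕ, p.Prime ∧ Fintype.card F = p ∧ p % 4 = 1 := by
  obtain ⟨p, e, hrp, ⟨h1, h2, h3, h4, h5⟩, ⟨h6, -⟩ | ⟨-, h6, h7, -⟩ | ⟨-, -, h6, -⟩⟩ := h.field
  · exact absurd h6 (by decide)
  · rw [h7, h6, pow_one] at h4
    have := h1.pos
    exact ⟨p, h1, by rw [h3, h6, pow_one], by omega⟩
  · omega

theorem c6_three {R : Subgroup (GL ι F)} (h : IsLinearSymplecticTypeData 3 R) :
    ∃ p : ℕ, p.Prime ∧ Fintype.card F = p ∧ p % 3 = 1 := by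
  obtain ⟨p, e, h1, -, h3, h4, h5, h6, h7, h8⟩ := c6_odd h (by decide)
  have key : ∀ a < 3, ∀ e < 3, Odd e → a ^ e % 3 = 1 → (∀ d < e, 0 < d → a ^ d % 3 ≠ 1) →
      e = 1 ∧ a = 1 := by
    intro a ha e he
    interval_cases a <;> interval_cases e <;> decide
  obtain ⟨rfl, h⟩ := key _ h4 e h5 h6 h7 h8
  exact ⟨p, h1, by rw [h3, pow_one], h⟩

theorem c6_five {R : Subgroup (GL ι F)} (h : IsLinearSymplecticTypeData 5 R) :
    ∃ p : ℕ, p.Prime ∧ Fintype.card F = p ∧ p % 5 = 1 := by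
  obtain ⟨p, e, h1, -, h3, h4, h5, h6, h7, h8⟩ := c6_odd h (by decide)
  have key : ∀ a < 5, ∀ e < 5, Odd e → a ^ e % 5 = 1 → (∀ d < e, 0 < d → a ^ d % 5 ≠ 1) →
      e = 1 ∧ a = 1 := by
    intro a ha e he
    interval_cases a <;> interval_cases e <;> decide
  obtain ⟨rfl, h⟩ := key _ h4 e h5 h6 h7 h8
  exact ⟨p, h1, by rw [h3, pow_one], h⟩

theorem c6_seven {R : Subgroup (GL ι F)} (h : IsLinearSymplecticTypeData 7 R) :
    ∃ p : ℕ, p.Prime ∧ CharP F p ∧ ((Fintype.card F = p ∧ p % 7 = 1) ∨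
      (Fintype.card F = p ^ 3 ∧ (p % 7 = 2 ∨ p % 7 = 4))) := by
  obtain ⟨p, e, h1, h2, h3, h4, h5, h6, h7, h8⟩ := c6_odd h (by decide)
  have key : ∀ a < 7, ∀ e < 7, Odd e → a ^ e % 7 = 1 → (∀ d < e, 0 < d → a ^ d % 7 ≠ 1) →
      (e = 1 ∧ a = 1) ∨ (e = 3 ∧ (a = 2 ∨ a = 4)) := by
    intro a ha e he
    interval_cases a <;> interval_cases e <;> decide
  rcases key _ h4 e h5 h6 h7 h8 with ⟨rfl, h⟩ | ⟨rfl, h⟩
  · exact ⟨p, h1, h2, Or.inl ⟨by rw [h3, pow_one], h⟩⟩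
  · exact ⟨p, h1, h2, Or.inr ⟨h3, h⟩⟩

theorem c6_eleven {R : Subgroup (GL ι F)} (h : IsLinearSymplecticTypeData 11 R) :
    ∃ p : ℕ, p.Prime ∧ CharP F p ∧ ((Fintype.card F = p ∧ p % 11 = 1) ∨
      (Fintype.card F = p ^ 5 ∧ (p % 11 = 3 ∨ p % 11 = 4 ∨ p % 11 = 5 ∨ p % 11 = 9))) := by
  obtain ⟨p, e, h1, h2, h3, h4, h5, h6, h7, h8⟩ := c6_odd h (by decide)
  have key : ∀ a < 11, ∀ e < 11, Odd e → a ^ e % 11 = 1 → (∀ d < e, 0 < d → a ^ d % 11 ≠ 1) →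
      (e = 1 ∧ a = 1) ∨ (e = 5 ∧ (a = 3 ∨ a = 4 ∨ a = 5 ∨ a = 9)) := by
    intro a ha e he
    interval_cases a <;> interval_cases e <;> decide
  rcases key _ h4 e h5 h6 h7 h8 with ⟨rfl, h⟩ | ⟨rfl, h⟩
  · exact ⟨p, h1, h2, Or.inl ⟨by rw [h3, pow_one], h⟩⟩
  · exact ⟨p, h1, h2, Or.inr ⟨h3, h⟩⟩

theorem wreath_bounds {m t n : ℕ} (hm : 3 ≤ m) (ht : 2 ≤ t) (h : m ^ t = n) (hn : n ≤ 12) :
    m = 3 ∧ t = 2 ∧ n = 9 := by
  have h1 : m ^ 2 ≤ m ^ t := Nat.pow_le_pow_right (by omega) ht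
  have h2 : m < 4 := by nlinarith
  obtain rfl : m = 3 := by omega
  have h3 : t < 3 := by
    by_contra hc
    have : 3 ^ 3 ≤ 3 ^ t := Nat.pow_le_pow_right (by omega) (by omega)
    omega
  obtain rfl : t = 2 := by omega
  omega

end Cfsg.Agent.H32
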