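import Cfsg.Agent.H32.LowSpecial

/-!
Non-maximality of some geometric subgroups of `SL_n(q)`.
-/

set_option autoImplicit false
set_option linter.unusedSectionVars false

namespace Cfsg.Agent.H32

open Matrix Cfsg.Geo Module

variable {ι κ : Type} [Fintype ι] [DecidableEq ι] [Fintype κ] [DecidableEq κ] {F : Type*} [Field F]

theorem exists_lt_lt_of_le {G : Type*} [Group G] {S A M : Subgroup G} (h1 : A ⊓ S ≤ M)
    (h2 : ¬ S ≤ M) {g : G} (hM : g ∈ M) (hS : g ∈ S) (hA : g ∉ A) : ∃ K, A ⊓ S < K ∧ K < S :=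
  ⟨M ⊓ S, SetLike.lt_iff_le_and_exists.2 ⟨le_inf h1 inf_le_right, g, Subgroup.mem_inf.2 ⟨hM, hS⟩,
    fun h => hA (Subgroup.mem_inf.1 h).1⟩,
    lt_of_le_of_ne inf_le_right fun h => h2 (h ▸ inf_le_left)⟩

theorem notMem_monGL {g : GL κ F} {i j k : κ} (hjk : j ≠ k) (hj : g.1 j i ≠ 0) (hk : g.1 k i ≠ 0) :
    g ∉ monGL κ F := by
  rintro ⟨σ, hσ⟩
  obtain ⟨c, hc⟩ := hσ i
  rw [mulVec_single_one] at hc
  by_cases h : j = σ i
  · exact hk ((congrFun hc k).trans (by rw [Pi.single_eq_of_ne (h ▸ hjk.symm)]))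
  · exact hj ((congrFun hc j).trans (by rw [Pi.single_eq_of_ne h]))

theorem exists_lt_lt_monSL [Fintype F] {t : ℕ} (ht : 5 ≤ t) (hq : Fintype.card F ≤ 4) :
    ∃ M, monSL (Fin t) F < M ∧ M < specialLinear (Fin t) F := by
  obtain ⟨s, rfl⟩ : ∃ s, t = s + 5 := ⟨t - 5, by omega⟩
  have hn : 3 ≤ Fintype.card (Fin (s + 5)) := by simp
  have h1 : 1 < Fintype.card F := Fintype.one_lt_card
  have h01 : (0 : Fin (s + 5)) ≠ 1 := by simp
  have h02 : (0 : Fin (s + 5)) ≠ 2 := by simp [Fin.ext_iff, Nat.mod_eq_of_lt]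
  have h03 : (0 : Fin (s + 5)) ≠ 3 := by simp [Fin.ext_iff, Nat.mod_eq_of_lt]
  have h04 : (0 : Fin (s + 5)) ≠ 4 := by simp [Fin.ext_iff, Nat.mod_eq_of_lt]
  have h12 : (1 : Fin (s + 5)) ≠ 2 := by simp [Fin.ext_iff, Nat.mod_eq_of_lt]
  have h13 : (1 : Fin (s + 5)) ≠ 3 := by simp [Fin.ext_iff, Nat.mod_eq_of_lt]
  have h14 : (1 : Fin (s + 5)) ≠ 4 := by simp [Fin.ext_iff, Nat.mod_eq_of_lt]
  have h23 : (2 : Fin (s + 5)) ≠ 3 := by simp [Fin.ext_iff, Nat.mod_eq_of_lt]
  have h24 : (2 : Fin (s + 5)) ≠ 4 := by simp [Fin.ext_iff, Nat.mod_eq_of_lt]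
  have h34 : (3 : Fin (s + 5)) ≠ 4 := by simp [Fin.ext_iff, Nat.mod_eq_of_lt]
  generalize (0 : Fin (s + 5)) = a at *
  generalize (1 : Fin (s + 5)) = b at *
  generalize (2 : Fin (s + 5)) = c at *
  generalize (3 : Fin (s + 5)) = d at *
  generalize (4 : Fin (s + 5)) = e at *
  let v : Fin (s + 5) → F := Pi.single a 1 + Pi.single b 1 + Pi.single c 1 + Pi.single d 1
  have hv : v ⬝ᵥ v = 4 := by
    simp [v, h01, h02, h03, h12, h13, h23, h01.symm, h02.symm, h03.symm, h12.symm, h13.symm,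
      h23.symm]
    norm_num
  have hva : v a = 1 := by simp [v, h01, h02, h03]
  have hvb : v b = 1 := by simp [v, h01.symm, h12, h13]
  have hvc : v c = 1 := by simp [v, h02.symm, h12.symm, h23]
  have hve : v e = 0 := by simp [v, h04.symm, h14.symm, h24.symm, h34.symm]
  obtain hq | hq | hq : Fintype.card F = 2 ∨ Fintype.card F = 3 ∨ Fintype.card F = 4 := by omega
  · have h0 : (fun _ => 1 : Fin (s + 5) → F) ≠ 0 := fun h => one_ne_zero (congrFun h a)
    have h2 : (Pi.single a 1 - Pi.single b 1 : Fin (s + 5) → F) ⬝ᵥ Pi.single c 1 = 0 := by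
      simp [h02.symm, h12.symm]
    refine exists_lt_lt_of_le (M := subspaceStabilizer (Submodule.span F {fun _ => 1}))
      (fun g hg => mem_subspaceStabilizer_of_forall _ _ fun x hx => ?_)
      (not_specialLinear_le_subspaceStabilizer (by simpa using h0) fun h => ?_)
      (tv_mem_subspaceStabilizer_of_ann h2 fun w hw => ?_) (tv_mem_specialLinear _ _ h2)
      (notMem_monGL (i := a) h02 ?_ ?_)
    · obtain ⟨c, rfl⟩ := Submodule.mem_span_singleton.1 hx
      rwa [mulVec_smul, monGL_fix_one hq hg.1]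
    · have h1 := finrank_span_singleton (K := F) h0
      rw [h, finrank_top, Module.finrank_fintype_fun_eq_card] at h1
      omega
    · obtain ⟨c, rfl⟩ := Submodule.mem_span_singleton.1 hw
      simp
    · simp [coe_tv, vecMulVec_apply, h02]
    · simp [coe_tv, vecMulVec_apply, h02.symm, h01]
  · have h3 : (3 : F) = 0 := by
      have := FiniteField.cast_card_eq_zero F
      rwa [hq] at this
    have h2 : (2 : F) ≠ 0 := H25.two_ne_zero_of_odd (by rw [hq]; decide)
    have hr : ∀ (u : Fin (s + 5) → F) (hu : u ⬝ᵥ u = 1) (h : 1 + u ⬝ᵥ u ≠ 0),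
        dtv u u h ∈ quadSimilarityGroup sumSq := fun u hu h => ⟨1, fun x => by
      have h5 : ∀ y : Fin (s + 5) → F, sumSq y = y ⬝ᵥ y := fun y => by
        simp only [sumSq, dotProduct, sq]
      rw [dtv_mulVec, h5, h5]
      simp only [add_dotProduct, dotProduct_add, smul_dotProduct, dotProduct_smul, smul_eq_mul, hu,
        dotProduct_comm x u, Units.val_one]
      linear_combination ((u ⬝ᵥ x) ^ 2) * h3⟩
    have hv1 : v ⬝ᵥ v = 1 := by rw [hv]; linear_combination h3
    have he1 : (Pi.single e 1 : Fin (s + 5) → F) ⬝ᵥ Pi.single e 1 = 1 := by simp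
    have hv2 : 1 + v ⬝ᵥ v ≠ 0 := by rwa [hv1, one_add_one_eq_two]
    have he2 : 1 + (Pi.single e 1 : Fin (s + 5) → F) ⬝ᵥ Pi.single e 1 ≠ 0 := by
      rwa [he1, one_add_one_eq_two]
    have hcol : (dtv v v hv2 * dtv _ _ he2).1 *ᵥ Pi.single a 1 = Pi.single a 1 + v := by
      rw [GL_mul_mulVec, dtv_mulVec, dtv_mulVec]
      simp [h04.symm, hva]
    rw [mulVec_single_one] at hcol
    refine exists_lt_lt_of_le (inf_le_left.trans (monGL_le_sumSq hq))
      (not_specialLinear_le_quad hn (isNondegenerateQuadraticForm_sumSq h2))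
      (mul_mem (hr v hv1 hv2) (hr _ he1 he2)) ?_ (notMem_monGL (i := a) h12 ?_ ?_)
    · rw [mem_specialLinear_iff, Units.val_mul, det_mul, coe_dtv, coe_dtv, det_one_add_vecMulVec,
        det_one_add_vecMulVec, hv1, he1]
      linear_combination h3
    · exact (congrFun hcol b).trans_ne (by simp [hvb, h01.symm])
    · exact (congrFun hcol c).trans_ne (by simp [hvc, h02.symm])
  · have h2 := two_eq_zero_of_card (Or.inr hq)
    obtain ⟨σ, hσ1, hσ2, hσ3⟩ := H25.exists_invol (F := F) (q := 2) hq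
    have hv0 : v ⬝ᵥ v = 0 := by rw [hv]; linear_combination 2 * h2
    have hσv : ∀ i, σ (v i) = v i := fun i => by
      simp only [v, Pi.add_apply, map_add, Pi.single_apply, apply_ite σ, map_one, map_zero]
    refine exists_lt_lt_of_le (inf_le_left.trans (monGL_le_stdHerm hq hσ3))
      (not_specialLinear_le_su hn (isUnitaryForm_stdHerm hσ1 hσ2))
      (g := tv v v hv0) ⟨1, fun x y => ?_⟩ (tv_mem_specialLinear _ _ _)
      (notMem_monGL (i := a) h12 ?_ ?_)
    · have h5 : ∀ x y : Fin (s + 5) → F, stdHerm σ x y = x ⬝ᵥ fun i => σ (y i) := fun _ _ => rfl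
      have h6 : v ⬝ᵥ (fun i => σ (y i)) = σ (v ⬝ᵥ y) := by
        simp only [dotProduct, map_sum, map_mul, hσv]
      have h7 : (fun i => σ ((y + (v ⬝ᵥ y) • v) i)) = (fun i => σ (y i)) + σ (v ⬝ᵥ y) • v := by
        ext i
        simp only [Pi.add_apply, Pi.smul_apply, smul_eq_mul, map_add, map_mul, hσv]
      rw [tv_mulVec, tv_mulVec, h5, h5, h7]
      simp only [add_dotProduct, dotProduct_add, smul_dotProduct, dotProduct_smul, smul_eq_mul, hv0,
        dotProduct_comm x v, Units.val_one, h6]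
      linear_combination ((v ⬝ᵥ x) * σ (v ⬝ᵥ y)) * h2
    · simp [coe_tv, vecMulVec_apply, h01.symm, hva, hvb]
    · simp [coe_tv, vecMulVec_apply, h02.symm, hva, hvc]

theorem exists_lt_lt_blkStab_two [Fintype F] {t : ℕ} (ht : 2 ≤ t) (hq : Fintype.card F = 2) :
    ∃ M, blkStab t (Fin 2) F < M ∧ M < specialLinear (Fin t × Fin 2) F := by
  have : Nontrivial (Fin t) := Fin.nontrivial_iff_two_le.2 ht
  obtain ⟨k, l, hkl⟩ := exists_pair_ne (Fin t)
  have hf := isSymplecticForm_blkSp (t := t) (F := F)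
  let v : Fin t × Fin 2 → F := Pi.single (k, 0) 1 + Pi.single (l, 0) 1
  let φ : Fin t × Fin 2 → F := Pi.single (k, 1) 1 + Pi.single (l, 1) 1
  have hφ : ∀ x, φ ⬝ᵥ x = blkSp v x := fun x => by
    simp [φ, v, blkSp, Pi.single_apply, add_mul, Finset.sum_add_distrib]
  have h0 : φ ⬝ᵥ v = 0 := by rw [hφ, hf.alternating]
  refine exists_lt_lt_of_le (blkStab_le_blkSp (Or.inl hq))
    (not_specialLinear_le_sp (by simp; omega) hf) (g := tv v φ h0) ⟨1, fun x y => ?_⟩
    (tv_mem_specialLinear _ _ _) fun h => ?_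
  · rw [tv_mulVec, tv_mulVec, hφ, hφ]
    simp only [hf.bilinear.add_left, hf.bilinear.add_right, hf.bilinear.smul_left,
      hf.bilinear.smul_right, hf.alternating, hf.skew x v, Units.val_one]
    ring
  · obtain ⟨σ, hσ⟩ := exists_perm_of_mem h
    have h1 := hσ k _ (single_mem_blk (k, 1) (1 : F))
    rw [tv_mulVec, mem_blk] at h1
    by_cases hk : k = σ k
    · have := h1 (l, 0) (hk ▸ hkl.symm)
      simp [φ, v, hkl, hkl.symm] at this
    · have := h1 (k, 0) hk
      simp [φ, v, hkl] at this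

theorem exists_lt_lt_dec [Fintype F] (hn : 5 ≤ Fintype.card ι) {t m : ℕ}
    {D : Fin t → Submodule F (ι → F)} (hD : IsMDecomposition m D)
    (h : (m = 1 ∧ Fintype.card F ≤ 4) ∨ (m = 2 ∧ Fintype.card F = 2)) :
    ∃ K, decompositionStabilizer D ⊓ specialLinear ι F < K ∧ K < specialLinear ι F := by
  have hc := card_eq_of_isMDecomposition hD
  rcases h with ⟨rfl, hq⟩ | ⟨rfl, hq⟩
  · obtain ⟨e, he⟩ := exists_equiv_of_isMDecomposition_one hD
    refine exists_lt_lt_of_iff (H28.glConj e) (glConj_mem_specialLinear_iff e) (fun g => ?_)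
      (exists_lt_lt_monSL (by omega) hq)
    rw [Subgroup.mem_inf, Subgroup.mem_inf, glConj_mem_specialLinear_iff, he]
  · obtain ⟨e, he⟩ := exists_equiv_of_isMDecomposition hD
    refine exists_lt_lt_of_iff (H28.glConj e) (glConj_mem_specialLinear_iff e) (fun g => ?_)
      (exists_lt_lt_blkStab_two hD.two_le hq)
    rw [Subgroup.mem_inf, Subgroup.mem_inf, glConj_mem_specialLinear_iff,
      glConj_mem_decompositionStabilizer_iff e _ _ he]

theorem exists_lt_lt_tensor_two [Fintype F] (hq : Fintype.card F = 2) {k : ℕ} (hk : 2 ≤ k)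
    (e : ι ≃ Fin 2 × Fin k) (P : GL ι F) :
    ∃ K, tensorProductSubgroup 2 k e P ⊓ specialLinear ι F < K ∧ K < specialLinear ι F := by
  obtain ⟨K, h1, h2⟩ := tensor_le_normalizer hq hk e P
  obtain ⟨h3, g, h4, h5⟩ := SetLike.lt_iff_le_and_exists.1 h2
  have := Fintype.card_congr e
  exact exists_lt_lt_of_le (inf_le_left.trans h3)
    (not_specialLinear_le_subalgebraNormalizer (by simp at this; omega) one_lt_two h1) h4
    (mem_specialLinear_of_card_two hq g) h5

section Composite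

variable {K E : Type*} [Field K] [Algebra F K] [Module K (ι → F)] [IsScalarTower F K (ι → F)]
  [Field E] [Algebra F E] [Module E (ι → F)] [IsScalarTower F E (ι → F)]

theorem exists_linear_not_spread (hm : finrank F K < Fintype.card ι) (j : E → K)
    (hj : ∀ (c : E) (x : ι → F), j c • x = c • x) {a : K} (ha : a ∉ Set.range j) :
    ∃ g ∈ specialLinear ι F, (∀ (c : E) (x : ι → F), g.1 *ᵥ (c • x) = c • g.1 *ᵥ x) ∧
      ∃ v : ι → F, g.1 *ᵥ (a • v) ∉ kline F K (g.1 *ᵥ v) := by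
  have hm' : finrank F K < finrank F (ι → F) := by rwa [Module.finrank_fintype_fun_eq_card]
  have : Module.Finite E (ι → F) := Module.Finite.of_restrictScalars_finite F E _
  obtain ⟨v, hv⟩ := exists_notMem_kline hm' (0 : ι → F)
  have hv0 : v ≠ 0 := by
    rintro rfl
    exact hv (Submodule.zero_mem _)
  obtain ⟨w, hw⟩ := exists_notMem_kline hm' v
  have hav : a • v ∉ Submodule.span E {v, w} := fun h => by
    obtain ⟨s, t, hst⟩ := Submodule.mem_span_pair.1 h
    rw [← hj, ← hj] at hst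
    by_cases ht : j t = 0
    · rw [ht, zero_smul, add_zero] at hst
      exact ha ⟨s, smul_left_injective K hv0 hst⟩
    · apply hw
      refine mem_kline.2 ⟨(j t)⁻¹ * (a - j s), ?_⟩
      rw [mul_smul, sub_smul, ← hst, add_sub_cancel_left, smul_smul, inv_mul_cancel₀ ht, one_smul]
  obtain ⟨χ, hχ, hχa⟩ := LinearMap.exists_extend_of_notMem
    (0 : Submodule.span E {v, w} →ₗ[E] E) hav 1
  have h1 : χ v = 0 := by simpa using congr($hχ ⟨v, Submodule.subset_span (by simp)⟩)
  have h2 : χ w = 0 := by simpa using congr($hχ ⟨w, Submodule.subset_span (by simp)⟩)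
  have h3 : LinearMap.det ((LinearMap.transvection χ w).restrictScalars F) = 1 := by
    rw [LinearMap.det_restrictScalars, LinearMap.transvection.det, h2, add_zero, map_one]
  obtain ⟨g, hg1, hg2⟩ := exists_gl_of_det_ne_zero _ (h3 ▸ one_ne_zero)
  have hg : ∀ x, g.1 *ᵥ x = LinearMap.transvection χ w x := fun x => by
    rw [← Matrix.toLin'_apply, hg1]
    rfl
  refine ⟨g, (mem_specialLinear_iff g).2 (by rw [hg2, h3]), fun c x => ?_, v, fun h => hw ?_⟩
  · rw [hg, hg, map_smul]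
  · rw [hg, hg, LinearMap.transvection.apply, LinearMap.transvection.apply, h1, hχa, zero_smul,
      add_zero, one_smul] at h
    simpa using Submodule.sub_mem _ h (smul_mem_kline a v)

end Composite

theorem exists_lt_normalizer [Fintype F] {r : ℕ} (hr1 : 1 < r) (hrp : ¬ r.Prime)
    (hlt : r < Fintype.card ι) {K : Subalgebra F (Matrix ι ι F)} (hK : IsFieldSubalgebra r K) :
    ∃ M, subalgebraNormalizer K ≤ M ∧ ¬ specialLinear ι F ≤ M ∧
      ∃ g ∈ M, g ∈ specialLinear ι F ∧ g ∉ subalgebraNormalizer K := by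
  have : Nonempty ι := Fintype.card_pos_iff.1 (by omega)
  have hp := Nat.minFac_prime hr1.ne'
  obtain ⟨E, hE, hE'⟩ := H25.exists_fieldSubalgebra hK.comm hK.inv (r := r.minFac)
    (by rw [hK.finrank_eq]; exact Nat.minFac_dvd r)
  have hEK : E ≤ K := fun x hx => ((hE' x).1 hx).1
  have hpr : r.minFac ≤ r := Nat.minFac_le (by omega)
  refine ⟨subalgebraNormalizer E, H25.le_subalgebraNormalizer
    (H25.Nrm.of_pow_fixed (fun g hg b hb => (hg b).1 hb) hE'),
    not_specialLinear_le_normalizer hp.one_lt (by omega) hE, ?_⟩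
  let _ : Field K := (isField_of_isFieldSubalgebra (by omega) hK).toField
  let _ : Field E := (isField_of_isFieldSubalgebra hp.pos hE).toField
  obtain ⟨a, haK, haE⟩ : ∃ a ∈ K, a ∉ E := by
    by_contra h
    push Not at h
    have h1 : E = K := le_antisymm hEK h
    have h2 := hE.finrank_eq
    rw [h1, hK.finrank_eq] at h2
    exact hrp (h2 ▸ hp)
  obtain ⟨g, hg1, hg2, v, hv⟩ := exists_linear_not_spread (F := F) (ι := ι) (K := K) (E := E)
    (by rwa [hK.finrank_eq]) (fun c => ⟨c, hEK c.2⟩) (fun _ _ => rfl) (a := ⟨a, haK⟩)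
    (by rintro ⟨c, hc⟩; exact haE ((show (c : Matrix ι ι F) = a from congrArg Subtype.val hc) ▸ c.2))
  refine ⟨g, mem_subalgebraNormalizer_of_comm fun c hc x => hg2 ⟨c, hc⟩ x, hg1, fun h => hv ?_⟩
  exact mem_kline.2 ⟨⟨H25.cj g a, (h a).1 haK⟩, H25.cj_mulVec g a v⟩

end Cfsg.Agent.H32
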