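import Cfsg.Agent.H42.N7Defs

/-! N7-CS: the side analysis for an involution centraliser with Sylow subgroup `2 × D₈`
(`side`, `coreN`, `mixed` of `H36.LTS1/LTS2` with `f = 1`). -/

set_option autoImplicit false

namespace Cfsg.Agent.H32.N7S

open Subgroup Cfsg.Agent.H85 Cfsg.Agent.H36.LTS

universe u

section
variable {G : Type*} [Group G] {t z f a b r x : G} {R : Subgroup G}

theorem side1 [Finite G] (B : B1 t z f a b) (f1 : f = 1) (tW : t ∉ closure ({z, f, a} : Set G))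
    (h : Rr t z f a r)
    (syl : IsSyl 2 (closure ({t, z, f, a} : Set G))
      (centralizer ((closure ({t, z, f, a} : Set G) : Subgroup G) : Set G)))
    (aut : ∀ c ∈ centralizer ({t} : Set G),
      c ∈ normalizer ((closure ({t, z, f, a} : Set G) : Subgroup G) : Set G) →
      ∃ w ∈ closure ({b, r} : Set G), ∀ x ∈ closure ({t, z, f, a} : Set G), cv x c = cv x w)
    (hA : ∀ n ∈ normalizer ((closure ({t, z, f, a} : Set G) : Subgroup G) : Set G),
      ∃ k, Gd t z f a k ∧ cv t k = cv t n)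
    {T : Subgroup G} (hT : IsPGroup 2 T)
    (TN : T ≤ normalizer ((closure ({t, z, f, a} : Set G) : Subgroup G) : Set G)) (bT : b ∈ T) :
    ∃ (ρ : G) (R : Subgroup G), Sd t z f a b ρ R ∧ ∀ x ∈ T, (cv z x = z ∨ cv z x = z * f) →
      (cv a x = a ∨ cv a x = f * a) → x ∈ R := by
  have : Fact (Nat.Prime 2) := ⟨Nat.prime_two⟩
  have B' := B
  set E := closure ({t, z, f, a} : Set G) with hE
  set W := closure ({z, f, a} : Set G) with hW
  set V := closure ({z, a} : Set G) with hV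
  set N := normalizer (E : Set G) with hN
  set C := centralizer (E : Set G) with hC
  have WE : W ≤ E := closure_mono (Set.subset_insert _ _)
  have tE : t ∈ E := m1
  have fW : f ∈ W := m2
  have memC : ∀ c, c ∈ C ↔ ∀ x ∈ E, cv x c = x := fun c =>
    ⟨fun k x hx => cv_of (k x hx), fun k x hx => cm_of (k x hx)⟩
  have cC : ∀ c, cv t c = t → cv z c = z → cv f c = f → cv a c = a → c ∈ C := fun c h1 h2 h3 h4 =>
    (memC c).2 fun x hx => (cv_eq_closure (k := 1) (by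
      rintro _ (rfl | rfl | rfl | rfl) <;> rwa [cv_one']) hx).trans (cv_one' x)
  have w1 : ∀ w ∈ closure ({b, r} : Set G), cv f w = f ∧ ∀ v ∈ V, cv v w ∈ V := fun w hw => by
    have : closure ({b, r} : Set G) ≤ centralizer {f} ⊓ normalizer (V : Set G) := (closure_le _).2 (by
      rintro _ (rfl | rfl)
      · exact ⟨mem_centralizer_singleton_iff.2 B.fb.symm, nrm_of fun v => cv_closure (by
          rintro _ (rfl | rfl) <;> en B' [] <;> memc)⟩
      · exact ⟨mem_centralizer_singleton_iff.2 (cm_of h.fr).symm, nrm_of fun v => cv_closure (by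
          rintro _ (rfl | rfl) <;> en B' [h.zr, h.ar] <;> memc)⟩)
    exact ⟨cv_of' (mem_centralizer_singleton_iff.1 (this hw).1), fun v hv => cv_nrm hv (this hw).2⟩
  have gd : ∀ k, Gd t z f a k → k ∈ N ∧ ∀ w ∈ W, cv w k ∈ W := fun k ⟨h1, h2, h3, h4⟩ => by
    have k1 : ∀ w ∈ W, cv w k ∈ W := fun w => cv_closure (by
      rintro _ (rfl | rfl | rfl)
      exacts [h2, h1.symm ▸ fW, h3])
    exact ⟨nrm_of fun x => cv_closure (by
      rintro _ (rfl | e)
      exacts [h4, WE (k1 _ (subset_closure e))]), k1⟩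
  have VW : V ≤ W := (closure_le _).2 (by rintro _ (rfl | rfl) <;> exact subset_closure (by simp))
  have A : ∀ n ∈ N, cv f n = f ∧ ∀ w ∈ W, cv w n ∈ W := fun n hn => by
    obtain ⟨k, hk, e⟩ := hA n hn
    obtain ⟨w, hw, k1⟩ := aut (n * k⁻¹) (mem_centralizer_singleton_iff.2
      (cm_of (by rw [cv_cv, ← e, ← cv_cv, mul_inv_cancel, cv_one'])).symm)
      (mul_mem hn (inv_mem (gd k hk).1))
    have k2 : ∀ x ∈ E, cv x n = cv (cv x w) k := fun x hx => by
      rw [← k1 x hx, ← cv_cv, inv_mul_cancel_right]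
    refine ⟨by rw [k2 f (WE fW), (w1 w hw).1, hk.1], fun v hv => ?_⟩
    rw [k2 v (WE hv)]
    refine (gd k hk).2 _ (cv_closure ?_ hv)
    rintro _ (rfl | rfl | rfl)
    exacts [VW ((w1 w hw).2 _ m1), (w1 w hw).1.symm ▸ fW,
      VW ((w1 w hw).2 _ (subset_closure (by simp)))]
  let M : Subgroup G :=
    { carrier := {n | n ∈ N ∧ ∀ w ∈ W, cv w n = w ∨ cv w n = w * f}
      mul_mem' := fun {x y} hx hy => ⟨mul_mem hx.1 hy.1, fun w hw => by
        rcases hx.2 w hw with e | e <;> rcases hy.2 w hw with e' | e' <;>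
          simp [cv_cv, e, e', cv_mul, (A y hy.1).1, mul_assoc, B.ff]⟩
      one_mem' := ⟨one_mem _, fun w _ => .inl (cv_one' w)⟩
      inv_mem' := fun {x} hx => ⟨inv_mem hx.1, fun w hw => by
        rcases hx.2 w hw with e | e
        · exact .inl (cv_inv_of e)
        · refine .inr (cv_inv_of ?_)
          rw [cv_mul, e, (A x hx.1).1, mul_assoc, B.ff, mul_one]⟩ }
  have MN : M ≤ N := fun _ k => k.1
  have nM : N ≤ normalizer (M : Set G) := fun n hn => nrm_of fun x hx =>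
    ⟨cv_mem hx.1 hn, fun w hw => by
      have e : cv w (cv x n) = cv (cv (cv w n⁻¹) x) n := by simp [cv, mul_assoc]
      have e' : cv (cv w n⁻¹) n = w := by simp [cv, mul_assoc]
      rcases hx.2 _ ((A _ (inv_mem hn)).2 w hw) with k | k <;> rw [e, k]
      · exact .inl e'
      · exact .inr (by rw [cv_mul, e', (A n hn).1])⟩
  have CN : C ≤ N := centralizer_le_normalizer _
  have CM : C ≤ M := fun c hc => ⟨CN hc, fun w hw => .inl ((memC c).1 hc w (WE hw))⟩
  have nC : N ≤ normalizer (C : Set G) := normalizer_le_normalizer_centralizer E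
  have mM : ∀ x ∈ N, (cv z x = z ∨ cv z x = z * f) → (cv a x = a ∨ cv a x = f * a) → x ∈ M :=
    fun x hx h1 h2 => ⟨hx, fun w hw => by
      rcases B'.memW hw with rfl | rfl | rfl | rfl | rfl | rfl | rfl | rfl <;>
        rcases h1 with h1 | h1 <;> rcases h2 with h2 | h2 <;>
        en B' [h1, h2, (A x hx).1, true_or, or_true]⟩
  have MC : ∀ x ∈ M, cv t x = t → x ∈ C := fun x hx e => by
    have k1 : ∀ v ∈ V, cv v x = v := fun v hv =>
      (hx.2 v (VW hv)).elim id fun e1 => by rw [e1, f1, mul_one]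
    exact cC x e (k1 z m1) (A x hx.1).1 (k1 a (subset_closure (by simp)))
  have pq : PQuot 2 C M := fun x hx => ⟨2, MC _ (pow_mem hx _) (by
    obtain ⟨w, hw, e | e⟩ := B'.memE (cv_nrm tE hx.1)
    · have := (A _ (inv_mem hx.1)).2 w hw
      rw [cv_inv_of e] at this
      exact absurd this tW
    · have w2 : w * w = 1 := by
        rcases B'.memW hw with rfl | rfl | rfl | rfl | rfl | rfl | rfl | rfl <;> en B' []
      have e2 : cv t (x * x) = t ∨ cv t (x * x) = t * f := by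
        rw [cv_cv, e, cv_mul, e]
        rcases hx.2 w hw with k | k <;> rw [k] <;> simp [mul_assoc, ri w2]
      rw [show x ^ 2 ^ 2 = x * x * (x * x) by simp [pow_succ, mul_assoc], cv_cv]
      rcases e2 with k | k
      · rw [k, k]
      · rw [k, cv_mul, k, (A _ (mul_mem hx.1 hx.1)).1, mul_assoc, B.ff, mul_one])⟩
  obtain ⟨S, hS, TS⟩ := exists_isSyl_ge hT TN
  have hR : IsSyl 2 (S ⊓ M) M := hS.inf_of_le_normalizer MN nM
  set R := S ⊓ M with hR'
  have EC : E ≤ C := fun x hx => (memC x).2 fun y hy => B'.cE hy hx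
  have ES : E ≤ S := hS.ge_of_le_normalizer syl.isPGroup le_normalizer hS.le
  have ER : E ≤ R := le_inf ES (EC.trans CM)
  have two : ∀ x ∈ C, IsPGroup 2 (zpowers x) → x ∈ E := fun x hx p2 =>
    syl.ge_of_le_normalizer' p2 (zpowers_le.2 hx) ((zpowers_le.2 hx).trans CN) (mem_zpowers x)
  have RC : ∀ x ∈ R, x ∈ C → x ∈ E := fun x hx hc =>
    two x hc (hR.isPGroup.to_le (zpowers_le.2 hx))
  have rN : r ∈ N := nrm_of fun x => cv_closure (by
    rintro _ (rfl | rfl | rfl | rfl) <;> en B' [h.tr, h.fr, h.zr, h.ar] <;> memc)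
  obtain ⟨r0, r0N, r0R, r0E⟩ : ∃ r0 ∈ N, r0 ∈ normalizer (R : Set G) ∧
      ∀ x ∈ E, cv x r0 = cv x r := by
    have := rN
    rw [← hR.frattini MN nM, ← hR.sup_eq_of_pquot CM (MN.trans nC) pq, sup_assoc,
      mem_sup_of_le_normalizer (sup_le (hR.le.trans (MN.trans nC)) (inf_le_left.trans nC))] at this
    obtain ⟨c, hc, n, hn, e⟩ := this
    have k : R ⊔ N ⊓ normalizer (R : Set G) ≤ N ⊓ normalizer (R : Set G) :=
      sup_le (le_inf (hR.le.trans MN) le_normalizer) le_rfl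
    exact ⟨n, (k hn).1, (k hn).2, fun x hx => by rw [← e, cv_cv, (memC c).1 hc x hx]⟩
  have r03 : r0 ^ 3 ∈ C := by
    rw [show r0 ^ 3 = r0 * r0 * r0 by simp [pow_succ]]
    have e1 : cv t r0 = t := (r0E _ tE).trans h.tr
    have e2 : cv f r0 = f := (r0E _ (WE fW)).trans h.fr
    have e3 : cv z r0 = a := (r0E _ m2).trans h.zr
    have e4 : cv a r0 = z * a := (r0E _ (subset_closure (by simp))).trans h.ar
    refine cC _ ?_ ?_ ?_ ?_ <;> en B' [e1, e2, e3, e4]
  obtain ⟨k, hk⟩ := exists_pow_coprime (p := 2) (isOfFinOrder_of_finite r0)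
  obtain ⟨q, hq⟩ : ∃ q, 2 ^ k * 2 ^ k = 3 * q + 1 :=
    ⟨2 ^ k * 2 ^ k / 3, by
      have : (2 ^ k * 2 ^ k) % 3 = 1 := by rw [← mul_pow, Nat.pow_mod]; simp
      omega⟩
  set ρ := (r0 ^ 2 ^ k) ^ 2 ^ k with hρ
  have oρ : Odd (orderOf ρ) :=
    Nat.coprime_two_right.1 (hk.coprime_dvd_left (orderOf_pow_dvd _))
  have ρE : ∀ x ∈ E, cv x ρ = cv x r := fun x hx => by
    rw [hρ, ← pow_mul, hq, pow_succ, pow_mul, cv_cv, (memC _).1 (pow_mem r03 q) x hx, r0E x hx]
  have ρR : ρ ∈ normalizer (R : Set G) := pow_mem (pow_mem r0R _) _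
  have bR : b ∈ normalizer (R : Set G) :=
    le_normalizer_inf le_normalizer (hS.le.trans nM) (TS bT)
  have e1 : cv t ρ = t := (ρE _ tE).trans h.tr
  have e2 : cv f ρ = f := (ρE _ (WE fW)).trans h.fr
  have e3 : cv z ρ = a := (ρE _ m2).trans h.zr
  have e4 : cv a ρ = z * a := (ρE _ (subset_closure (by simp))).trans h.ar
  have key : ∀ c ∈ C, c ∈ normalizer (R : Set G) → Odd (orderOf c) → ∀ x ∈ R, cv x c = x :=
    fun c hc hn o x hx => by
      have k1 : x⁻¹ * cv x c ∈ E := RC _ (mul_mem (inv_mem hx) (cv_nrm hx hn)) (by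
        have := mul_mem (cv_nrm (inv_mem hc) (nC (MN hx.2))) hc
        simpa [cv, mul_assoc] using this)
      have k2 : x⁻¹ * cv x c * (x⁻¹ * cv x c) = 1 := by
        obtain ⟨w, hw, e⟩ := B'.memE k1
        rcases B'.memW hw with rfl | rfl | rfl | rfl | rfl | rfl | rfl | rfl <;>
          rcases e with e | e <;> rw [e] <;> en B' []
      refine fix_of_odd o ?_
      calc _ = cv (x * (x⁻¹ * cv x c)) c := by rw [mul_inv_cancel_left]
        _ = x * (x⁻¹ * cv x c * (x⁻¹ * cv x c)) := by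
            rw [cv_mul, (memC c).1 hc _ k1]; group
        _ = x := by rw [k2, mul_one]
  have r3 : ∀ x ∈ R, cv (cv (cv x ρ) ρ) ρ = x := fun x hx => by
    rw [← cv_cv, ← cv_cv]
    refine key _ (cC _ ?_ ?_ ?_ ?_) (mul_mem ρR (mul_mem ρR ρR)) (oρ.of_dvd_nat ?_) x hx
    any_goals en B' [e1, e2, e3, e4]
    rw [show ρ * (ρ * ρ) = ρ ^ 3 by simp [pow_succ, mul_assoc]]
    exact orderOf_pow_dvd _
  refine ⟨ρ, R, ⟨⟨e1, e2, e3, e4, oρ⟩, fun x hx => cv_nrm hx ρR, fun x hx => cv_nrm hx bR, ER,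
    fun x hx y hy e => ?_, r3, ?_⟩, fun x hx h1 h2 => ⟨TS hx, mM x (TN hx) h1 h2⟩⟩
  · have m := mul_mem hy (inv_mem hx)
    exact ⟨_, cv_nrm (RC _ m (MC _ m.2 (by rw [cv_cv, ← e, ← cv_cv, mul_inv_cancel, cv_one'])))
      (MN hx.2), by simp [cv, mul_assoc]⟩
  · have wC : b * ρ * b * ρ ∈ C := by refine cC _ ?_ ?_ ?_ ?_ <;> en B' [e1, e2, e3, e4]
    have wR : b * ρ * b * ρ ∈ normalizer (R : Set G) := mul_mem (mul_mem (mul_mem bR ρR) bR) ρR
    obtain ⟨u, o, hu, ho, e, ⟨j, hj⟩, h2⟩ := H92.exists_p_parts Nat.prime_two (b * ρ * b * ρ)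
    have uE : u ∈ E := two u (zpowers_le.2 wC hu) (IsPGroup.of_card (by rw [Nat.card_zpowers, hj]))
    refine ⟨u, uE, fun x hx => ?_⟩
    have x1 := cv_nrm hx bR
    have k1 := key o (zpowers_le.2 wC ho) (zpowers_le.2 wR ho)
      (Nat.not_even_iff_odd.1 fun k => h2 k.two_dvd) _ (cv_mem x1 (ER uE))
    rw [← cv_cv _ u, ← e, cv_cv, cv_cv, cv_cv, cv_sq B.bb] at k1
    rw [← k1, r3 _ (cv_nrm (cv_nrm hx ρR) bR)]

theorem coreN1 (B : B1 t z f a b) (n : ¬ z = 1 ∧ ¬ a = 1 ∧ ¬ z * a = 1) (S : Sd t z f a b r R) (hx : x ∈ R) (xx : x * x = 1)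
    (A : Ac t z f a x (t * z) z a) (bx : cv b x = b) :
    ∃ c m l, (c = 1 ∨ c = f) ∧ SN t z f a b r (x * c) m l ∧
      (m * l = x * c ∨ m * l = x * c * (t * a)) := by
  have B' := B
  have xb : cv x b = x := cv_of' (cm_of bx)
  obtain ⟨m, xr⟩ : ∃ m, cv x r = m := ⟨_, rfl⟩
  obtain ⟨l, mr⟩ : ∃ l, cv m r = l := ⟨_, rfl⟩
  have lr : cv l r = x := by rw [← mr, ← xr, S.r3 x hx]
  have mR : m ∈ R := xr ▸ S.nr x hx
  have lR : l ∈ R := mr ▸ S.nr m mR
  have Am := A.cr B' S.toRr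
  en B' [S.toRr.rw, xr] at Am
  have Al := Am.cr B' S.toRr
  en B' [S.toRr.rw, mr] at Al
  have N : SN t z f a b r x m l := ⟨S.toRr, xx, A, bx, xr, mr, lr, by
    obtain ⟨e, he, k⟩ := S.br
    have k1 := k x hx
    have k2 := k m mR
    have k3 := congrArg (cv · r) (k l lR)
    simp only [lr, xb, S.r3 _ (cv_mem (S.nb l lR) (S.ER he)), xr, mr] at k1 k2 k3
    obtain ⟨w, hw, rfl | rfl⟩ := B'.memE he
    · rw [k1, cv_of' (cm_of (A.W hw)), xr, mr]
    · have e1 : cv x (t * w) = x * z := by rw [cvd]; en B' [A.rw, rk (A.W hw), B'.wr (WE hw)]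
      have e2 : cv (l * (z * a)) (t * w) = l := by
        rw [cvd]; en B' [Al.rw, rk (Al.W hw), B'.wr (WE hw)]
      have e3 : cv m (t * w) = m * a := by rw [cvd]; en B' [Am.rw, rk (Am.W hw), B'.wr (WE hw)]
      rw [e1] at k1
      en B' [xr, mr, S.toRr.rw] at k1
      rw [k1, e2, lr, xr] at k2
      rw [k2, e3] at k3
      have _e := inv_mul_eq_one.2 k3
      en B [n] at _e⟩
  obtain ⟨e, he, k⟩ := S.ker x hx _ (mul_mem mR lR) (by en B' [A.rw, Am.rw, Al.rw])
  have k1 : cv e r = cv e x := by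
    have := congrArg (cv · r) k
    simp only [cv_mul, mr, lr, xr] at this
    rw [← mul_right_inj m, ← this, ← mul_right_inj m, ← mul_assoc, k, cvd]
    en B' [ri N.mm, ri xx]
  have k2 : e = 1 ∨ e = f ∨ e = t * a ∨ e = t * (f * a) := by
    obtain ⟨w, hw, h⟩ := B'.memE he
    rcases B'.memW hw with rfl | rfl | rfl | rfl | rfl | rfl | rfl | rfl <;>
      rcases h with rfl | rfl <;> en B' [S.toRr.rw, A.rw, true_or, or_true] at k1 ⊢ <;>
      (have _e := inv_mul_eq_one.2 k1; en B [n] at _e)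
  rcases k2 with rfl | rfl | rfl | rfl
  · exact ⟨1, m, l, .inl rfl, by rwa [mul_one], .inl k⟩
  · exact ⟨_, _, _, .inr rfl, N.mf B', .inl (by en B' [Al.rw, rs N.ll, k])⟩
  · exact ⟨1, m, l, .inl rfl, by rwa [mul_one], .inr (by rwa [mul_one])⟩
  · exact ⟨_, _, _, .inr rfl, N.mf B', .inr (by en B' [Al.rw, rs N.ll, k])⟩

theorem mixed1 {s m l n k : G} (B : B1 t z 1 a b) (B' : B1 t z 1 b a) (N : SN t z 1 a b r x m l)
    (E : m * l = x) (N' : SN t z 1 b a s x n k) (H : n * k = x * (t * b)) : IsConj t z := by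
  obtain ⟨-, -, bm⟩ := N.cE B E
  obtain ⟨-, xn, an⟩ := N'.cH B' H
  have An := N'.Am B'
  have c := ((isConj_cv t n).trans (isConj_cv _ m)).trans (isConj_cv _ n)
  have e : cv (cv (cv t n) m) n = a := by
    en B [An.ht, An.hz, An.ha, an, xn, bm, N.A.rw, rk N.bx, (N.Am B).ht, ri N.xx]
  rw [e, ← N.zr] at c
  exact c.trans (isConj_cv z r).symm

theorem cl1 : closure ({t, z, 1, a} : Set G) = closure {t, z, a} :=
  le_antisymm ((closure_le _).2 (by rintro _ (rfl | rfl | rfl | rfl) <;> (rw [SetLike.mem_coe]; memc)))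
    (closure_mono (by rintro _ (rfl | rfl | rfl) <;> simp))

end

open Cfsg.Agent.H42.N7

variable {G : Type u} [Group G]

theorem b1 {h : C1 G} (k : Kit1 h) : B1 h.t h.z 1 h.a h.b where
  tt := h.tt
  zz := h.zz
  ff := one_mul 1
  aa := h.aa
  bb := h.bb
  zt := k.tz.symm
  ft := Commute.one_left _
  at' := h.ta.symm
  tb := h.tb
  fz := Commute.one_left _
  az := h.za.symm
  zb := h.zb
  af := Commute.one_right _
  fb := Commute.one_left _
  ab := h.ab.trans h.za.symm.eq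

theorem one_side [Finite G] {h : C1 G} (k : Kit1 h) {x : G} (tx : cv h.t x = h.t * h.z)
    (xx : x * x = 1) (xa : Commute x h.a) (xb : Commute x h.b) :
    ∃ r m l, SN h.t h.z 1 h.a h.b r x m l ∧ (m * l = x ∨ m * l = x * (h.t * h.a)) := by
  have : Fact (Nat.Prime 2) := ⟨Nat.prime_two⟩
  have B := b1 k
  have rr : Rr h.t h.z 1 h.a h.r :=
    ⟨cv_of' h.rt, cv_one _, h.zr, h.ar.trans h.za.symm.eq, h.ro⟩
  have zx : cv h.z x = h.z := cv_of' (by
    rw [B.z_eq]; exact ((xa.mul_right xb).mul_right xa).mul_right xb)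
  have A : Ac h.t h.z 1 h.a x (h.t * h.z) h.z h.a := ⟨tx, zx, cv_one _, cv_of' xa⟩
  have zD : h.z ∈ closure ({h.a, h.b} : Set G) := by rw [B.z_eq]; memc
  have tW : h.t ∉ closure ({h.z, 1, h.a} : Set G) := fun e => k.ne.2.2 ((closure_le _).2 (by
    rintro _ (rfl | rfl | rfl) <;> (rw [SetLike.mem_coe]; memc)) e)
  have n : ¬ h.z = 1 ∧ ¬ h.a = 1 ∧ ¬ h.z * h.a = 1 := ⟨h.z1, k.ne.1, fun e => k.ne.2.1 (by
    rw [← mul_right_inj h.z, e, h.zz])⟩
  have hT : IsPGroup 2 (closure ({x, h.b} : Set G)) := fun ⟨u, hu⟩ => ⟨1, Subtype.ext (by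
    show u ^ 2 ^ 1 = 1
    rw [pow_one, pow_two]
    rcases mem_ins (xx ▸ one_mem _) (by rintro _ rfl; rw [cv_of' xb]; memc) hu with e | ⟨w, e, rfl⟩ <;>
      rcases mem_one h.bb e with rfl | rfl
    · exact one_mul 1
    · exact h.bb
    · rwa [mul_one]
    · rw [mul_assoc, ← mul_assoc h.b, ← xb.eq, mul_assoc, h.bb, mul_one, xx])⟩
  obtain ⟨ρ, R, S, e⟩ := side1 B rfl tW rr (by rw [cl1]; exact k.sylE1)
    (by rw [cl1]; exact k.aut1) (hA_of B rr fun n _ e => by
      have c := isConj_cv h.t n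
      have g1 : Gd h.t h.z 1 h.a 1 := ⟨cv_one _, by en B []; memc, by en B []; memc, by en B []; memc⟩
      have gx : Gd h.t h.z 1 h.a x :=
        ⟨cv_one _, by rw [zx]; memc, by rw [A.ha]; memc, by rw [tx]; memc⟩
      rcases mem_ins (by rw [B.tt]; exact one_mem _) (by rintro _ (rfl | rfl) <;> en B [] <;> memc) e with
        e | ⟨w, e, e'⟩
      · rcases B.memP e with e | e | e | e <;> rw [e] at c
        · exact absurd (isConj_one_left.1 c) h.t1
        · exact absurd (isConj_one_left.1 c) h.t1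
        · exact absurd c k.zD
        · rw [mul_one] at c; exact absurd c k.zD
      · rcases B.memP e with rfl | rfl | rfl | rfl
        · exact ⟨1, g1, by rw [e', cv_one', mul_one]⟩
        · exact ⟨1, g1, by rw [e', cv_one', mul_one]⟩
        · exact ⟨x, gx, by rw [e', tx]⟩
        · exact ⟨x, gx, by rw [e', tx, mul_one]⟩) hT
    ((closure_le _).2 (by
      rintro _ (rfl | rfl) <;> refine nrm_of fun u => cv_closure ?_ <;>
        rintro _ (rfl | rfl | rfl | rfl) <;> en B [A.rw] <;> memc)) (by memc)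
  obtain ⟨c, m, l, rfl | rfl, N, ty⟩ :=
    coreN1 B n S (e x m1 (.inl zx) (.inl A.ha)) xx A (cv_of' xb) <;>
    rw [mul_one] at N ty <;> exact ⟨ρ, m, l, N, ty⟩

/-- N7-CS -/
theorem cs (hk : Kit1Stmt.{u}) : CSStmt.{u} := by
  intro G _ _ h
  have k := hk G h.toC1
  have k' := hk G h.toC1.mir
  obtain ⟨r, m, l, N, ty⟩ := one_side k h.tx h.xx h.xa h.xb
  obtain ⟨s, n, j, N', ty'⟩ := one_side k' h.tx h.xx h.xb h.xa
  refine ⟨⟨h, r, m, l, s, n, j, N, N'⟩, ?_⟩
  rcases ty with e | e <;> rcases ty' with e' | e'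
  · exact .inl ⟨e, e'⟩
  · exact absurd (mixed1 (b1 k) (b1 k') N e N' e') k.zD
  · exact absurd (mixed1 (b1 k') (b1 k) N' e' N e) k.zD
  · exact .inr ⟨e, e'⟩

end Cfsg.Agent.H32.N7S
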