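import Cfsg.Agent.H54.O84Defs

/-!
# Project O84, piece CONJ: every copy of the orthogonal group is conjugate to a standard one
-/

set_option autoImplicit false

namespace Cfsg.Agent.H32.O84Conj

open Cfsg.Agent.H54.O84 Subgroup

universe u

theorem xf_map {X X' : Type*} [Group X] [Group X'] {b : MV →* X} (h : XF b) (e : X ≃* X') :
    XF (e.toMonoidHom.comp b) := by
  refine ⟨e.injective.comp h.inj, fun k => ?_, eq_top_iff.2 ?_⟩
  · obtain ⟨n, hn⟩ := h.refl k
    exact ⟨e n, fun x => by simpa using congrArg e (hn x)⟩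
  · rw [← map_top_of_surjective e.toMonoidHom e.surjective, ← h.gen, Subgroup.map_iSup]
    refine iSup_mono fun k => ?_
    rintro _ ⟨g, hg, rfl⟩ _ ⟨x, hx, rfl⟩
    simpa using congrArg e (hg _ ⟨x, hx, rfl⟩)

theorem conj (hS : SylStmt) (hC : Cg2Stmt) : ConjStmt.{u} := by
  rintro Γ _ _ G h5 Ω _ b hb hY X ⟨e⟩
  obtain ⟨g, hg⟩ := hS Γ G h5 (X.subtype.comp (e.symm.toMonoidHom.comp b))
    (X.subtype_injective.comp (e.symm.injective.comp hb.inj))
  let e' := e.symm.trans (X.equivMapOfInjective (MulAut.conj g).toMonoidHom (MulAut.conj g).injective)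
  obtain ⟨v, hv, i, hX⟩ := hC Γ G _ _ (xf_map hb e') (by
    rw [← hg, MonoidHom.map_range]; rfl)
  obtain ⟨n, hn, rfl⟩ := G.ν_surj v hv
  obtain ⟨f⟩ := hY i
  rw [← G.Y_conj n hn] at hX
  have h1 := eq_of_le_of_card_ge hX (by
    rw [card_map_of_injective (MulAut.conj n).injective, Nat.card_congr f.toEquiv,
      Nat.card_congr e'.toEquiv])
  refine ⟨i, n⁻¹ * g, map_injective (f := (MulAut.conj n).toMonoidHom) (MulAut.conj n).injective ?_⟩
  beta_reduce
  rw [← h1, map_map]
  congr 1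
  ext x
  simp [mul_assoc]

end Cfsg.Agent.H32.O84Conj
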