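import Cfsg.Agent.H63.PSDefs
import Cfsg.Agent.S0942
import Cfsg.Agent.S0943
import Cfsg.Agent.S0907
import Cfsg.Agent.H11.Kernel
import Cfsg.Agent.H21.Basic
import Cfsg.Agent.H23.Cyclic

/-! PS-ONE: the isolated case for odd `p`. -/

set_option autoImplicit false
open Cfsg

namespace Cfsg.Agent.H32.PsO

open Cfsg.Agent.H63.PS

universe u

/-- PS-ONE -/
theorem one : OneStmt.{u} := by
  intro p hp G _ _ hs ⟨a, b, hab⟩ p2 A z L iso
  have pp := hp.out
  obtain ⟨M, hM⟩ := H23.exists_isPModular pp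
  have fx : ∀ m ∈ Subgroup.normalizer (A : Set G), ∀ v ∈ A, m * v * m⁻¹ = v := fun m hm v hv => by
    have e : m * z * m⁻¹ = z :=
      iso _ ((Subgroup.mem_normalizer_iff.1 hm z).1 L.mem) (isConj_iff.2 ⟨m, rfl⟩)
    have : Subgroup.closure {x | x ∈ A ∧ IsConj z x} ≤ Subgroup.centralizer {m} :=
      (Subgroup.closure_le _).2 fun x hx => Subgroup.mem_centralizer_singleton_iff.2 (by
        rw [iso x hx.1 hx.2]; exact (mul_inv_eq_iff_eq_mul.1 e).symm)
    rw [← Subgroup.mem_centralizer_singleton_iff.1 (this (L.gen hv)), mul_inv_cancel_right]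
  have z1 : ∀ n, z ^ 2 ^ n ≠ 1 := fun n e =>
    p2 ((Nat.prime_dvd_prime_iff_eq pp Nat.prime_two).1
      (pp.dvd_of_dvd_pow (L.ord ▸ orderOf_dvd_of_pow_eq_one e)))
  have zero : ∀ χ ∈ principalBlock M G, χ ≠ H21.triv G → (χ : G → ℂ) z = 0 := fun χ hχ h1 => by
    have cl : ∀ x y : G, IsConj x y → (χ : G → ℂ) x = (χ : G → ℂ) y := fun x y e => by
      obtain ⟨c, rfl⟩ := isConj_iff.1 e
      obtain ⟨n, ρ, -, hρ⟩ := χ.2
      rw [← hρ, Representation.char_conj]
    have mul : ∀ u ∈ A, ∀ v ∈ A, u * v ≠ 1 →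
        (χ : G → ℂ) u * (χ : G → ℂ) v = (χ : G → ℂ) 1 * (χ : G → ℂ) (u * v) := fun u hu v hv ne =>
      S0943.result χ u v fun x y hx hy => by
        obtain ⟨h, rfl⟩ := isConj_iff.1 hx
        obtain ⟨k, rfl⟩ := isConj_iff.1 hy
        obtain ⟨κ, k1, -, k3⟩ := L.kap (h⁻¹ * k)
        obtain ⟨s, hs, c⟩ := k3 u hu v hv ne
        obtain ⟨j, hj⟩ := IsPGroup.iff_orderOf.1 L.pg ⟨_, A.mul_mem hu hv⟩
        rw [← S0942.result p M hM (u * v) ⟨j, by rw [← hj, Subgroup.orderOf_mk]⟩ s hs χ hχ, cl _ _ c]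
        refine (cl _ _ (isConj_iff.2 ⟨h, ?_⟩)).symm
        conv_lhs => rw [← fx _ k1 v hv]
        group
    have d0 : (χ : G → ℂ) 1 ≠ 0 := by
      rw [← H21.cast_deg]; exact Nat.cast_ne_zero.2 (H21.deg_ne_zero χ)
    have pw : ∀ n, (χ : G → ℂ) (z ^ 2 ^ n) / (χ : G → ℂ) 1 =
        ((χ : G → ℂ) z / (χ : G → ℂ) 1) ^ 2 ^ n := fun n => by
      induction n with
      | zero => simp
      | succ n ih =>
        have e : z ^ 2 ^ (n + 1) = z ^ 2 ^ n * z ^ 2 ^ n := by rw [pow_succ, pow_mul, pow_two]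
        have := mul _ (A.pow_mem L.mem (2 ^ n)) _ (A.pow_mem L.mem (2 ^ n)) (e ▸ z1 (n + 1))
        rw [pow_succ 2 n, pow_mul _ (2 ^ n) 2, pow_mul _ (2 ^ n) 2, ← ih, pow_two, pow_two,
          div_mul_div_comm, this, mul_div_mul_left _ _ d0]
    have e1 : z ^ 2 ^ (p - 1) = z := by
      conv_rhs => rw [← pow_one z]
      rw [pow_eq_pow_iff_modEq, L.ord]
      exact Nat.ModEq.pow_card_sub_one_eq_one pp ((Nat.coprime_primes Nat.prime_two pp).2 (Ne.symm p2))
    have e2 := pw (p - 1)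
    obtain ⟨N, hN⟩ : ∃ N, 2 ^ (p - 1) = N + 1 + 1 :=
      ⟨2 ^ (p - 1) - 2, by
        have := Nat.one_lt_two_pow (n := p - 1) (by have := pp.two_le; omega)
        omega⟩
    rw [e1, hN, pow_succ] at e2
    by_contra ne
    have e3 := mul_right_cancel₀ (div_ne_zero ne d0) ((one_mul _).trans e2)
    have e4 : ‖(χ : G → ℂ) z / (χ : G → ℂ) 1‖ = 1 :=
      Complex.norm_eq_one_of_pow_eq_one e3.symm N.succ_ne_zero
    rw [norm_div, div_eq_one_iff_eq (norm_ne_zero_iff.2 d0)] at e4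
    have m := (H11.mem_charCenter_iff (H11.isCharacter_of_irr χ.2)).2 e4
    rw [H11.charCenter_eq_center χ.2
      (H11.charKer_eq_bot_of_isSimpleGroup χ.2 fun e => h1 (Subtype.ext e))] at m
    rcases (inferInstance : (Subgroup.center G).Normal).eq_bot_or_eq_top with e | e
    · rw [e, Subgroup.mem_bot] at m
      exact z1 0 (by simpa using m)
    · exact hab (Subgroup.mem_center_iff.1 (e ▸ Subgroup.mem_top b) a)
  have := S0907.result p M hM _ H21.isPBlock_principal 1 z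
    (by rw [orderOf_one]; exact pp.not_dvd_one) (by rw [L.ord])
  rw [finsum_eq_single _ (H21.triv G) fun χ h => by
    by_cases k : χ ∈ principalBlock M G
    · simp [zero χ k h]
    · simp [k]] at this
  simp [H21.triv_mem_principal hM.2.1, H21.triv_apply] at this

end Cfsg.Agent.H32.PsO
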