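import Cfsg.Agent.H58.Q4Defs

/-! Steiner triple systems on fixed point sets. -/

set_option autoImplicit false

namespace Cfsg.Agent.H32.Q4Sts

open Equiv Cfsg.Agent.H58.Q4

universe u

theorem even_of_inv {Ω : Type u} [Finite Ω] (z : Ω → Ω) (s : Set Ω)
    (h : ∀ y ∈ s, z y ∈ s ∧ z (z y) = y ∧ z y ≠ y) : Even s.ncard := by
  rw [Set.ncard_eq_toFinset_card s, ← ZMod.natCast_eq_zero_iff_even, Finset.cast_card]
  exact Finset.sum_involution (fun y _ => z y) (fun _ _ => by decide)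
    (fun y hy _ => (h y (by simpa using hy)).2.2) (fun y hy => by simpa using (h y (by simpa using hy)).1)
    fun y hy => (h y (by simpa using hy)).2.1

theorem count {Ω : Type u} [Finite Ω] (Λ : Set (Set Ω)) (Φ : Set Ω)
    (h1 : ∀ L ∈ Λ, L ⊆ Φ ∧ L.ncard = 3)
    (h2 : ∀ a ∈ Φ, ∀ b ∈ Φ, a ≠ b → ∃ L ∈ Λ, a ∈ L ∧ b ∈ L)
    (h3 : ∀ L ∈ Λ, ∀ L' ∈ Λ, ∀ a b, a ≠ b → a ∈ L → b ∈ L → a ∈ L' → b ∈ L' → L = L') :
    6 * Λ.ncard = Φ.ncard * (Φ.ncard - 1) := by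
  classical
  have e : (Set.toFinite Φ).toFinset.offDiag =
      (Set.toFinite Λ).toFinset.biUnion fun L => (Set.toFinite L).toFinset.offDiag := by
    ext ⟨a, b⟩
    simp only [Finset.mem_offDiag, Finset.mem_biUnion, Set.Finite.mem_toFinset]
    constructor
    · rintro ⟨ha, hb, hab⟩
      obtain ⟨L, hL, k1, k2⟩ := h2 a ha b hb hab
      exact ⟨L, hL, k1, k2, hab⟩
    · rintro ⟨L, hL, k1, k2, hab⟩
      exact ⟨(h1 L hL).1 k1, (h1 L hL).1 k2, hab⟩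
  have c := congrArg Finset.card e
  rw [Finset.card_biUnion, Finset.offDiag_card, ← Set.ncard_eq_toFinset_card,
    Finset.sum_const_nat (m := 6), ← Set.ncard_eq_toFinset_card] at c
  · rw [Nat.mul_sub_one, c, mul_comm]
  · intro L hL
    rw [Finset.offDiag_card, ← Set.ncard_eq_toFinset_card, (h1 L (by simpa using hL)).2]
  · intro L hL L' hL' hne
    refine Finset.disjoint_left.2 fun p hp hp' => hne ?_
    simp only [Finset.mem_offDiag, Set.Finite.mem_toFinset] at hp hp'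
    exact h3 L (by simpa using hL) L' (by simpa using hL') p.1 p.2 hp.2.2 hp.1 hp.2.1 hp'.1 hp'.2.1

/-- **STS** -/
theorem sts : StsStmt.{u} := by
  intro Ω _ z 𝔅 Φ x hx hzx hΦ hB hD
  have x1 : x ∉ Φ := fun h => hx (hΦ x h)
  have x2 : z x ∉ Φ := fun h => hx ((hΦ _ h).symm.trans hzx)
  have key := count {L : Set Ω | ∃ D ∈ 𝔅, x ∈ D ∧ z x ∈ D ∧ L = D ∩ Φ ∧ L.ncard = 3} Φ
    (by rintro _ ⟨D, -, -, -, rfl, h⟩; exact ⟨Set.inter_subset_right, h⟩)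
    (fun a ha b hb hab => by
      obtain ⟨D, d1, d2, d3, d4, d5, d6, d7, d8⟩ := hD a ha b hb hab
      refine ⟨D ∩ Φ, ⟨D, d1, d4, d5, rfl, ?_⟩, ⟨d2, ha⟩, d3, hb⟩
      have e1 := even_of_inv z (D \ Φ) fun y hy => ⟨⟨(d7 y hy.1).1, fun k =>
        hy.2 ((d7 y hy.1).2.2 (z.injective (hΦ _ k)))⟩, (d7 y hy.1).2.1,
        fun k => hy.2 ((d7 y hy.1).2.2 k)⟩
      have e2 := Set.ncard_inter_add_ncard_diff_eq_ncard D Φ
      have e3 : 1 < (D ∩ Φ).ncard := (Set.one_lt_ncard).2 ⟨a, ⟨d2, ha⟩, b, ⟨d3, hb⟩, hab⟩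
      obtain ⟨k, hk⟩ := e1
      obtain ⟨m, hm⟩ := d6
      omega)
    (by
      rintro _ ⟨D, d1, d2, d3, rfl, -⟩ _ ⟨D', e1, e2, e3, rfl, -⟩ a b hab ha hb ha' hb'
      rw [hB D d1 D' e1 ?_]
      have k : ({a, b, x, z x} : Set Ω).ncard = 4 := Set.ncard_eq_four.2 ⟨a, b, x, z x, hab,
        fun e => x1 (e ▸ ha.2), fun e => x2 (e ▸ ha.2), fun e => x1 (e ▸ hb.2),
        fun e => x2 (e ▸ hb.2), hx.symm, rfl⟩
      rw [← k]
      refine Set.ncard_le_ncard ?_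
      rintro _ (rfl | rfl | rfl | rfl)
      exacts [⟨ha.1, ha'.1⟩, ⟨hb.1, hb'.1⟩, ⟨d2, e2⟩, ⟨d3, e3⟩])
  refine ⟨key, fun h => ?_⟩
  obtain ⟨k, hk⟩ : ∃ k, Φ.ncard = 3 * k + 2 := ⟨Φ.ncard / 3, by omega⟩
  rw [hk, show (3 * k + 2) * (3 * k + 2 - 1) = 3 * (3 * k * k + 3 * k) + 2 by
    rw [show 3 * k + 2 - 1 = 3 * k + 1 from rfl]; ring] at key
  omega

end Cfsg.Agent.H32.Q4Sts
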