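import Cfsg.Agent.H79.RbCl

/-! Traces and the even centre of the complex Clifford algebra (project RB). -/

set_option autoImplicit false

open CliffordAlgebra

namespace Cfsg.Agent.H32.RbClBase

open Cfsg.Agent.H79.RB

variable {n : ℕ}

/-- The span of the products of the generators with index in `T`. -/
inductive Gen (T : Finset (Fin n)) : Cl n → Prop
  | one : Gen T 1
  | add {x y : Cl n} : Gen T x → Gen T y → Gen T (x + y)
  | smul (a : ℂ) {x : Cl n} : Gen T x → Gen T (a • x)
  | mul {j : Fin n} {x : Cl n} : j ∈ T → Gen T x → Gen T (cc j * x)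

variable {T : Finset (Fin n)} {i : Fin n} {x : Cl n}

theorem Gen.zero : Gen T 0 := by simpa using Gen.smul 0 (Gen.one (T := T))

theorem Gen.neg (h : Gen T x) : Gen T (-x) := by simpa using h.smul (-1)

theorem gen_univ (x : Cl n) : Gen Finset.univ x := by
  induction x using CliffordAlgebra.left_induction with
  | algebraMap r => rw [Algebra.algebraMap_eq_smul_one]; exact Gen.one.smul r
  | add x y hx hy => exact hx.add hy
  | ι_mul x m hx =>
    have e : ι (Qn n) m = ∑ i, m i • cc i := by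
      conv_lhs => rw [pi_eq_sum_univ' m]
      simp only [map_sum, map_smul, cc]
    rw [e, Finset.sum_mul]
    refine Finset.sum_induction _ _ (fun _ _ => Gen.add) Gen.zero fun j _ => ?_
    rw [smul_mul_assoc]
    exact (hx.mul (Finset.mem_univ j)).smul _

theorem Gen.empty (h : Gen ∅ x) : ∃ a : ℂ, x = a • 1 := by
  induction h with
  | one => exact ⟨1, (one_smul _ _).symm⟩
  | add _ _ h1 h2 =>
    obtain ⟨a, rfl⟩ := h1
    obtain ⟨b, rfl⟩ := h2
    exact ⟨a + b, (add_smul _ _ _).symm⟩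
  | smul a _ h1 =>
    obtain ⟨b, rfl⟩ := h1
    exact ⟨a * b, smul_smul _ _ _⟩
  | mul h => simp at h

theorem Gen.inv (h : Gen T x) : Gen T (involute x) := by
  induction h with
  | one => rw [map_one]; exact Gen.one
  | add _ _ h1 h2 => rw [map_add]; exact h1.add h2
  | smul a _ h1 => rw [map_smul]; exact h1.smul a
  | mul h _ h1 => rw [map_mul, involute_cc, neg_mul]; exact (h1.mul h).neg

theorem Gen.comm (hi : i ∉ T) (h : Gen T x) : cc i * x = involute x * cc i := by
  induction h with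
  | one => simp
  | add _ _ h1 h2 => rw [mul_add, map_add, add_mul, h1, h2]
  | smul a _ h1 => rw [mul_smul_comm, map_smul, smul_mul_assoc, h1]
  | @mul j y h _ h1 =>
    have : i ≠ j := fun e => hi (e ▸ h)
    rw [← mul_assoc, cc_anti this, map_mul, involute_cc, neg_mul, mul_assoc, h1, neg_mul, neg_mul,
      mul_assoc]

theorem Gen.split (hi : i ∉ T) (h : Gen (insert i T) x) :
    ∃ a b, Gen T a ∧ Gen T b ∧ x = a + cc i * b := by
  induction h with
  | one => exact ⟨1, 0, Gen.one, Gen.zero, by simp⟩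
  | add _ _ h1 h2 =>
    obtain ⟨a, b, ha, hb, rfl⟩ := h1
    obtain ⟨c, d, hc, hd, rfl⟩ := h2
    exact ⟨_, _, ha.add hc, hb.add hd, by rw [mul_add]; abel⟩
  | smul r _ h1 =>
    obtain ⟨a, b, ha, hb, rfl⟩ := h1
    exact ⟨_, _, ha.smul r, hb.smul r, by rw [smul_add, mul_smul_comm]⟩
  | @mul j y h _ h1 =>
    obtain ⟨a, b, ha, hb, rfl⟩ := h1
    rcases Finset.mem_insert.1 h with rfl | h
    · exact ⟨b, a, hb, ha, by rw [mul_add, ← mul_assoc, cc_sq, one_mul, add_comm]⟩
    · have : j ≠ i := fun e => hi (e ▸ h)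
      exact ⟨_, _, ha.mul h, (hb.mul h).neg, by
        rw [mul_add, ← mul_assoc, cc_anti this, neg_mul, mul_neg, mul_assoc]⟩

theorem Gen.half (hi : i ∉ T) (h : Gen (insert i T) x) (he : involute x = x) :
    Gen T ((2⁻¹ : ℂ) • (x + cc i * x * cc i)) := by
  obtain ⟨a, b, ha, hb, e⟩ := h.split hi
  have e1 : x = involute a - cc i * involute b := by
    rw [← he, e, map_add, map_mul, involute_cc, neg_mul, sub_eq_add_neg]
  have e2 : cc i * x * cc i = involute a + cc i * involute b := by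
    rw [e, mul_add, add_mul, ha.comm hi, mul_assoc, cc_sq, mul_one, ← mul_assoc, cc_sq, one_mul,
      hb.inv.comm hi, involute_involute]
  have e3 : (2⁻¹ : ℂ) • (x + cc i * x * cc i) = involute a := by
    rw [e2, e1]
    module
  rw [e3]
  exact ha.inv

theorem fg (T : Finset (Fin n)) : ∃ W : Submodule ℂ (Cl n), W.FG ∧ ∀ x, Gen T x → x ∈ W := by
  induction T using Finset.induction_on with
  | empty =>
    refine ⟨ℂ ∙ 1, Submodule.fg_span_singleton _, fun x h => ?_⟩
    obtain ⟨a, rfl⟩ := h.empty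
    exact Submodule.smul_mem _ _ (Submodule.mem_span_singleton_self _)
  | insert i T hi ih =>
    obtain ⟨W, h1, h2⟩ := ih
    refine ⟨W ⊔ W.map (LinearMap.mulLeft ℂ (cc i)), h1.sup (h1.map _), fun x h => ?_⟩
    obtain ⟨a, b, ha, hb, rfl⟩ := h.split hi
    exact Submodule.add_mem_sup (h2 a ha) ⟨b, h2 b hb, rfl⟩

theorem fin (n : ℕ) : Module.Finite ℂ (Cl n) := by
  obtain ⟨W, h1, h2⟩ := fg (Finset.univ : Finset (Fin n))
  have : W = ⊤ := eq_top_iff.2 fun x _ => h2 x (gen_univ x)
  exact ⟨this ▸ h1⟩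

theorem key (T : Finset (Fin n)) : ∀ x, Gen T x → involute x = x → ∃ a : ℂ,
    (∀ t : Cl n →ₗ[ℂ] ℂ, (∀ x y, t (x * y) = t (y * x)) → t x = t 1 * a) ∧
      ((∀ i, x * cc i = cc i * x) → x = a • 1) := by
  induction T using Finset.induction_on with
  | empty =>
    intro x h _
    obtain ⟨a, rfl⟩ := h.empty
    exact ⟨a, fun t _ => by rw [map_smul, smul_eq_mul, mul_comm], fun _ => rfl⟩
  | insert i T hi ih =>
    intro x h he
    obtain ⟨a, h1, h2⟩ := ih _ (h.half hi he) (by
      simp only [map_smul, map_add, map_mul, involute_cc, he, neg_mul, mul_neg, neg_neg])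
    refine ⟨a, fun t ht => ?_, fun hc => ?_⟩
    · rw [← h1 t ht, map_smul, map_add, ht _ (cc i), ← mul_assoc, cc_sq, one_mul, smul_eq_mul]
      ring
    · have e : (2⁻¹ : ℂ) • (x + cc i * x * cc i) = x := by
        rw [← hc, mul_assoc, cc_sq, mul_one]
        module
      rw [e] at h2
      exact h2 hc

theorem trc_one (n : ℕ) : trc n 1 = 1 := by
  haveI := fin n
  have h : (Module.finrank ℂ (Cl n) : ℂ) ≠ 0 := Nat.cast_ne_zero.2 Module.finrank_pos.ne'
  have e : LinearMap.mul ℂ (Cl n) 1 = 1 := LinearMap.ext fun x => by simp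
  simp only [trc, LinearMap.smul_apply, LinearMap.comp_apply, e, LinearMap.trace_one, smul_eq_mul]
  exact inv_mul_cancel₀ h

theorem trc_comm (x y : Cl n) : trc n (x * y) = trc n (y * x) := by
  have e : ∀ x y : Cl n, LinearMap.mul ℂ (Cl n) (x * y) =
      LinearMap.mul ℂ (Cl n) x * LinearMap.mul ℂ (Cl n) y := fun x y =>
    LinearMap.ext fun z => by simp [mul_assoc]
  simp only [trc, LinearMap.smul_apply, LinearMap.comp_apply, e]
  rw [LinearMap.trace_mul_comm]

theorem clBaseStmt : ClBaseStmt := by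
  intro n
  refine ⟨trc_one n, trc_comm, fun t ht x hx => ?_, fun x hx hc => ?_⟩
  · obtain ⟨a, h1, -⟩ := key _ x (gen_univ x) hx
    rw [h1 t ht, h1 _ trc_comm, trc_one, one_mul]
  · obtain ⟨a, -, h2⟩ := key _ x (gen_univ x) hx
    exact ⟨a, by rw [Algebra.algebraMap_eq_smul_one]; exact h2 hc⟩

end Cfsg.Agent.H32.RbClBase
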