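import Cfsg.Agent.H92.RcB
import Cfsg.Agent.H1.FuKit
import Cfsg.Agent.H3.Cores
import Cfsg.Agent.S3861

/-! Real class sizes with equal 2-part (S3860): reduction to `O(G) = 1`. -/

set_option autoImplicit false

namespace Cfsg.Agent.H32.RcR

open Subgroup Cfsg Cfsg.Agent.H92 Cfsg.Agent.H92.RC Cfsg.Agent.H98

universe u

variable {G X : Type*} [Group G] [Group X]

/-- pairs acting on a fibre by signed conjugation -/
def Gam (π : G →* X) (b : X) (P : Subgroup G) : Subgroup (G × ℤˣ) where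
  carrier := {g | g.1 ∈ P ∧ (π g.1 * b * (π g.1)⁻¹) ^ (g.2 : ℤ) = b}
  one_mem' := ⟨P.one_mem, by simp⟩
  mul_mem' := by
    rintro ⟨p, e⟩ ⟨q, f⟩ ⟨h1, h2⟩ ⟨k1, k2⟩
    refine ⟨P.mul_mem h1 k1, ?_⟩
    simp only [Prod.fst_mul, Prod.snd_mul, map_mul, Units.val_mul] at *
    rw [mul_comm (e : ℤ), zpow_mul, show π p * π q * b * (π p * π q)⁻¹ =
      π p * (π q * b * (π q)⁻¹) * (π p)⁻¹ by group, conj_zpow, k2, h2]
  inv_mem' := by
    rintro ⟨p, e⟩ ⟨h1, h2⟩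
    refine ⟨P.inv_mem h1, ?_⟩
    simp only [Prod.fst_inv, Prod.snd_inv, map_inv, Int.units_inv_eq_self] at *
    rw [conj_zpow] at h2 ⊢
    rcases Int.units_eq_one_or e with rfl | rfl
    · simp only [Units.val_one, zpow_one] at *
      rw [← h2, h2.symm.trans h2]
      conv_lhs => rw [← h2]
      group
    · simp only [Units.val_neg, Units.val_one, zpow_neg, zpow_one] at *
      conv_rhs => rw [← inv_inv b]
      conv_lhs => rw [← h2]
      group

instance act (π : G →* X) (b : X) (P : Subgroup G) : MulAction (Gam π b P) (π ⁻¹' {b}) where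
  smul g y := ⟨(g.1.1 * y.1 * g.1.1⁻¹) ^ (g.1.2 : ℤ), by
    have hy : π y.1 = b := y.2
    change π _ = b
    rw [map_zpow, map_mul, map_mul, map_inv, hy]
    exact g.2.2⟩
  one_smul y := Subtype.ext (by
    change ((1 : G) * y.1 * (1 : G)⁻¹) ^ ((1 : ℤˣ) : ℤ) = y.1
    simp)
  mul_smul g h y := Subtype.ext (by
    change (g.1.1 * h.1.1 * y.1 * (g.1.1 * h.1.1)⁻¹) ^ ((g.1.2 * h.1.2 : ℤˣ) : ℤ) =
      (g.1.1 * (h.1.1 * y.1 * h.1.1⁻¹) ^ (h.1.2 : ℤ) * g.1.1⁻¹) ^ (g.1.2 : ℤ)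
    rw [← conj_zpow, ← zpow_mul, Units.val_mul, mul_comm (g.1.2 : ℤ)]
    congr 1
    group)

theorem exists_fix (π : G →* X) (hs : Function.Surjective π) (ho : Odd (Nat.card π.ker)) (b : X)
    {P : Subgroup G} (hP : IsPGroup 2 P) : ∃ x, π x = b ∧ ∀ p ∈ P,
      (Commute (π p) b → Commute p x) ∧ (RC.Inv (π p) b → RC.Inv p x) := by
  have h2 : IsPGroup 2 (Gam π b P) := fun g => by
    obtain ⟨k, hk⟩ := hP ⟨g.1.1, g.2.1⟩
    refine ⟨k + 1, Subtype.ext (Prod.ext ?_ ?_)⟩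
    · change g.1.1 ^ 2 ^ (k + 1) = 1
      rw [pow_succ, pow_mul, show g.1.1 ^ 2 ^ k = 1 from congrArg Subtype.val hk, one_pow]
    · change g.1.2 ^ 2 ^ (k + 1) = 1
      rw [pow_succ', pow_mul, Int.units_sq, one_pow]
  obtain ⟨x, hx⟩ := h2.nonempty_fixed_point_of_prime_not_dvd_card (π ⁻¹' {b}) (by
    rw [Nat.card_congr (MonoidHom.fiberEquivKerOfSurjective hs b)]
    exact ho.not_two_dvd_nat)
  refine ⟨x.1, x.2, fun p hp => ⟨fun h => ?_, fun h => ?_⟩⟩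
  · have := congrArg Subtype.val (hx ⟨(p, 1), hp, by simpa using cj_of_comm h⟩)
    change (p * x.1 * p⁻¹) ^ ((1 : ℤˣ) : ℤ) = x.1 at this
    exact comm_of_cj (by simpa using this)
  · have := congrArg Subtype.val (hx ⟨(p, -1), hp, by
      change (π p * b * (π p)⁻¹) ^ ((-1 : ℤˣ) : ℤ) = b
      rw [h]
      simp⟩)
    change (p * x.1 * p⁻¹) ^ ((-1 : ℤˣ) : ℤ) = x.1 at this
    rw [Units.val_neg, Units.val_one, zpow_neg, zpow_one] at this
    exact inv_eq_iff_eq_inv.1 this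

theorem lift [Finite G] (π : G →* X) (hs : Function.Surjective π) (ho : Odd (Nat.card π.ker))
    {b : X} (hb : Re b) {Q : Subgroup X} (hQ : SylIn 2 Q Ce[b]) :
    ∃ x, π x = b ∧ Re x ∧ Nat.card Q = 2 ^ (Nat.card Ce[x]).factorization 2 := by
  have := Finite.of_surjective π hs
  obtain ⟨P, hP⟩ := exists_sylIn 2 ((Cs b).comap π)
  have hP' := hP.map π
  rw [map_comap_eq_self_of_surjective hs] at hP'
  obtain ⟨x, hx, hf⟩ := exists_fix π hs ho b hP.isPGroup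
  obtain ⟨u, hu⟩ := hb
  obtain ⟨_, ⟨r, hr, rfl⟩, hr'⟩ := exists_inv_syl hP' le_rfl (Or.inr hu) hu
  obtain ⟨T, hT⟩ := exists_sylIn 2 Ce[x]
  refine ⟨x, hx, ⟨r, (hf r hr).2 hr'⟩, ?_⟩
  rw [← hT.card_eq_pow_factorization]
  apply le_antisymm
  · rw [hQ.card_eq (syl_inf_Cs hP')]
    have h1 : P.map π ⊓ Ce[b] = (P ⊓ Ce[b].comap π).map π := by
      apply le_antisymm
      · rintro _ ⟨⟨p, hp, rfl⟩, h⟩
        exact ⟨p, ⟨hp, h⟩, rfl⟩
      · rintro _ ⟨p, hp, rfl⟩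
        exact ⟨⟨p, hp.1, rfl⟩, hp.2⟩
    rw [h1]
    refine (Nat.le_of_dvd Nat.card_pos (card_map_dvd _ π)).trans (hT.card_le ?_ ?_)
    · exact fun p hp => mem_C.2 ((hf p hp.1).1 (mem_C.1 hp.2))
    · exact hP.isPGroup.to_le inf_le_left
  · have h1 : Nat.card (T.map π) = Nat.card T := by
      have h2 : π.ker ⊓ T = ⊥ := by
        obtain ⟨k, hk⟩ := hT.isPGroup.exists_card_eq
        exact inf_eq_bot_of_coprime (hk ▸ (Nat.coprime_two_right.2 ho).pow_right k)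
      rw [← relIndex_ker, ← inf_relIndex_right, h2, relIndex_bot_left]
    rw [← h1]
    refine hQ.card_le ?_ (hT.isPGroup.map π)
    rintro _ ⟨t, ht, rfl⟩
    exact mem_C.2 (hx ▸ (mem_C.1 (hT.le ht)).map π)

theorem rcred (main : ∀ (X : Type u) [Group X] [Finite X] (c : ℕ), H92.RC.Hyp X c →
      Cfsg.pPrimeCore 2 X = ⊥ → ∀ x : X, Odd (orderOf x) → x ≠ 1 → ¬ H92.RC.Re x)
    {G : Type u} [Group G] [Finite G] (a : ℕ)
    (h : ∀ x : G, IsConj x x⁻¹ → x ∉ Subgroup.center G →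
      ((Subgroup.centralizer ({x} : Set G)).index).factorization 2 = a) :
    ∃ N K : Subgroup G, N.Normal ∧ K.Normal ∧ N ≤ K ∧ Odd (Nat.card N) ∧ Odd K.index ∧
      ∃ j : ℕ, N.relIndex K = 2 ^ j := by
  let π := QuotientGroup.mk' (pPrimeCore 2 G)
  have hs : Function.Surjective π := QuotientGroup.mk'_surjective _
  have hk : π.ker = pPrimeCore 2 G := QuotientGroup.ker_mk' _
  have ho : Odd (Nat.card π.ker) := by
    rw [hk]
    exact Nat.coprime_two_right.1 (H3.pPrimeCore_coprime 2 G)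
  have h0 := H3.pPrimeCore_quotient_pPrimeCore 2 G
  have hH : Hyp (G ⧸ pPrimeCore 2 G) (2 ^ ((Nat.card G).factorization 2 - a)) := by
    refine ⟨H1.FU.center_two h0, fun b hb hz Q hQ => ?_⟩
    obtain ⟨x, rfl, hx, e⟩ := lift π hs ho hb hQ
    have h1 := h x (re_iff.1 hx) fun hc => hz (mem_center_iff.2 fun g => by
      obtain ⟨g, rfl⟩ := hs g
      rw [← map_mul, ← map_mul, mem_center_iff.1 hc])
    rw [e, ← Ce[x].card_mul_index, Nat.factorization_mul Nat.card_pos.ne' index_ne_zero_of_finite,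
      Finsupp.add_apply, h1, Nat.add_sub_cancel]
  obtain ⟨P⟩ : Nonempty (Sylow 2 (G ⧸ pPrimeCore 2 G)) := inferInstance
  have hN := (S3861.result P).1 fun x h1 h2 h3 => main _ _ hH h0 x h2 h1 (re_iff.2 h3)
  refine ⟨π.ker, (P : Subgroup _).comap π, inferInstance, hN.comap π, ker_le_comap π _, ho, ?_, ?_⟩
  · rw [index_comap_of_surjective _ hs]
    exact Nat.odd_iff.2 (Nat.two_dvd_ne_zero.1 P.not_dvd_index)
  · rw [relIndex_ker, map_comap_eq_self_of_surjective hs]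
    exact P.isPGroup'.exists_card_eq

end Cfsg.Agent.H32.RcR
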