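import Cfsg.Agent.H54.RfKitP

/-! RF-G17: the commutator of `P₁` and `P₇`. -/

set_option autoImplicit false
set_option linter.unusedSimpArgs false
set_option linter.unnecessarySeqFocus false

namespace Cfsg.Agent.H32.RfG

open Cfsg Cfsg.Agent.H15.O8 Cfsg.Agent.H39 Cfsg.Agent.H36.O8T Cfsg.Agent.H54.RF Subgroup
open scoped commutatorElement

universe u v

theorem cm {G : Type*} [Group G] {A B α β u v w : G} (h2 : α * B * α⁻¹ = B * u)
    (h3 : β * A * β⁻¹ = A * w) (h4 : α * β * α⁻¹ = β * v) (v1 : Commute v A) (v2 : Commute v B)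
    (v3 : Commute v β) (u1 : Commute (u * w⁻¹) A) (u2 : Commute (u * w⁻¹) B) :
    ⁅A * α, B * β⁆ = ⁅A, B⁆ * (u * w⁻¹) * v :=
  calc _ = A * (α * B * α⁻¹) * (α * β * α⁻¹) * (A⁻¹ * β⁻¹ * B⁻¹) := by group
    _ = A * B * u * β * (v * (A⁻¹ * β⁻¹ * B⁻¹)) := by rw [h2, h4]; group
    _ = A * B * u * (β * A * β⁻¹)⁻¹ * B⁻¹ * v := by
      rw [((v1.inv_right.mul_right v3.inv_right).mul_right v2.inv_right).eq]; group
    _ = A * B * (u * w⁻¹ * (A⁻¹ * B⁻¹)) * v := by rw [h3]; group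
    _ = _ := by rw [(u1.inv_right.mul_right u2.inv_right).eq]; group

theorem cm1 {G : Type*} [Group G] {g A B α β u : G} (hA : g * A * g⁻¹ = A * α)
    (hB : g * B * g⁻¹ = B * β) (h2 : α * B * α⁻¹ = B * u) (h3 : β * A * β⁻¹ = A * u)
    (h4 : Commute α β) : Commute ⁅A, B⁆ g := by
  refine (conj_eq_iff.1 ?_).symm
  rw [conjugate_commutatorElement, hA, hB, cm (v := 1) h2 h3 (by rw [h4.eq]; group) (by simp) (by simp)
    (by simp) (by simp) (by simp)]
  simp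

theorem comm_cm {G : Type*} [Group G] {g A B : G} (hA : Commute g A) (hB : Commute g B) :
    Commute g ⁅A, B⁆ := ((hA.mul_right hB).mul_right hA.inv_right).mul_right hB.inv_right

theorem inv_cm {G : Type*} [Group G] {A B : G} (hA : A * A = 1) (hB : B * B = 1) :
    A * ⁅A, B⁆ * A⁻¹ = ⁅A, B⁆⁻¹ ∧ B * ⁅A, B⁆ * B⁻¹ = ⁅A, B⁆⁻¹ := by
  simp only [commutatorElement_def, mul_inv_rev, inv_eq_of_mul_eq_one_right hA,
    inv_eq_of_mul_eq_one_right hB, ← mul_assoc, hA, one_mul, true_and]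
  rw [mul_assoc _ B B, hB, mul_one]

variable {K : Type*} [Field K] {T : Tits K} {G : Type*} [Group G] {M : FF T G} {t : G} {p r : K → G}
  {e c ε : K}

variable (M r) in
/-- coordinates in an abelian group -/
def F (a b : K) (u : U T) : G := P3 M r a * r b * M.φ u

theorem F_mul (h : Ctx M t) (H : HR M t p r) {u : U T} (hu : u ∈ D T) (a b a' b' : K) (v : U T) :
    F M r a b u * F M r a' b' v = F M r (a + a') (b + b') (u * v) := by
  simp only [F, (H.f3 h).add, H.radd, map_mul, mul_assoc, (H.c35 a' b).symm.left_comm,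
    (H.cen3 a' (D_le_Q hu) hu.2.2.1).symm.left_comm,
    (H.rcen b' u (O_le_Tc (D_le_O hu))).symm.left_comm]

theorem F_zero (h : Ctx M t) (H : HR M t p r) (u : U T) : F M r 0 0 u = M.φ u := by
  rw [F, (H.f3 h).zero, H.f5.zero, one_mul, one_mul]

theorem F_cen (H : HR M t p r) (g : Gm M p r e c ε) {u : U T} (hu : u ∈ V T) (h2 : u.a2 = 0)
    (h6 : u.a6 = 0) (a b s : K) : Commute (F M r a b u) (P1 M r s) ∧ Commute (F M r a b u) (P7 M r s) :=
  ⟨((H.c13 s a).symm.mul_left (HR.c15 g s b).symm).mul_left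
      (H.cen1 s (V_le_Q hu) hu.2.2.1 hu.2.2.2.1 h6 hu.2.2.2.2.1).symm,
    ((g.g37 a s).mul_left (H.c57 b s)).mul_left (H.cen7 s ⟨hu.1, hu.2.1, h2, hu.2.2.1⟩).symm⟩

theorem F_inj {a b : K} {u v : U T} (h : F M r a b u = F M r a b v) : u = v := M.inj (mul_left_cancel h)

theorem p_eq_one (H : HR M t p r) {a : K} (h : p a = 1) : a = 0 := by
  have := H.mov a
  rw [h, one_mul, inv_one, mul_one, left_eq_mul] at this
  exact congrArg U.a4 (φ_eq_one M this)

theorem kD (H : HR M t p r) (a1 : A1 M p r e) (g : Gm M p r e c ε) (a b : K) {d : U T} (hd : d ∈ D T) :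
    Commute ⁅P1 M r a, P7 M r b⁆ (M.φ d) := by
  have k : ∀ u ∈ V T, u.a2 = 0 → u.a6 = 0 → Commute ⁅P1 M r a, P7 M r b⁆ (M.φ u) := fun u hu h2 h6 =>
    (comm_cm (H.cen1 a (V_le_Q hu) hu.2.2.1 hu.2.2.2.1 h6 hu.2.2.2.2.1).symm
      (H.cen7 b ⟨hu.1, hu.2.1, h2, hu.2.2.1⟩).symm).symm
  have z : ∀ s, Commute (p s * M.φ (x4 T (c * s))) (P1 M r a) ∧
      Commute (p s * M.φ (x4 T (c * s))) (P7 M r b) := fun s =>
    ⟨(H.c14 a s).symm.mul_left (H.cen1 a ⟨rfl, rfl⟩ rfl rfl rfl rfl).symm,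
      (H.c47 s b).mul_left (H.cen7 b ⟨rfl, rfl, rfl, rfl⟩).symm⟩
  rw [eq_O (D_le_O hd), hd.2.2.1, hd.2.2.2.1, hd.2.2.2.2.2, y6_zero, x7_zero, x8_zero]
  simp only [mul_one, map_mul]
  refine ((((Commute.mul_right ?_ (k _ (by o8s) rfl rfl)).mul_right ?_).mul_right
    (k _ (by o8s) rfl rfl)).mul_right (k _ (by o8s) rfl rfl)).mul_right ?_
  · exact cm1 (α := 1) (u := 1) (by
      rw [mul_one, conj_eq_iff]; exact (H.cen1 a ⟨rfl, rfl⟩ rfl rfl rfl rfl).symm) (HR.x2P7 a1 _ b)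
      (by simp) (by rw [mul_one, conj_eq_iff]; exact (H.c14 a _).symm) (by simp)
  · refine cm1 (u := p (d.b4 * a * b) * M.φ (x4 T (c * (d.b4 * a * b)))) (H.y4P1 _ a) (H.y4P7 _ b)
      ?_ ?_ (H.c26 _ _)
    · rw [← (z _).2.eq, ← mul_inv_eq_iff_eq_mul, ← mul_assoc c, ← g.g27]; rfl
    · rw [← (z _).1.eq, ← mul_inv_eq_iff_eq_mul, mul_right_comm d.b4, ← mul_assoc c, ← H.g16 g]; rfl
  · exact cm1 (β := 1) (u := 1) (HR.x6P1 a1 H.toH4 _ a) (by
      rw [mul_one, conj_eq_iff]; exact (H.cen7 b ⟨rfl, rfl, rfl, rfl⟩).symm)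
      (by rw [mul_one, conj_eq_iff]; exact H.c47 _ b) (by simp) (by simp)

theorem kt (h : Ctx M t) (H : HR M t p r) (g : Gm M p r e c ε) (a2 : A2 M r e) (a b : K) :
    Commute (⁅P1 M r a, P7 M r b⁆ * F M r ((1 + e) * T.θ a * b) ((1 + e) * a * T.θ b) 1) t := by
  have e1 : ∀ x y, t * F M r x y 1 * t = F M r x y (x3 T x * x5 T y) := fun x y => by
    simp only [F, map_one, mul_one, conj_mul' h.tt, (H.f3 h).tconj h, H.f5.tconj h, map_mul, mul_assoc,
      (H.rcen y (x3 T x) ⟨rfl, rfl⟩).symm.left_comm]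
  have e2 : P3 M r (T.θ a * b) * r (a * T.θ b) * M.φ (x5 T (e * a * T.θ b)) *
      (r (T.θ b * a) * P3 M r (b * T.θ a) * M.φ (x3 T (e * b * T.θ a)))⁻¹ =
      F M r 0 0 (x5 T (e * a * T.θ b) * x3 T (e * b * T.θ a)) := by
    rw [mul_inv_eq_iff_eq_mul, ← (H.c35 _ _).eq]
    refine Eq.symm ((F_mul h H (by o8s) _ _ _ _ _).trans ?_)
    rw [zero_add, zero_add, mul_comm b, mul_comm (T.θ b), F]
    congr 2
    ext <;> o8s <;> o8ring T
  have e3 : M.φ (x1 T a) * M.φ (x7 T b) * (M.φ (x1 T a))⁻¹ =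
      M.φ (x7 T b) * F M r 0 0 (x3 T (T.θ a * b) * x5 T (a * T.θ b)) := by
    rw [F_zero h H, ← map_inv, ← map_mul, ← map_mul, ← map_mul]
    congr 1
    ext <;> o8s <;> o8ring T
  refine h.comm_of_tconj ?_
  rw [conj_mul' h.tt, conj_comm' h.tt, (H.f1 h).tconj h, (H.f7 h).tconj h, e1,
    cm (by rw [a2 a b, mul_assoc, mul_assoc, ← mul_assoc (P3 M r _)])
      (by rw [H.x7P1 a2 b a, mul_assoc, mul_assoc, ← mul_assoc (r _)]) e3
      (F_cen H g (by o8s) (by o8s) (by o8s) _ _ _).1 (F_cen H g (by o8s) (by o8s) (by o8s) _ _ _).2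
      (by rw [F_zero h H, φ_comm]; ext <;> o8s <;> o8ring T)
      (e2 ▸ (F_cen H g (by o8s) (by o8s) (by o8s) _ _ _).1)
      (e2 ▸ (F_cen H g (by o8s) (by o8s) (by o8s) _ _ _).2),
    e2, mul_assoc, mul_assoc, F_mul h H (by o8s), F_mul h H (by o8s)]
  simp only [zero_add]
  congr 2
  ext <;> o8s <;> o8ring T

variable [Finite K] [Finite G]

theorem key (h : Ctx2 M t) (H : HR M t p r) (a1 : A1 M p r e) (g : Gm M p r e c ε) (a2 : A2 M r e)
    (a b : K) : ∃ x y z, ⁅P1 M r a, P7 M r b⁆ =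
      F M r ((1 + e) * T.θ a * b) ((1 + e) * a * T.θ b) (x3 T x * x4 T y * x5 T z) := by
  have hc := h.toCtx
  by_cases h0 : a = 0 ∨ b = 0
  · refine ⟨0, 0, 0, ?_⟩
    rcases h0 with rfl | rfl <;>
      simp [(H.f1 hc).zero, (H.f7 hc).zero, F_zero hc H, x3_zero, x4_zero, x5_zero]
  push Not at h0
  have ht := kt hc H g a2 a b
  generalize (1 + e) * T.θ a * b = m at ht ⊢
  generalize (1 + e) * a * T.θ b = n at ht ⊢
  have sq : F M r m n 1 * F M r m n 1 = 1 := by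
    rw [F_mul hc H (one_mem _), add_self (T := T), add_self (T := T), F_zero hc H, map_mul, map_one, mul_one]
  have cF := F_cen H g (one_mem _) rfl rfl m n
  have hD : ∀ d ∈ D T, Commute (⁅P1 M r a, P7 M r b⁆ * F M r m n 1) (M.φ d) := fun d hd =>
    (kD H a1 g a b hd).mul_left (((H.cen3 m (D_le_Q hd) hd.2.2.1).mul_left
      (H.rcen n d (O_le_Tc (D_le_O hd)))).mul_left (by simp))
  obtain ⟨d, -, o, ho, -, hd⟩ := h.cw ht fun w hw => hD w (V_le_D (R_le_V (W_le_R hw)))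
  have hV : d ∈ V T := cD d (fun x hx => h.dec_φ hd ho (hD x hx)) hc.q2
  have hp : Commute (p 1) (⁅P1 M r a, P7 M r b⁆ * F M r m n 1) :=
    (comm_cm (H.c14 a 1).symm (H.c47 1 b)).mul_right
      (((H.c34 m 1).symm.mul_right (H.c45 1 n)).mul_right (H.pφ 1 1))
  have hd : ⁅P1 M r a, P7 M r b⁆ * F M r m n 1 = M.φ d * o := hd.resolve_right fun k => by
    rw [k] at hp
    have : Commute (p 1) t := by
      simpa [mul_assoc] using ((H.pφ 1 d).inv_right.mul_right hp).mul_right (H.odd 1 o ho).inv_right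
    have q := H.mov 1
    rw [conj_eq_iff.2 this, left_eq_mul] at q
    exact x4_ne one_ne_zero (φ_eq_one M q)
  have dd : M.φ d * M.φ d = 1 := by rw [← map_mul, sqV d hV, map_one]
  have inv : ∀ i, i * ⁅P1 M r a, P7 M r b⁆ * i⁻¹ = ⁅P1 M r a, P7 M r b⁆⁻¹ → Commute (F M r m n 1) i →
      Commute i o → o = 1 ∧ Commute (M.φ d) i := fun i k1 k2 k3 => by
    have q : i * M.φ d * i⁻¹ = M.φ d * (o * o)⁻¹ :=
      calc _ = i * (M.φ d * o) * i⁻¹ * (i * o * i⁻¹)⁻¹ := by group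
        _ = i * ⁅P1 M r a, P7 M r b⁆ * i⁻¹ * (i * F M r m n 1 * i⁻¹) * o⁻¹ := by
          rw [← hd, conj_eq_iff.2 k3]; group
        _ = (M.φ d * o)⁻¹ * o⁻¹ := by
          rw [k1, conj_eq_iff.2 k2.symm, ← hd, ← (comm_cm (cF a).1 (cF b).2).eq, mul_inv_rev,
            inv_eq_of_mul_eq_one_right sq]
        _ = _ := by rw [← (ho.φ d).eq, mul_inv_rev, inv_eq_of_mul_eq_one_right dd]; group
    have o4 : (o * o)⁻¹ * (o * o)⁻¹ = 1 := by
      have c1 := ((ho.φ d).mul_left (ho.φ d)).inv_left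
      calc _ = M.φ d * (o * o)⁻¹ * (M.φ d * (o * o)⁻¹) := by
            rw [c1.mul_mul_mul_comm, dd, one_mul]
        _ = i * (M.φ d * M.φ d) * i⁻¹ := by rw [← q]; group
        _ = 1 := by rw [dd]; group
    obtain rfl : o = 1 := eq_one_of_odd ho.2.2 ⟨2, by
      rw [← mul_inv_rev, inv_eq_one] at o4; rw [← o4]; simp [pow_succ, mul_assoc]⟩
    exact ⟨rfl, (conj_eq_iff.1 (by simpa using q)).symm⟩
  have i1 := inv_cm ((H.f1 hc).sq a) ((H.f7 hc).sq b)
  obtain ⟨rfl, k1⟩ := inv _ i1.1 (cF a).1 ((H.f1 hc).odd a o ho)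
  obtain ⟨-, k7⟩ := inv _ i1.2 (cF b).2 (by simp)
  have d6 : d.a6 = 0 := by
    have k : Commute (M.φ (d * x6 T d.a6)) (P1 M r a) :=
      (H.cen1 a (by revert hV; o8s; tauto) (by o8s; exact hV.2.2.1) (by o8s; exact hV.2.2.2.1)
        (by revert hV; o8s; rintro ⟨k1, k2, k3, k4, k5, k6, k7⟩; o8ring T)
        (by o8s; exact hV.2.2.2.2.1)).symm
    have q := HR.x6P1 a1 H.toH4 d.a6 a
    rw [conj_eq_iff.2 (by simpa using k1.inv_left.mul_left k), left_eq_mul] at q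
    exact (mul_eq_zero.1 (p_eq_one H q)).resolve_left h0.1
  have d2 : d.a2 = 0 := by
    have k : Commute (M.φ (d * x2 T d.a2)) (P7 M r b) :=
      (H.cen7 b (by revert hV; o8s; rintro ⟨k1, k2, k3, k4, k5, k6, k7⟩; o8ring T)).symm
    have q := HR.x2P7 a1 d.a2 b
    rw [conj_eq_iff.2 (by simpa using k7.inv_left.mul_left k), left_eq_mul] at q
    exact (mul_eq_zero.1 (p_eq_one H q)).resolve_left h0.2
  refine ⟨d.a3, d.a4, d.a5, ?_⟩
  rw [mul_one, ← F_zero hc H] at hd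
  rw [eq_mul_inv_of_mul_eq hd, inv_eq_of_mul_eq_one_right sq, F_mul hc H (V_le_D hV), zero_add, zero_add,
    mul_one]
  congr 1
  rw [eq_V hV, d2, d6]
  ext <;> o8s

/-- RF-G17 -/
theorem g17 : G17Stmt.{u, v} := by
  intro K _ _ T G _ _ M t h p r e H a1 c ε g a2
  have hc := h.toCtx
  choose x y z k using key h H a1 g a2
  have mD : ∀ a b c : K, x3 T a * x4 T b * x5 T c ∈ D T := fun a b c => by o8s
  have tr : ∀ (d : Kˣ × Kˣ) a b, x3 T (x (wt1 T d * a) (wt7 T d * b)) *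
      x4 T (y (wt1 T d * a) (wt7 T d * b)) * x5 T (z (wt1 T d * a) (wt7 T d * b)) =
      x3 T (wt3 T d * x a b) * x4 T (d.1 * T.θ d.1 * y a b) * x5 T (d.1 * d.2 * z a b) := by
    intro d a b
    have e1 : (wt3 T d : K) = T.θ (wt1 T d) * wt7 T d := congrArg Units.val (i17a d)
    have e2 : (d.1 : K) * d.2 = wt1 T d * T.θ (wt7 T d) := congrArg Units.val (i17b d)
    have q := k (wt1 T d * a) (wt7 T d * b)
    rw [← H.tor1, ← H.tor7, ← conjugate_commutatorElement, k, F, ← conj_mul, ← conj_mul, H.tor3, H.rtor,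
      M.hφ, map_mul (tor T d), map_mul (tor T d), tor_x3, tor_x4, tor_x5] at q
    refine F_inj (q.symm.trans ?_)
    rw [F, map_mul T.θ, map_mul T.θ, e1, e2]
    congr 3 <;> ring
  have z0 : ∀ a b, a = 0 ∨ b = 0 → x a b = 0 ∧ y a b = 0 ∧ z a b = 0 := fun a b q => by
    have := k a b
    have : x3 T (x a b) * x4 T (y a b) * x5 T (z a b) = 1 := φ_eq_one M (by
      rcases q with rfl | rfl <;>
        simpa [(H.f1 hc).zero, (H.f7 hc).zero, F_zero hc H] using this.symm)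
    revert this; o8s; exact id
  have y0 : ∀ a b, y a b = 0 := fun a => by
    obtain ⟨s, s0, s1, hs⟩ := N_not_add (T := T) hc.q2
    refine hom_zero (fun i : Kˣ => T.θ i) (fun i => i * T.θ i) (y a) (fun b b' => ?_) (fun i => ?_)
      (fun c c0 => (θu_surj (T := T) (Units.mk0 c c0)).imp fun _ q => congrArg Units.val q)
      ⟨Units.mk0 s s0, 1, Units.mk0 _ s1, by simp, by simpa using hs⟩
    · have q := k a (b + b')
      rw [(H.f7 hc).add, show ∀ A B B' : G, ⁅A, B * B'⁆ = ⁅A, B⁆ * (B * ⁅A, B'⁆ * B⁻¹) from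
        fun _ _ _ => by group, k a b, k a b', conj_eq_iff.2 (F_cen H g (by o8s) (by o8s) (by o8s) _ _ _).2.symm,
        F_mul hc H (mD _ _ _), ← mul_add, ← mul_add, ← map_add] at q
      have := congrArg U.a4 (F_inj q)
      revert this; o8s; o8ring T
    · have := congrArg U.a4 (tr (i, i) a 1)
      rw [show wt1 T (i, i) = 1 from div_self' _, show wt7 T (i, i) = θu T i from mul_div_cancel_left _ _]
        at this
      revert this; o8s; simp
  have hx : ∀ a b, x a b = x 1 1 * (T.θ a * b) := fun a b => by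
    by_cases q : a = 0 ∨ b = 0
    · rw [(z0 a b q).1]; rcases q with rfl | rfl <;> simp
    push Not at q
    refine hom_pair (wt1 T) (wt7 T) (wt3 T) w17 (fun a b => T.θ a * b)
      (fun d => congrArg Units.val (i17a d)) x (fun d => ?_) q.1 q.2
    have := congrArg U.a3 (tr d 1 1)
    revert this; o8s; exact id
  have hz : ∀ a b, z a b = z 1 1 * (a * T.θ b) := fun a b => by
    by_cases q : a = 0 ∨ b = 0
    · rw [(z0 a b q).2.2]; rcases q with rfl | rfl <;> simp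
    push Not at q
    refine hom_pair (wt1 T) (wt7 T) (fun d => d.1 * d.2) w17 (fun a b => a * T.θ b)
      (fun d => congrArg Units.val (i17b d)) z (fun d => ?_) q.1 q.2
    have := congrArg U.a5 (tr d 1 1)
    revert this; o8s; exact id
  have sy : z 1 1 = x 1 1 := by
    have q := k 1 1
    have q' := congrArg (fun w => M.n8 * w * M.n8) q
    simp only [conj_comm' M.n8n8, F, conj_mul' M.n8n8, map_mul, n8_x3, n8_x4, n8_x5, map_one,
      mul_one] at q'
    rw [n8_P1, n8_P7, n8_P3, n8_r, ← commutatorElement_inv, q, inv_eq_iff_mul_eq_one, ← (H.c35 _ _).eq, ← map_mul, ← map_mul,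
      map_one, mul_one, mul_one, ← F, F_mul hc H (mD _ _ _), add_self (T := T), F_zero hc H] at q'
    have := congrArg U.a3 (φ_eq_one M q')
    revert this; o8s; o8ring T
  refine ⟨x 1 1, fun a b => ?_⟩
  rw [k, hx, hz, y0, sy, F, x4_zero, mul_one, map_mul, ← mul_assoc, ← mul_assoc (x 1 1),
    ← mul_assoc (x 1 1), mul_assoc (P3 M r _), (H.rcen _ (x3 T _) ⟨rfl, rfl⟩).eq, ← mul_assoc]

end Cfsg.Agent.H32.RfG
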