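import Cfsg.Agent.H35.S4Defs

/-! Project S4, piece RAD3: the conjugates of `X̂₁` by `X₄`. -/

set_option autoImplicit false

namespace Cfsg.Agent.H32.S4Rad3

open Cfsg Cfsg.Agent.H63 Cfsg.Agent.H63.SL Cfsg.Agent.H35.S4 Subgroup
open scoped commutatorElement

universe u v

variable {F : Type v} [Field F] {G : Type u} [Group G] {L : Subgroup G} {x : ZMod 8 → F → G}
  {t : G} {c l c' l' : F} {Xh : ZMod 8 → Subgroup G} {Y : Subgroup G} {π : G} {a : F}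

theorem cen {i : ZMod 8} {p : G} (hp : p ∈ C[A3 x i]) (s : F) :
    Commute (x (i - 1) s) p ∧ Commute (x i s) p ∧ Commute (x (i + 1) s) p :=
  ⟨hp _ (mem_sup_left (mem_sup_left (subset_closure ⟨s, rfl⟩))),
    hp _ (mem_sup_left (mem_sup_right (subset_closure ⟨s, rfl⟩))),
    hp _ (mem_sup_right (subset_closure ⟨s, rfl⟩))⟩

theorem mul_of_cm {g k z : G} (h : ⁅g, k⁆ = z) : g * k = z * k * g := by
  rw [← h, commutatorElement_def]; group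

theorem cj_of_com {g k : G} (h : Commute k g) : g * k * g⁻¹ = k := by
  rw [← h.eq, mul_inv_cancel_right]

theorem cjm (g a b : G) : g * (a * b) * g⁻¹ = g * a * g⁻¹ * (g * b * g⁻¹) := by group

section Pin

variable (h : Pin2 x)
include h

theorem x0 (i : ZMod 8) : x i 0 = 1 := by
  have := h.add i 0 0
  rw [add_zero] at this
  exact left_eq_mul.1 this

theorem aa (s : F) : s + s = 0 := by rw [← two_mul, h.two, zero_mul]

theorem xx (i : ZMod 8) (s : F) : x i s * x i s = 1 := by rw [← h.add, aa h, x0 h]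

theorem xi (i : ZMod 8) (s : F) : (x i s)⁻¹ = x i s := inv_eq_of_mul_eq_one_right (xx h i s)

theorem c12 (s r : F) : Commute (x 1 s) (x 2 r) := h.c1 1 s r
theorem c13 (s r : F) : Commute (x 1 s) (x 3 r) := h.c2 1 s r
theorem c23 (s r : F) : Commute (x 2 s) (x 3 r) := h.c1 2 s r
theorem c24 (s r : F) : Commute (x 2 s) (x 4 r) := h.c2 2 s r
theorem c34 (s r : F) : Commute (x 3 s) (x 4 r) := h.c1 3 s r

theorem r14 (s u : F) : x 4 u * x 1 s * (x 4 u)⁻¹ = x 2 (s ^ 2 * u) * (x 3 (s * u) * x 1 s) := by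
  have e : ⁅x 1 s, x 4 u⁆ = x 2 (s ^ 2 * u) * x 3 (s * u) := h.rs 1 (by decide) s u
  rw [← mul_assoc, ← ((c12 h s _).mul_right (c13 h s _)).eq, ← e, commutatorElement_def, xi h 1,
    ← mul_assoc, ← mul_assoc, ← mul_assoc, xx h, one_mul]

end Pin

variable (x t l Xh Y π a) in
/-- `π` conjugated by `x₄(u)`, up to the factor `g`. -/
def Rel (u : F) (g : G) : Prop :=
  ∃ p ∈ Xh 3, ∃ y ∈ Y, p * t * p⁻¹ = t * x 3 (a * u) ∧ y * t * y⁻¹ = t * x 2 ((1 + l) * a ^ 2 * u) ∧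
    x 4 u * π * (x 4 u)⁻¹ = p * π * y * g

variable (hC : Ctx L x t) (hX : HatP L x t c l Xh) (hY : Hat2 L x t c' l' Y) (hπ : π ∈ Xh 1)
  (ha : π * t * π⁻¹ = t * x 1 a)

include hC in
theorem xt (i : ZMod 8) (s : F) : x i s * t * (x i s)⁻¹ = t :=
  cj_of_com (hC.kb.tL _ (hC.kb.xL i s))

include hX in
theorem cen1 {p : G} (hp : p ∈ Xh 1) (s : F) : Commute (x 1 s) p ∧ Commute (x 2 s) p :=
  (cen ((hX.mem 1 (by decide) p).1 hp).1 s).2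

include hX in
theorem cen3 {p : G} (hp : p ∈ Xh 3) (s : F) :
    Commute (x 2 s) p ∧ Commute (x 3 s) p ∧ Commute (x 4 s) p :=
  cen ((hX.mem 3 (by decide) p).1 hp).1 s

include hY in
theorem cen2 {p : G} (hp : p ∈ Y) (s : F) :
    Commute (x 1 s) p ∧ Commute (x 2 s) p ∧ Commute (x 3 s) p := cen (hY.cen hp).1 s

include hX hπ ha in
theorem act3 (s : F) : π * x 3 s = x 2 (l * a * s) * x 3 s * π :=
  mul_of_cm (hX.act 1 (by decide) π hπ a ha s).2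

include hC hY in
theorem abs2 {u e : F} {g : G} (h : Rel x t l Xh Y π a u (x 2 e * g)) : Rel x t l Xh Y π a u g := by
  obtain ⟨p, hp, y, hy, h1, h2, h3⟩ := h
  refine ⟨p, hp, y * x 2 e, mul_mem hy (hY.le e), h1, ?_, by rw [h3]; group⟩
  rw [← h2]
  conv_rhs => rw [← xt hC 2 e]
  group

include hC hX hY hπ ha in
theorem abs3 {u e : F} {g : G} (h : Rel x t l Xh Y π a u (x 3 e * g)) : Rel x t l Xh Y π a u g := by
  obtain ⟨p, hp, y, hy, h1, h2, h3⟩ := h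
  refine abs2 hC hY (e := l * a * e)
    ⟨p * x 3 e, mul_mem hp (hX.le 3 (by decide) e), y, hy, ?_, h2, ?_⟩
  · rw [← h1]
    conv_rhs => rw [← xt hC 3 e]
    group
  · rw [h3, mul_assoc (p * π), ← mul_assoc y, ← (cen2 hY hy e).2.2.eq, mul_assoc (x 3 e),
      ← mul_assoc, mul_assoc p, act3 hX hπ ha, (c23 hC.mod.pin _ _).eq, mul_assoc (x 3 e),
      (cen1 hX hπ _).2.eq, mul_assoc _ y, ← mul_assoc y, ← (cen2 hY hy _).2.1.eq]
    group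

include hC hX hY hπ ha in
theorem start (u : F) : ∃ v, ∃ k ∈ C[L], (∀ y ∈ Y, ∃ e, k * y = y * x 2 e * k) ∧
    Rel x t l Xh Y π a u (x 1 v * k) := by
  have h := hC.mod.pin
  obtain ⟨p, hp, h1⟩ := hX.surj 3 (by decide) (a * u)
  have a1 : ∀ s, p * x 1 s = x 2 (l * (a * u) * s) * x 1 s * p := fun s =>
    mul_of_cm (hX.act 3 (by decide) p hp _ h1 s).1
  have e : ∀ z z', p * π * z * (p * π)⁻¹ = x 4 u * π * (x 4 u)⁻¹ * z' * (x 4 u * π * (x 4 u)⁻¹)⁻¹ →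
      (p * π)⁻¹ * (x 4 u * π * (x 4 u)⁻¹) * z' * ((p * π)⁻¹ * (x 4 u * π * (x 4 u)⁻¹))⁻¹ = z :=
    fun z z' k => by
      calc _ = (p * π)⁻¹ * (x 4 u * π * (x 4 u)⁻¹ * z' * (x 4 u * π * (x 4 u)⁻¹)⁻¹) * (p * π) := by
            group
        _ = z := by rw [← k]; group
  have l1 : ∀ z, p * π * z * (p * π)⁻¹ = p * (π * z * π⁻¹) * p⁻¹ := fun z => by group
  have l2 : ∀ z, x 4 u * π * (x 4 u)⁻¹ * z * (x 4 u * π * (x 4 u)⁻¹)⁻¹ =
      x 4 u * (π * (x 4 u * z * (x 4 u)⁻¹) * π⁻¹) * (x 4 u)⁻¹ := fun z => by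
    conv_rhs => rw [← xi h 4 u, inv_inv]
    rw [xi h 4 u]
    group
    rw [zpow_neg_one (x 4 u), xi h 4 u]
  have wt := e (t * x 2 ((1 + l) * a ^ 2 * u)) t (by
    rw [l1, l2, xt hC, ha, cjm π, ha, cj_of_com (cen1 hX hπ _).2, cjm p, cjm p,
      cjm (x 4 u), h1, xt hC, r14 h, cj_of_com (cen3 hX hp _).1, a1, mul_inv_cancel_right,
      mul_assoc, mul_assoc, mul_assoc, (c12 h _ _).eq, ← mul_assoc (x 2 _), ← h.add,
      ← mul_assoc (x 3 _), ← (c23 h _ _).eq, mul_assoc]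
    congr 3
    linear_combination (l * a ^ 2 * u) * h.two)
  have wA : (p * π)⁻¹ * (x 4 u * π * (x 4 u)⁻¹) ∈ C[A3 x 2] := fun g hg => by
    obtain ⟨s1, s2, s3, rfl⟩ := (hC.kp.memA 2 g).1 hg
    have k : ∀ z, p * π * z * (p * π)⁻¹ = x 4 u * π * (x 4 u)⁻¹ * z * (x 4 u * π * (x 4 u)⁻¹)⁻¹ →
        Commute z ((p * π)⁻¹ * (x 4 u * π * (x 4 u)⁻¹)) := fun z k =>
      (mul_inv_eq_iff_eq_mul.1 (e z z k)).symm
    refine ((k (x 1 s1) ?_).mul_left (k (x 2 s2) ?_)).mul_left (k (x 3 s3) ?_)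
    · rw [l1, l2, cj_of_com (cen1 hX hπ _).1, a1, mul_inv_cancel_right, r14 h, cjm π,
        cjm π, cj_of_com (cen1 hX hπ _).1, cj_of_com (cen1 hX hπ _).2, act3 hX hπ ha,
        mul_inv_cancel_right, cjm (x 4 u), cjm (x 4 u), cjm (x 4 u), r14 h, cj_of_com (c24 h _ _),
        cj_of_com (c24 h _ _), cj_of_com (c34 h _ _), mul_assoc (x 2 _) (x 3 _),
        ← (c23 h _ _).left_comm, ← mul_assoc (x 3 _), xx h, one_mul, ← mul_assoc (x 2 _),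
        ← mul_assoc (x 2 _ * _), ← h.add, ← h.add]
      congr 2
      linear_combination (-(s1 ^ 2 * u)) * h.two
    · rw [l1, l2, cj_of_com (c24 h _ _), cj_of_com (cen1 hX hπ _).2, cj_of_com (c24 h _ _),
        cj_of_com (cen3 hX hp _).1]
    · rw [l1, l2, cj_of_com (c34 h _ _), act3 hX hπ ha, mul_inv_cancel_right, cjm p,
        cjm (x 4 u), cj_of_com (c24 h _ _), cj_of_com (c34 h _ _), cj_of_com (cen3 hX hp _).1,
        cj_of_com (cen3 hX hp _).2.1]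
  obtain ⟨y, hy, h2⟩ := hY.sat _ ⟨_, wt.symm⟩
  obtain ⟨v, hv, o, ho, h3⟩ := hC.kb.cA 2 (y⁻¹ * ((p * π)⁻¹ * (x 4 u * π * (x 4 u)⁻¹)))
    (mul_inv_eq_iff_eq_mul.1 (by
      rw [show ∀ w : G, y⁻¹ * w * t * (y⁻¹ * w)⁻¹ = y⁻¹ * (w * t * w⁻¹) * y from fun w => by group,
        wt, ← h2]
      group)) (mul_mem (inv_mem (hY.cen hy).1) wA)
  obtain ⟨s1, s2, s3, rfl⟩ := (hC.kp.memA 2 v).1 hv
  have fin : ∀ k, y⁻¹ * ((p * π)⁻¹ * (x 4 u * π * (x 4 u)⁻¹)) = x 1 s1 * x 2 s2 * x 3 s3 * k →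
      Rel x t l Xh Y π a u (x 1 s1 * k) := fun k hk =>
    abs3 hC hX hY hπ ha (e := s3) (abs2 hC hY (e := s2) ⟨p, hp, y, hy, h1, h2, by
      rw [mul_assoc (x 1 s1), ((c12 h _ _).mul_right (c13 h _ _)).eq, mul_assoc (x 2 s2),
        mul_assoc (x 2 s2), mul_assoc (x 3 s3)] at hk
      rw [← hk]
      group⟩)
  have oy : ∀ y ∈ Y, o * y = y * o := fun y hy => hY.odd o ho.1 ho.2.1 ho.2.2 y hy
  rcases h3 with h3 | h3
  · exact ⟨s1, o, ho.1, fun y hy => ⟨0, by rw [x0 h, mul_one, oy y hy]⟩, fin o h3⟩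
  · refine ⟨s1, t * o, mul_mem hC.tc.tc ho.1, fun y hy => ?_,
      fin _ (by rw [h3, (hC.kb.tL _ (hC.kp.syl.le (mem_sup_left hv))).eq, mul_assoc]; rfl)⟩
    obtain ⟨w, h4, -⟩ := hY.mov y hy
    refine ⟨w ^ 2, ?_⟩
    rw [mul_assoc, oy y hy, ← mul_assoc, ← mul_assoc, mul_assoc y,
      ← (hC.kb.tL _ (hC.kb.xL 2 _)).eq, ← mul_assoc y, mul_inv_eq_iff_eq_mul.1 h4, mul_assoc t (x 2 _),
      (cen2 hY hy _).2.1.eq, mul_assoc t (y * _), mul_assoc y, xx h, mul_one]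

include hC hX hY hπ ha in
theorem dbl {u u' v : F} {k : G} (hk : k ∈ C[L]) (hk' : ∀ y ∈ Y, ∃ e, k * y = y * x 2 e * k)
    (h1 : Rel x t l Xh Y π a u (x 1 v * k)) (h2 : Rel x t l Xh Y π a u' (x 1 v * k)) :
    Rel x t l Xh Y π a (u' + u) (k * k) := by
  have h := hC.mod.pin
  obtain ⟨p, hp, y, hy, a1, a2, a3⟩ := h1
  obtain ⟨p', hp', y', hy', b1, b2, b3⟩ := h2
  obtain ⟨e, he⟩ := hk' y hy
  obtain ⟨w, -, -, -, h4⟩ := hY.mov y hy
  obtain ⟨s, rfl⟩ := hC.kb.root u'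
  have ck : ∀ i r, Commute (x i r) k := fun i r => hk _ (hC.kb.xL i r)
  have h5 : x 4 (s ^ 2) * y * (x 4 (s ^ 2))⁻¹ = y * x 3 (l' * w * s) := by
    rw [← (cen2 hY hy _).2.2.eq, ← xi h 3, ← (h4 s).1, xi h 4, commutatorElement_def, xi h 4]
    group
    rw [zpow_neg_one (x 4 _), xi h 4]
  refine abs3 hC hX hY hπ ha (e := v * s ^ 2) (abs2 hC hY (e := v ^ 2 * s ^ 2)
    (abs3 hC hX hY hπ ha (e := l' * w * s) (abs2 hC hY (e := e)
      ⟨p * p', mul_mem hp hp', y' * y, mul_mem hy' hy, ?_, ?_, ?_⟩)))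
  · rw [show p * p' * t * (p * p')⁻¹ = p * (p' * t * p'⁻¹) * p⁻¹ by group, b1, ← conj_mul, a1,
      cj_of_com (cen3 hX hp _).2.1, mul_assoc, ← h.add, mul_add, add_comm]
  · rw [show y' * y * t * (y' * y)⁻¹ = y' * (y * t * y⁻¹) * y'⁻¹ by group, a2, ← conj_mul, b2,
      cj_of_com (cen2 hY hy' _).2.1, mul_assoc, ← h.add, mul_add]
  · rw [h.add, show x 4 (s ^ 2) * x 4 u * π * (x 4 (s ^ 2) * x 4 u)⁻¹ =
      x 4 (s ^ 2) * (x 4 u * π * (x 4 u)⁻¹) * (x 4 (s ^ 2))⁻¹ by group, a3, ← conj_mul, ← conj_mul,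
      ← conj_mul, ← conj_mul, b3, h5, r14 h, cj_of_com (cen3 hX hp _).2.2.symm,
      cj_of_com (ck 4 _).symm]
    simp only [mul_assoc, mul_right_inj]
    rw [← mul_assoc k y, he, mul_assoc, mul_assoc, ((cen2 hY hy v).1).left_comm,
      (c12 h _ _).left_comm, ← (ck 3 _).left_comm, (c13 h _ _).left_comm, ← (ck 2 _).left_comm,
      (c12 h _ _).left_comm, ← (ck 3 _).left_comm, (c13 h _ _).left_comm, ← (ck 1 _).left_comm,
      ← mul_assoc (x 1 v), xx h, one_mul]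

include hC hX hY hπ ha in
theorem zero {k : G} (hk : k ∈ C[L]) (h1 : Rel x t l Xh Y π a 0 k) : k = 1 := by
  have h := hC.mod.pin
  obtain ⟨p, hp, y, hy, a1, a2, a3⟩ := h1
  rw [mul_zero, x0 h, mul_one] at a1 a2
  obtain ⟨b, rfl⟩ := hX.fix 3 (by decide) p hp (mul_inv_eq_iff_eq_mul.1 a1)
  obtain ⟨w, h2, -, h3, -⟩ := hY.mov y hy
  rw [a2, left_eq_mul] at h2
  obtain ⟨e, rfl⟩ := (hC.kp.memX 2 y).1 (h3 (pow_eq_zero_iff two_ne_zero |>.1 (h.inj _ _ h2)))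
  have h4 : x 3 b * π = π * (x 3 b * x 2 (l * a * b)) := by
    rw [← mul_assoc, act3 hX hπ ha, mul_assoc, ← (cen1 hX hπ _).2.eq, (c23 h _ _).eq, mul_assoc,
      ← mul_assoc (x 2 _), xx h, one_mul]
  rw [x0 h, one_mul, inv_one, mul_one, h4, mul_assoc, mul_assoc, left_eq_mul, ← mul_assoc,
    mul_eq_one_iff_inv_eq] at a3
  rw [← mem_bot, ← hC.mod.zL]
  exact ⟨a3 ▸ L.inv_mem (mul_mem (mul_mem (hC.kb.xL _ _) (hC.kb.xL _ _)) (hC.kb.xL _ _)), hk⟩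

include hC hX hY hπ in
theorem tor (γ : Fˣ) {u v : F} {k : G} (hk : k ∈ C[L]) (h1 : Rel x t l Xh Y π a u (x 1 v * k)) :
    Rel x t l Xh Y π a (γ * u) (x 1 v * k) := by
  obtain ⟨p, hp, y, hy, a1, a2, a3⟩ := h1
  obtain ⟨g, hg, h2⟩ := hC.kp.tor 1 γ
  have w1 : ∀ s, g * x 1 s * g⁻¹ = x 1 s := fun s => by rw [h2, show wt 1 γ 1 = 1 from rfl]; simp
  have w2 : ∀ s, g * x 2 s * g⁻¹ = x 2 (γ * s) := fun s => by
    rw [h2, show wt 1 γ 2 = 1 ^ 2 * γ from rfl]; simp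
  have w3 : ∀ s, g * x 3 s * g⁻¹ = x 3 (γ * s) := fun s => by
    rw [h2, show wt 1 γ 3 = 1 * γ from rfl]; simp
  have w4 : ∀ s, g * x 4 s * g⁻¹ = x 4 (γ * s) := fun s => h2 4 s
  have gt : g * t * g⁻¹ = t := cj_of_com (hC.kb.tL g hg.1)
  have gπ : g * π * g⁻¹ = π := mul_inv_eq_iff_eq_mul.2
    (((hX.mem 1 (by decide) π).1 hπ).2.1 g ((hC.kb.memT 1 g).2 ⟨hg.1, 1, γ, h2, rfl⟩))
  have m : ∀ p : G, g * p * g⁻¹ * t * (g * p * g⁻¹)⁻¹ = g * (p * t * p⁻¹) * g⁻¹ := fun p => by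
    conv_lhs => rw [← gt]
    group
  refine ⟨g * p * g⁻¹, (hX.mem 3 (by decide) _).2
    (hC.kb.hatH g hg c 3 p ((hX.mem 3 (by decide) p).1 hp)), g * y * g⁻¹,
    (mem_normalizer_iff.1 (hY.nH hg) y).1 hy, ?_, ?_, ?_⟩
  · rw [m, a1, ← conj_mul, gt, w3, mul_left_comm]
  · rw [m, a2, ← conj_mul, gt, w2, mul_left_comm]
  · rw [← w4, ← w1, ← cj_of_com (show Commute k g from (hk g hg.1).symm), conj_inv]
    conv_lhs => rw [← gπ]
    conv_rhs => rw [← gπ]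
    simp only [conj_mul, a3]

theorem rad3 : Rad3Stmt.{u, v} := by
  intro F _ _ G _ _ L x t hC c l c' l' Xh Y hX hY π hπ a ha u
  have h := hC.mod.pin
  obtain ⟨γ, hγ, -⟩ := hC.kb.ne1
  have h1 : (γ : F) + 1 ≠ 0 := fun e => hγ (Units.ext (by
    rw [Units.val_one]; linear_combination e - h.two))
  obtain ⟨v, k, hk, hk', h2⟩ := start hC hX hY hπ ha (u / (γ + 1))
  have h3 := dbl hC hX hY hπ ha hk hk' h2 h2
  have h4 := dbl hC hX hY hπ ha hk hk' h2 (tor hC hX hY hπ γ hk h2)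
  rw [aa h] at h3
  rw [zero hC hX hY hπ ha (mul_mem hk hk) h3, show γ * (u / (γ + 1)) + u / (γ + 1) = u by
    field_simp] at h4
  obtain ⟨p, hp, y, hy, a1, a2, a3⟩ := h4
  exact ⟨p, hp, y, hy, a1, a2, by rw [a3, mul_one]⟩

end Cfsg.Agent.H32.S4Rad3
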