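import Cfsg.Agent.H97.U4Defs
import Cfsg.Agent.H83.Base

/-! Project U4F, pieces W1 and WGEN. -/

set_option autoImplicit false

namespace Cfsg.Agent.H32.U4W1

open Cfsg.Agent.H97 Cfsg.Agent.H97.U4 Subgroup
open Cfsg.Agent.H97.U5 (Hm)

universe u

variable {K : Type u} [Field K] {T : Hm K} {p : ℕ} {Γ : Subgroup (Equiv.Perm (W K))}

theorem z_mem : uW T.ep ∈ AW T := ⟨T.ep, by simp, rfl⟩

theorem z_ne : uW T.ep ≠ 1 := fun e => T.ep_ne (uW_eq_one.1 e)

theorem z_app (b : K) (w : W K) : uW b w = w + (0, -b * w.1) := by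
  ext <;> simp [uW_apply, sub_eq_add_neg]

/-- A vector orthogonal to all multiples of `v` is orthogonal to `v` for the hermitian form. -/
theorem hm_zero {v w : W K} (h : ∀ c : K, Perp T (c • v) w) : hm T v w = 0 :=
  T.eq_zero_of_skew fun c => by
    have := h c
    simp only [Perp, hm, Prod.smul_fst, Prod.smul_snd, smul_eq_mul, map_mul, map_add, T.inv] at this ⊢
    linear_combination this

theorem perp_perp {w y : W K} (hw : w ≠ 0) (h : ∀ x, Perp T w x → Perp T y x) :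
    ∃ l, T.σ l = l ∧ y = l • w := by
  have h1 : w.1 * y.2 = w.2 * y.1 := by
    have := hm_zero (T := T) (v := (T.σ w.1, -T.σ w.2)) (w := y) fun c => (h _ (by
      simp only [Perp, hm, Prod.smul_mk, smul_eq_mul, map_mul, map_neg, T.inv]; ring)).symm
    refine T.σ.injective ?_
    simp only [hm, map_mul] at this ⊢
    linear_combination this
  obtain ⟨x, hx, hx'⟩ : ∃ x, hm T w x = 1 ∧ hm T x w = 1 := by
    by_cases e : w.1 = 0
    · have e' : w.2 ≠ 0 := fun e' => hw (Prod.ext e e')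
      exact ⟨((T.σ w.2)⁻¹, 0), by simp [hm, e'], by simp [hm, e']⟩
    · exact ⟨(0, (T.σ w.1)⁻¹), by simp [hm, e], by simp [hm, e]⟩
  have h2 := h x (hx.trans hx'.symm)
  simp only [Perp, hm] at h2 hx
  refine ⟨hm T y x, ?_, Prod.ext ?_ ?_⟩
  · simp only [hm, map_add, map_mul, T.inv]
    linear_combination -h2
  · simp only [hm, Prod.smul_fst, smul_eq_mul]
    linear_combination -y.1 * hx - T.σ x.1 * h1
  · simp only [hm, Prod.smul_snd, smul_eq_mul]
    linear_combination -y.2 * hx + T.σ x.2 * h1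

variable (h : WG T p Γ)
include h

theorem map_zero' {g : Equiv.Perm (W K)} (hg : g ∈ Γ) : g 0 = 0 := by
  have := h.add g hg 0 0
  rw [add_zero] at this
  exact left_eq_add.1 this

theorem sem {g : Equiv.Perm (W K)} (hg : g ∈ Γ) {f : K} (hf : T.σ f = f) :
    ∃ f', T.σ f' = f' ∧ ∀ w, g (f • w) = f' • g w := by
  have h1 : ∀ w, w ≠ 0 → ∃ l, T.σ l = l ∧ g (f • g⁻¹ w) = l • w := fun w hw =>
    perp_perp hw fun x hx => by
      simpa using h.perp g hg _ _ ((h.perp _ (inv_mem hg) _ _ hx).smul hf)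
  have h2 : ∀ v w, g (f • g⁻¹ (v + w)) = g (f • g⁻¹ v) + g (f • g⁻¹ w) := fun v w => by
    rw [h.add _ (inv_mem hg), smul_add, h.add g hg]
  have h3 : ∀ a b l m : K, a ≠ 0 → b ≠ 0 → g (f • g⁻¹ (a, 0)) = l • ((a, 0) : W K) →
      g (f • g⁻¹ (0, b)) = m • ((0, b) : W K) → l = m := fun a b l m ha hb e e' => by
    obtain ⟨n, -, hn⟩ := h1 ((a, 0) + (0, b)) (by simp [ha])
    rw [h2, e, e'] at hn
    simp only [Prod.smul_mk, smul_eq_mul, Prod.mk_add_mk, mul_zero, add_zero, zero_add,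
      Prod.mk.injEq] at hn
    exact (mul_right_cancel₀ ha hn.1).trans (mul_right_cancel₀ hb hn.2).symm
  have h0 : g (f • g⁻¹ 0) = 0 := by rw [map_zero' h (inv_mem hg), smul_zero, map_zero' h hg]
  obtain ⟨l, hl, e1⟩ := h1 (1, 0) (by simp)
  obtain ⟨m, -, e2⟩ := h1 (0, 1) (by simp)
  obtain rfl := h3 _ _ _ _ one_ne_zero one_ne_zero e1 e2
  have k1 : ∀ a, g (f • g⁻¹ (a, 0)) = l • ((a, 0) : W K) := fun a => by
    by_cases ha : a = 0
    · rw [ha, Prod.mk_zero_zero, h0, smul_zero]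
    · obtain ⟨n, -, e⟩ := h1 (a, 0) (by simp [ha])
      rw [e, h3 _ _ _ _ ha one_ne_zero e e2]
  have k2 : ∀ b, g (f • g⁻¹ (0, b)) = l • ((0, b) : W K) := fun b => by
    by_cases hb : b = 0
    · rw [hb, Prod.mk_zero_zero, h0, smul_zero]
    · obtain ⟨n, -, e⟩ := h1 (0, b) (by simp [hb])
      rw [e, h3 _ _ _ _ one_ne_zero hb e1 e]
  refine ⟨l, hl, fun w => ?_⟩
  have := h2 ((g w).1, 0) (0, (g w).2)
  rw [k1, k2, ← smul_add] at this
  simpa using this

variable [Fact p.Prime] [CharP K p]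

theorem pn {g u : Equiv.Perm (W K)} (hg : g ∈ Γ) (hu : u ∈ AW T) (u1 : u ≠ 1)
    (hn : g * u * g⁻¹ ∈ NW T) : g ∈ NW T := by
  obtain ⟨n, e⟩ := H83.isPGroup_iff.1 (isPGroup_AW T p) u hu
  refine h.ti g hg u hu u1 (h.syl (zpowers (g * u * g⁻¹) ⊔ AW T)
    (sup_le (zpowers_le.2 (mul_mem (mul_mem hg (h.le hu)) (inv_mem hg))) h.le)
    (H83.isPGroup_sup (H83.isPGroup_zpowers (k := n) ?_) (isPGroup_AW T p) (zpowers_le.2 hn))
    le_sup_right (mem_sup_left (mem_zpowers _)))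
  rw [conj_pow, e, mul_one, mul_inv_cancel]

theorem s0 {g : Equiv.Perm (W K)} (hg : g ∈ Γ) (e : ∀ x, (g (0, x)).1 = 0) : g ∈ NW T := by
  have hz : g * uW T.ep * g⁻¹ ∈ Γ := mul_mem (mul_mem hg (h.le z_mem)) (inv_mem hg)
  have k1 : ∀ w, (g * uW T.ep * g⁻¹) w = w + g (0, -T.ep * (g⁻¹ w).1) := fun w => by
    rw [Equiv.Perm.mul_apply, Equiv.Perm.mul_apply, z_app, h.add g hg]
    simp
  have k2 : ∀ y, (g⁻¹ (0, y)).1 = 0 := fun y => perp_D.1 fun x => by
    simpa using h.perp _ (inv_mem hg) _ _ (perp_D.2 (e x) y).symm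
  refine pn h hg z_mem z_ne (h.ti _ hz _ z_mem z_ne ?_)
  rw [show g * uW T.ep * g⁻¹ * uW T.ep = uW T.ep * (g * uW T.ep * g⁻¹) from
    Equiv.ext fun w => ?_, mul_inv_cancel_right]
  · exact z_mem
  rw [Equiv.Perm.mul_apply _ (uW T.ep), Equiv.Perm.mul_apply (uW T.ep), z_app, z_app,
    h.add _ hz, k1 (0, _), k2, mul_zero, Prod.mk_zero_zero, map_zero' h hg, add_zero, k1 w,
    Prod.fst_add, e, add_zero]

omit h in
theorem w1 : W1Stmt T p := fun _ h =>
  ⟨fun _ hg _ hu u1 hn => pn h hg hu u1 hn, fun _ hg e => s0 h hg e, fun _ hg _ hf => sem h hg hf⟩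

omit h [Fact p.Prime] [CharP K p] in
theorem wgen : WGenStmt T p := by
  intro Γ h hB hD g hg
  by_cases e : ∀ x, (g (0, x)).1 = 0
  · exact Or.inl (hB.s0 g hg e)
  push Not at e
  obtain ⟨x0, hx⟩ := e
  have hx' := T.σ_ne_zero hx
  have k : ∀ x, hm T (g (0, x0)) (g (0, x)) = 0 := fun x => hm_zero fun c => by
    obtain ⟨y, hy⟩ := hD g hg c x0
    exact hy ▸ h.perp g hg _ _ (perp_D.2 rfl x)
  have k0 := k x0
  refine Or.inr ⟨_, ⟨(g (0, x0)).2 / (g (0, x0)).1, ?_, rfl⟩, fun x => ?_⟩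
  · rw [hm] at k0
    rw [map_div₀]
    field_simp
    linear_combination k0
  · have k1 := congrArg T.σ (k x)
    simp only [hm, map_add, map_mul, T.inv, map_zero] at k0 k1
    simp only [Equiv.Perm.mul_apply, nW_apply, uW_apply]
    refine mul_eq_zero_of_right _ (sub_eq_zero.2 ?_)
    rw [div_mul_eq_mul_div, eq_div_iff hx]
    refine mul_left_cancel₀ hx' ?_
    linear_combination (g (0, x0)).1 * k1 - (g (0, x)).1 * k0

end Cfsg.Agent.H32.U4W1
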