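import Cfsg.Agent.H42.VpDefs
import Cfsg.Agent.H11.PermChar

/-! Project VP: a class preserving coprime element centralises. -/

set_option autoImplicit false

namespace Cfsg.Agent.H32.VpI2

open Subgroup Cfsg.Agent.H42.Vp

universe u

theorem i2 : I2Stmt.{u} := by
  intro G _ _ p hp K nK x hK ⟨m, hm⟩ h
  haveI : Fact p.Prime := ⟨hp⟩
  -- the elements acting in a class preserving way
  let B : Subgroup G := ⟨⟨⟨{g | ∀ k ∈ K, ∃ h ∈ K, g * k * g⁻¹ = h * k * h⁻¹}, by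
      intro a b ha hb k hk
      obtain ⟨h1, m1, e1⟩ := hb k hk
      obtain ⟨h2, m2, e2⟩ := ha _ (nK.conj_mem k hk h1)
      refine ⟨h2 * h1, mul_mem m2 m1, ?_⟩
      calc a * b * k * (a * b)⁻¹ = a * (b * k * b⁻¹) * a⁻¹ := by group
        _ = h2 * (h1 * k * h1⁻¹) * h2⁻¹ := by rw [e1, e2]
        _ = _ := by group⟩, fun k _ => ⟨1, one_mem _, rfl⟩⟩, by
      intro a ha k hk
      obtain ⟨h1, m1, e1⟩ := ha _ (nK.conj_mem k hk a⁻¹)
      refine ⟨h1⁻¹, inv_mem m1, ?_⟩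
      have e2 : k = h1 * (a⁻¹ * k * a⁻¹⁻¹) * h1⁻¹ := by rw [← e1]; group
      calc a⁻¹ * k * a⁻¹⁻¹ = h1⁻¹ * (h1 * (a⁻¹ * k * a⁻¹⁻¹) * h1⁻¹) * h1⁻¹⁻¹ := by group
        _ = _ := by rw [← e2]⟩
  have hB : zpowers x ≤ B := zpowers_le.2 h
  have hP : IsPGroup p (zpowers x) := by
    obtain ⟨j, -, hj⟩ := (Nat.dvd_prime_pow hp).1 (orderOf_dvd_of_pow_eq_one hm)
    exact IsPGroup.of_card (n := j) (by rw [Nat.card_zpowers, hj])
  have key : ∀ k : K, ∃ g : K, g * k * g⁻¹ ∈ (centralizer {x}).subgroupOf K := by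
    intro k
    let X := MulAction.orbit (ConjAct K) k
    have mem : ∀ y : K, y ∈ X ↔ ∃ g : K, g * k * g⁻¹ = y := fun y =>
      ⟨fun ⟨g, e⟩ => ⟨ConjAct.ofConjAct g, e⟩, fun ⟨g, e⟩ => ⟨ConjAct.toConjAct g, e⟩⟩
    letI : MulAction (zpowers x) X :=
      { smul := fun a y => ⟨⟨a * y.1 * (a : G)⁻¹, nK.conj_mem _ y.1.2 a⟩, by
          obtain ⟨g, e⟩ := (mem _).1 y.2
          obtain ⟨h1, m1, e1⟩ := hB a.2 _ y.1.2
          refine (mem _).2 ⟨⟨h1, m1⟩ * g, Subtype.ext ?_⟩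
          have e' : (g : G) * k * (g : G)⁻¹ = y.1 := congrArg Subtype.val e
          change h1 * g * k * (h1 * g)⁻¹ = a * y.1 * (a : G)⁻¹
          rw [e1, ← e']
          group⟩
        one_smul := fun y => Subtype.ext (Subtype.ext (by
          change (1 : G) * y.1 * (1 : G)⁻¹ = y.1
          group))
        mul_smul := fun a b y => Subtype.ext (Subtype.ext (by
          change (a : G) * b * y.1 * ((a : G) * b)⁻¹ = a * (b * y.1 * (b : G)⁻¹) * (a : G)⁻¹
          group)) }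
    have hd : Nat.card X ∣ Nat.card K := by
      have := MulAction.index_stabilizer (ConjAct K) k
      rw [← Nat.card_coe_set_eq] at this
      exact this ▸ (MulAction.stabilizer (ConjAct K) k).index_dvd_card
    obtain ⟨y, hy⟩ := hP.nonempty_fixed_point_of_prime_not_dvd_card X fun c =>
      (hp.coprime_iff_not_dvd.1 hK.symm) (c.trans hd)
    obtain ⟨g, e⟩ := (mem _).1 y.2
    refine ⟨g, ?_⟩
    rw [e, mem_subgroupOf, mem_centralizer_singleton_iff]
    have e1 : x * y.1 * x⁻¹ = y.1 :=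
      congrArg (fun t : X => ((t.1 : K) : G)) (hy ⟨x, mem_zpowers x⟩)
    rw [mul_inv_eq_iff_eq_mul] at e1
    exact e1.symm
  have top := Cfsg.Agent.H11.eq_top_of_forall_exists_conj_mem _ key
  intro k hk
  have : (⟨k, hk⟩ : K) ∈ (centralizer {x}).subgroupOf K := top ▸ mem_top _
  exact mem_centralizer_singleton_iff.1 this

end Cfsg.Agent.H32.VpI2
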